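import Mathlib

/-!
Binary group actions: basic tests.
-/

set_option autoImplicit false
set_option linter.unusedSectionVars false

namespace Cfsg.Agent.H9
open MulAction

/-- The action is binary. -/
def Bin (G Ω : Type*) [Group G] [MulAction G Ω] : Prop :=
  ∀ (n : ℕ) (I J : Fin n → Ω), 2 ≤ n →
    (∀ i j : Fin n, i ≠ j → ∃ g : G, g • I i = J i ∧ g • I j = J j) → ∃ g : G, ∀ i, g • I i = J i

variable {G Ω : Type*} [Group G] [MulAction G Ω]

/-- Binary actions, for families indexed by any finite type. -/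
theorem Bin.family (h : Bin G Ω) {ι : Type*} [Finite ι] (I J : ι → Ω)
    (hIJ : ∀ i j, ∃ g : G, g • I i = J i ∧ g • I j = J j) : ∃ g : G, ∀ i, g • I i = J i := by
  rcases isEmpty_or_nonempty ι with h0 | ⟨⟨i₀⟩⟩
  · exact ⟨1, fun i => h0.elim i⟩
  obtain ⟨n, ⟨e⟩⟩ := Finite.exists_equiv_fin ι
  let f : Fin (n + 2) → ι := fun i => if hi : i.1 < n then e.symm ⟨i.1, hi⟩ else i₀
  obtain ⟨g, hg⟩ := h (n + 2) (I ∘ f) (J ∘ f) (by omega) fun i j _ => hIJ _ _
  refine ⟨g, fun i => ?_⟩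
  have := hg ⟨(e i).1, by have := (e i).2; omega⟩
  simpa [f] using this

/-- The test on triples. -/
theorem Bin.triple (h : Bin G Ω) {x y z : Ω} {a b : G} (ha : a • x = x) (hb : b • y = y) (hab : a • z = b • z) :
    ∃ g : G, g • x = x ∧ g • y = y ∧ g • z = a • z := by
  obtain ⟨g, hg⟩ := h.family ![x, y, z] ![x, y, a • z] (by
    intro i j
    fin_cases i <;> fin_cases j
    · exact ⟨1, by simp⟩
    · exact ⟨1, by simp⟩
    · exact ⟨a, by simp [ha]⟩
    · exact ⟨1, by simp⟩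
    · exact ⟨1, by simp⟩
    · exact ⟨b, by simp [hb, hab]⟩
    · exact ⟨a, by simp [ha]⟩
    · exact ⟨b, by simp [hb, hab]⟩
    · exact ⟨a, by simp⟩)
  exact ⟨g, hg 0, hg 1, hg 2⟩

/-- The test on quadruples. -/
theorem Bin.quadruple (h : Bin G Ω) {x y z w : Ω} {a b c : G} (ha : a • x = x) (hb : b • y = y) (hc : c • z = z)
    (hab : b • w = a • w) (hac : c • w = a • w) : ∃ g : G, g • x = x ∧ g • y = y ∧ g • z = z ∧ g • w = a • w := by
  obtain ⟨g, hg⟩ := h.family ![x, y, z, w] ![x, y, z, a • w] (by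
    intro i j
    fin_cases i <;> fin_cases j <;>
      first
      | exact ⟨1, one_smul _ _, one_smul _ _⟩
      | exact ⟨a, rfl, rfl⟩
      | exact ⟨a, ha, rfl⟩
      | exact ⟨a, rfl, ha⟩
      | exact ⟨b, hb, hab⟩
      | exact ⟨b, hab, hb⟩
      | exact ⟨c, hc, hac⟩
      | exact ⟨c, hac, hc⟩)
  exact ⟨g, hg 0, hg 1, hg 2, hg 3⟩

theorem ncard_fixedBy_conj (c g : G) : (fixedBy Ω (c * g * c⁻¹)).ncard = (fixedBy Ω g).ncard := by
  rw [← smul_fixedBy, Set.ncard_smul_set]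

/-- With one class of involutions, commuting involutions have the same fixed points. -/
theorem Bin.fix [Finite G] [Finite Ω] (h : Bin G Ω)
    (hone : ∀ s t : G, s ≠ 1 → s * s = 1 → t ≠ 1 → t * t = 1 → ∃ c, c * s * c⁻¹ = t) {s t : G} (hs1 : s ≠ 1)
    (hs : s * s = 1) (ht1 : t ≠ 1) (ht : t * t = 1) (hst : s * t = t * s) {x : Ω} (hx : t • x = x) : s • x = x := by
  classical
  by_contra hsx
  let τ : Ω → Ω := fun c => if c ∈ fixedBy Ω (s⁻¹ * t) then t • c else c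
  have hτ : ∀ c, c ∈ fixedBy Ω (s⁻¹ * t) → t • c = s • c := by
    intro c hc
    rw [mem_fixedBy, mul_smul, inv_smul_eq_iff] at hc
    exact hc
  have ht' : ∀ c, c ∈ fixedBy Ω t → τ c = c := by
    intro c hc
    simp only [τ]
    split_ifs
    · exact hc
    · rfl
  have hs' : ∀ c, c ∈ fixedBy Ω s → τ c = c := by
    intro c hc
    simp only [τ]
    split_ifs with h1
    · rw [hτ c h1]; exact hc
    · rfl
  have hu' : ∀ c, c ∈ fixedBy Ω (s⁻¹ * t) → τ c = t • c := fun c hc => if_pos hc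
  obtain ⟨g, hg⟩ := h.family (ι := ↥(fixedBy Ω t ∪ fixedBy Ω s ∪ fixedBy Ω (s⁻¹ * t))) Subtype.val
    (fun c => τ c) (by
      rintro ⟨c, (hc | hc) | hc⟩ ⟨d, (hd | hd) | hd⟩
      · exact ⟨1, by simp [ht' c hc, ht' d hd]⟩
      · exact ⟨1, by simp [ht' c hc, hs' d hd]⟩
      · exact ⟨t, by rw [ht' c hc]; exact hc, (hu' d hd).symm⟩
      · exact ⟨1, by simp [hs' c hc, ht' d hd]⟩
      · exact ⟨1, by simp [hs' c hc, hs' d hd]⟩
      · exact ⟨s, by rw [hs' c hc]; exact hc, by rw [hu' d hd, hτ d hd]⟩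
      · exact ⟨t, (hu' c hc).symm, by rw [ht' d hd]; exact hd⟩
      · exact ⟨s, by rw [hu' c hc, hτ c hc], by rw [hs' d hd]; exact hd⟩
      · exact ⟨t, (hu' c hc).symm, (hu' d hd).symm⟩)
  have g1 : ∀ c ∈ fixedBy Ω t, g • c = c := fun c hc => (hg ⟨c, Or.inl (Or.inl hc)⟩).trans (ht' c hc)
  have g2 : ∀ c ∈ fixedBy Ω s, g • c = c := fun c hc => (hg ⟨c, Or.inl (Or.inr hc)⟩).trans (hs' c hc)
  have g3 : ∀ c ∈ fixedBy Ω (s⁻¹ * t), g • c = t • c := fun c hc => (hg ⟨c, Or.inr hc⟩).trans (hu' c hc)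
  have hc : ∀ a b : G, a ≠ 1 → a * a = 1 → b ≠ 1 → b * b = 1 → (fixedBy Ω a).ncard = (fixedBy Ω b).ncard := by
    intro a b a1 a2 b1 b2
    obtain ⟨c, rfl⟩ := hone a b a1 a2 b1 b2
    rw [ncard_fixedBy_conj]
  have hu1 : s⁻¹ * t ≠ 1 := by
    intro e
    rw [inv_mul_eq_one] at e
    exact hsx (e ▸ hx)
  have hu : s⁻¹ * t * (s⁻¹ * t) = 1 := by
    rw [inv_eq_of_mul_eq_one_right hs, mul_assoc, ← mul_assoc t, ← hst, mul_assoc, ht, mul_one, hs]
  obtain ⟨c, hc1, hc2⟩ : ∃ c ∈ fixedBy Ω (s⁻¹ * t), t • c ≠ c := by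
    by_contra h0
    push Not at h0
    have h1 : fixedBy Ω (s⁻¹ * t) = fixedBy Ω t :=
      Set.eq_of_subset_of_ncard_le h0 (hc _ _ ht1 ht hu1 hu).le
    have h2 : x ∈ fixedBy Ω (s⁻¹ * t) := h1 ▸ hx
    exact hsx ((hτ x h2).symm.trans hx)
  have hc3 : t • c ∈ fixedBy Ω (s⁻¹ * t) := by
    rw [mem_fixedBy, ← mul_smul, inv_eq_of_mul_eq_one_right hs, hst, mul_assoc, hst, ← mul_assoc, ht, one_mul]
    exact (hτ c hc1).symm
  have hgg : (g ^ 2) • c = c := by rw [pow_two, mul_smul, g3 c hc1, g3 _ hc3, ← mul_smul, ht, one_smul]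
  have hev : 2 ∣ orderOf g := by
    by_contra ho
    obtain ⟨k, hk⟩ : Odd (orderOf g) := Nat.odd_iff.mpr (by omega)
    have h1 : g ^ 2 ∈ stabilizer G c := hgg
    have h2 := pow_mem h1 (k + 1)
    rw [← pow_mul, show 2 * (k + 1) = orderOf g + 1 by omega, pow_succ, pow_orderOf_eq_one, one_mul] at h2
    exact hc2 ((g3 c hc1).symm.trans h2)
  have ho := orderOf_pow_orderOf_div (orderOf_pos g).ne' hev
  set r := g ^ (orderOf g / 2)
  have r1 : r ≠ 1 := by intro e; rw [e] at ho; simp at ho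
  have r2 : r * r = 1 := by rw [← pow_two, ← ho, pow_orderOf_eq_one]
  have r3 : ∀ y : Ω, g • y = y → r • y = y := fun y hy => pow_mem (show g ∈ stabilizer G y from hy) _
  have h3 : fixedBy Ω s = fixedBy Ω r :=
    Set.eq_of_subset_of_ncard_le (fun y hy => r3 y (g2 y hy)) (hc _ _ r1 r2 hs1 hs).le
  have h4 : x ∈ fixedBy Ω r := r3 x (g1 x hx)
  exact hsx (h3 ▸ h4 : x ∈ fixedBy Ω s)

/-- A sufficient condition for an action to be binary. -/
theorem bin_of_stabilizers (h : ∀ (x y z : Ω) (a b : G), a • x = x → b • y = y → a • z = b • z →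
    stabilizer G x = stabilizer G y ∨ a • z = z) : Bin G Ω := by
  intro n I J hn hIJ
  by_cases h0 : ∀ i j, stabilizer G (I i) = stabilizer G (I j)
  · let i₀ : Fin n := ⟨0, by omega⟩
    let i₁ : Fin n := ⟨1, by omega⟩
    obtain ⟨g, hg, -⟩ := hIJ i₀ i₁ (by simp [i₀, i₁])
    refine ⟨g, fun j => ?_⟩
    by_cases hj : i₀ = j
    · exact hj ▸ hg
    obtain ⟨g', h1, h2⟩ := hIJ i₀ j hj
    have h3 : g'⁻¹ * g ∈ stabilizer G (I i₀) := by rw [mem_stabilizer_iff, mul_smul, hg, inv_smul_eq_iff, h1]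
    rw [h0 i₀ j, mem_stabilizer_iff, mul_smul, inv_smul_eq_iff, h2] at h3
    exact h3
  push Not at h0
  obtain ⟨i, j, hij⟩ := h0
  obtain ⟨g, hi, hj⟩ := hIJ i j (by rintro rfl; exact hij rfl)
  refine ⟨g, fun k => ?_⟩
  by_cases hik : i = k
  · exact hik ▸ hi
  by_cases hjk : j = k
  · exact hjk ▸ hj
  obtain ⟨a, a1, a2⟩ := hIJ i k hik
  obtain ⟨b, b1, b2⟩ := hIJ j k hjk
  rcases h (I i) (I j) (I k) (g⁻¹ * a) (g⁻¹ * b) (by rw [mul_smul, a1, inv_smul_eq_iff, hi])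
    (by rw [mul_smul, b1, inv_smul_eq_iff, hj]) (by rw [mul_smul, mul_smul, a2, b2]) with h1 | h1
  · exact absurd h1 hij
  · rw [mul_smul, inv_smul_eq_iff, a2] at h1
    exact h1.symm

theorem mem_stabilizer_coe {H : Subgroup G} {c g : G} : g ∈ stabilizer G (c : G ⧸ H) ↔ c⁻¹ * g * c ∈ H := by
  rw [mem_stabilizer_iff]
  show ((g * c : G) : G ⧸ H) = c ↔ _
  rw [eq_comm, QuotientGroup.eq, mul_assoc]

theorem bin_bot : Bin G (G ⧸ (⊥ : Subgroup G)) := by
  refine bin_of_stabilizers fun x y _ _ _ _ _ _ => Or.inl ?_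
  obtain ⟨c, rfl⟩ := QuotientGroup.mk_surjective x
  obtain ⟨d, rfl⟩ := QuotientGroup.mk_surjective y
  ext g
  simp [mem_stabilizer_coe, mul_assoc, inv_mul_eq_one]

/-- If point stabilisers consist of commuting elements determined by centralisers, a binary action forces triples to
commute. -/
theorem Bin.comm_of_triple (h : Bin G Ω)
    (hc : ∀ (x y : Ω) (a b g : G), a • x = x → b • y = y → g • x = x → g • y = y → g ≠ 1 → a * b = b * a)
    (hab : ∀ (x : Ω) (a b : G), a • x = x → b • x = x → a * b = b * a)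
    {x y z : Ω} {a b : G} (ha : a • x = x) (hb : b • y = y) (hz : (b⁻¹ * a) • z = z) : a * b = b * a := by
  have hz' : a • z = b • z := by rwa [mul_smul, inv_smul_eq_iff] at hz
  obtain ⟨g, g1, g2, g3⟩ := h.triple ha hb hz'
  by_cases hg : g = 1
  · rw [hg, one_smul] at g3
    exact hab z a b g3.symm (hz'.symm.trans g3.symm)
  · exact hc x y a b g ha hb g1 g2 hg

end Cfsg.Agent.H9
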