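import Cfsg.Agent.H9.FiNet
import Cfsg.Agent.H9.FiDat0
import Cfsg.Agent.H9.FiDat1
import Cfsg.Agent.H9.FiDat2
import Cfsg.Agent.H9.FiDat3
import Cfsg.Agent.H9.FiDat4

/-!
Fifteen involutions on `31671` points, words in them, and their evaluation.
-/

set_option autoImplicit false

namespace Cfsg.Agent.H9.Fi

/-- The list of networks. -/
noncomputable def nets : List (List (ℕ × ℕ)) :=
  [net0, net1, net2, net3, net4, net5, net6, net7, net8, net9, net10, net11, net12, net13, net14]

/-- An entry of a list of networks. -/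
noncomputable def nthN (l : List (List (ℕ × ℕ))) : ℕ → List (ℕ × ℕ) :=
  List.rec (fun _ => []) (fun a _ ih s => Nat.rec a (fun s _ => ih s) s) l

theorem nthN_of_le (l : List (List (ℕ × ℕ))) (s : ℕ) (h : l.length ≤ s) : nthN l s = [] := by
  induction l generalizing s with
  | nil => rfl
  | cons a l ih =>
    cases s with
    | zero => simp at h
    | succ s => exact ih s (by simpa using h)

/-- A bounded quantifier. -/
noncomputable def allB (p : ℕ → Bool) (k : ℕ) : Bool := Nat.rec true (fun k r => Bool.rec false r (p k)) k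

theorem allB_spec {p : ℕ → Bool} {k : ℕ} (h : allB p k = true) {i : ℕ} (hi : i < k) : p i = true := by
  induction k with
  | zero => omega
  | succ k ih =>
    have h' : Bool.rec false (allB p k) (p k) = true := h
    have h1 : p k = true := by revert h'; cases p k <;> simp
    rw [h1] at h'
    rcases Nat.lt_succ_iff_lt_or_eq.mp hi with h2 | h2
    · exact ih h' h2
    · rwa [h2]

/-- A bounded quantifier over a list. -/
noncomputable def allL {α : Type} (p : α → Bool) (l : List α) : Bool :=
  List.rec true (fun a _ r => Bool.rec false r (p a)) l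

theorem allL_spec {α : Type} {p : α → Bool} {l : List α} (h : allL p l = true) {a : α} (ha : a ∈ l) :
    p a = true := by
  induction l with
  | nil => simp at ha
  | cons b l ih =>
    have h' : Bool.rec false (allL p l) (p b) = true := h
    have h1 : p b = true := by revert h'; cases p b <;> simp
    rw [h1] at h'
    rcases List.mem_cons.mp ha with h2 | h2
    · rwa [h2]
    · exact ih h' h2

theorem nets_ok : allB (fun s => netOK (nthN nets s)) 15 = true := by decide +kernel

theorem net_ok (s : ℕ) : netOK (nthN nets s) = true := by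
  by_cases h : s < 15
  · exact allB_spec nets_ok h
  · rw [nthN_of_le nets s (by change 15 ≤ s; omega)]; rfl

/-- The letters on points. -/
noncomputable def f (s x : ℕ) : ℕ := evN (nthN nets s) x

theorem f_of_le {s : ℕ} (h : 15 ≤ s) (x : ℕ) : f s x = x := by
  rw [f, nthN_of_le nets s h]; rfl

/-- The letters on bit vectors. -/
noncomputable def app (s V : ℕ) : ℕ := frc V (appN (nthN nets s) V)

theorem testBit_app (s V x : ℕ) : (app s V).testBit x = V.testBit (f s x) := by
  rw [app, frc_eq, testBit_appN (net_ok s), f]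

attribute [irreducible] f

/-- Words on points (first letter first). -/
noncomputable def pf (w : List ℕ) (x : ℕ) : ℕ := w.foldl (fun y s => f s y) x

theorem pf_cons (s : ℕ) (w : List ℕ) (x : ℕ) : pf (s :: w) x = pf w (f s x) := rfl

/-- Words on bit vectors. -/
noncomputable def appW (w : List ℕ) (V : ℕ) : ℕ := List.rec V (fun s _ r => app s r) w

theorem testBit_appW (w : List ℕ) (V x : ℕ) : (appW w V).testBit x = V.testBit (pf w x) := by
  induction w generalizing x with
  | nil => rfl
  | cons s w ih =>
    change (app s (appW w V)).testBit x = _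
    rw [testBit_app, ih, pf_cons]

theorem testBit_ones (B x : ℕ) : (Nat.sub (Nat.shiftLeft 1 B) 1).testBit x = decide (x < B) := by
  rw [shl_one]; exact Nat.testBit_two_pow_sub_one _ _

/-- The number of points. -/
def nn : ℕ := 31671

/-- The set of all points. -/
noncomputable def om : ℕ := Nat.sub (Nat.shiftLeft 1 nn) 1

theorem testBit_om (x : ℕ) : om.testBit x = decide (x < nn) := testBit_ones nn x

theorem om_ok : allB (fun s => Nat.beq (app s om) om) 15 = true := by decide +kernel

theorem f_lt (s : ℕ) {x : ℕ} (hx : x < nn) : f s x < nn := by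
  by_cases h : s < 15
  · have h1 : app s om = om := Nat.eq_of_beq_eq_true (allB_spec om_ok h)
    have h2 := testBit_app s om x
    rw [h1, testBit_om, testBit_om] at h2
    simpa [hx] using h2
  · rwa [f_of_le (by omega)]

theorem pf_lt (w : List ℕ) {x : ℕ} (hx : x < nn) : pf w x < nn := by
  induction w generalizing x with
  | nil => exact hx
  | cons s w ih => exact ih (f_lt s hx)

theorem nn_lt : nn < 2 ^ 15 := by decide

theorem eq_of_bits {a b : ℕ} (ha : a < nn) (hb : b < nn) (h : ∀ j < 15, a.testBit j = b.testBit j) : a = b := by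
  refine Nat.eq_of_testBit_eq fun j => ?_
  by_cases hj : j < 15
  · exact h j hj
  · have : 2 ^ 15 ≤ 2 ^ j := Nat.pow_le_pow_right two_pos (by omega)
    have := nn_lt
    rw [Nat.testBit_lt_two_pow (by omega), Nat.testBit_lt_two_pow (by omega)]

theorem testBit_plane (w : List ℕ) (j : ℕ) {x : ℕ} (hx : x < nn) :
    (appW w (idp j 15)).testBit x = (pf w x).testBit j := by
  rw [testBit_appW, testBit_idp]
  have := (pf_lt w hx).trans nn_lt
  simp only [this, decide_true, Bool.true_and]

/-- Equality test for two words. -/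
noncomputable def eqW (u v : List ℕ) : Bool :=
  allB (fun j => Nat.beq (appW u (idp j 15)) (appW v (idp j 15))) 15

theorem eqW_spec {u v : List ℕ} (h : eqW u v = true) {x : ℕ} (hx : x < nn) : pf u x = pf v x :=
  eq_of_bits (pf_lt u hx) (pf_lt v hx) fun j hj => by
    rw [← testBit_plane u j hx, ← testBit_plane v j hx, Nat.eq_of_beq_eq_true (allB_spec h hj)]

theorem inv_ok : allB (fun s => eqW [s, s] []) 15 = true := by decide +kernel

theorem f_f (s : ℕ) {x : ℕ} (hx : x < nn) : f s (f s x) = x := by
  by_cases h : s < 15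
  · exact eqW_spec (allB_spec inv_ok h) hx
  · rw [f_of_le (by omega), f_of_le (by omega)]

/-- The points. -/
abbrev Pt : Type := Fin nn

/-- The letters as permutations. -/
noncomputable def σ (s : ℕ) : Equiv.Perm Pt :=
  Function.Involutive.toPerm (fun x => ⟨f s x, f_lt s x.2⟩) fun x => Fin.ext (f_f s x.2)

theorem σ_val (s : ℕ) (x : Pt) : (σ s x : ℕ) = f s x := rfl

/-- The group generated by the first eleven letters. -/
noncomputable def G0 : Subgroup (Equiv.Perm Pt) := Subgroup.closure (σ '' {s | s < 11})

theorem prod_val (w : List ℕ) (x : Pt) : (((w.reverse.map σ).prod x : Pt) : ℕ) = pf w x := by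
  induction w generalizing x with
  | nil => rfl
  | cons s w ih =>
    rw [List.reverse_cons, List.map_append, List.prod_append, Equiv.Perm.mul_apply, ih]
    simp [pf_cons, σ_val]

theorem mem_G0_of {s : ℕ} {w : List ℕ} (h : eqW [s] w = true) (hw : ∀ a ∈ w, a < 11) : σ s ∈ G0 := by
  have : σ s = (w.reverse.map σ).prod := Equiv.ext fun x => Fin.ext (by
    rw [prod_val, ← eqW_spec h x.2]; rfl)
  rw [this]
  refine Subgroup.list_prod_mem _ fun g hg => ?_
  obtain ⟨a, ha, rfl⟩ := List.mem_map.mp hg
  exact Subgroup.subset_closure ⟨a, hw a (List.mem_reverse.mp ha), rfl⟩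

theorem w11 : eqW [11] [6, 7, 10, 5, 6, 7, 4, 5, 6] = true := by decide +kernel
theorem w12 : eqW [12] [3, 8, 9, 4, 3, 8, 5, 4, 3] = true := by decide +kernel
theorem w13 : eqW [13] [2, 3, 4, 5, 1, 2, 3, 4, 0, 1, 2, 3, 0, 1, 2] = true := by decide +kernel
theorem w14 : eqW [14] [6, 5, 2, 3, 4, 1, 2, 3, 8, 9, 5, 3, 4, 2, 3, 8, 7, 6, 5, 4, 3, 2, 1, 0, 1, 2, 3, 4, 5,
    6, 7, 8, 3, 2, 4, 3, 5, 9, 8, 3, 2, 1, 4, 3, 2, 5, 6] = true := by decide +kernel

theorem σ_mem (s : ℕ) : σ s ∈ G0 := by
  by_cases h : s < 11
  · exact Subgroup.subset_closure ⟨s, h, rfl⟩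
  by_cases h' : s < 15
  · obtain rfl | rfl | rfl | rfl : s = 11 ∨ s = 12 ∨ s = 13 ∨ s = 14 := by omega
    · exact mem_G0_of w11 (by decide)
    · exact mem_G0_of w12 (by decide)
    · exact mem_G0_of w13 (by decide)
    · exact mem_G0_of w14 (by decide)
  · have : σ s = 1 := Equiv.ext fun x => Fin.ext (f_of_le (by omega) _)
    rw [this]; exact one_mem _

/-- The group. -/
abbrev GG : Type := G0

/-- The letters as elements of the group. -/
noncomputable def t (s : ℕ) : GG := ⟨σ s, σ_mem s⟩

theorem t_val (s : ℕ) (x : Pt) : ((t s • x : Pt) : ℕ) = f s x := rfl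

theorem GG_ext {g h : GG} (e : ∀ x : Pt, g • x = h • x) : g = h := Subtype.ext (Equiv.ext e)

theorem t_t (s : ℕ) (x : Pt) : t s • t s • x = x := Fin.ext (f_f s x.2)

theorem t_mul_t (s : ℕ) : t s * t s = 1 := GG_ext fun x => by rw [mul_smul, t_t, one_smul]

theorem t_inv (s : ℕ) : (t s)⁻¹ = t s := inv_eq_of_mul_eq_one_right (t_mul_t s)

theorem GG_induction {p : GG → Prop} (h1 : p 1) (h : ∀ s < 11, ∀ g, p g → p (t s * g)) (g : GG) : p g := by
  obtain ⟨g, hg⟩ := g
  induction hg using Subgroup.closure_induction_left with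
  | one => exact h1
  | mul_left x hx y hy ih =>
    obtain ⟨s, hs, rfl⟩ := hx
    exact h s hs _ ih
  | inv_mul_cancel x hx y hy ih =>
    obtain ⟨s, hs, rfl⟩ := hx
    have := h s hs _ ih
    rwa [← t_inv] at this

/-- Words as group elements (first letter first). -/
noncomputable def pe : List ℕ → GG
  | [] => 1
  | s :: w => pe w * t s

theorem pe_val (w : List ℕ) (x : Pt) : ((pe w • x : Pt) : ℕ) = pf w x := by
  induction w generalizing x with
  | nil => simp [pe, pf]
  | cons s w ih => rw [pe, mul_smul, ih, t_val, pf_cons]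

theorem pe_append (u v : List ℕ) : pe (u ++ v) = pe v * pe u := by
  induction u with
  | nil => simp [pe]
  | cons s u ih => rw [List.cons_append, pe, ih, pe, mul_assoc]

theorem pe_reverse (u : List ℕ) : pe u.reverse = (pe u)⁻¹ := by
  induction u with
  | nil => simp [pe]
  | cons s u ih => rw [List.reverse_cons, pe_append, ih]; simp [pe, t_inv]

theorem pe_eq {u v : List ℕ} (h : eqW u v = true) : pe u = pe v :=
  GG_ext fun x => Fin.ext (by rw [pe_val, pe_val, eqW_spec h x.2])

/-- The bit planes of a letter, cut off. -/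
noncomputable def pl (B s j : ℕ) : ℕ := Nat.land (app s (idp j 15)) (Nat.sub (Nat.shiftLeft 1 B) 1)

/-- Evaluation of a letter by its bit planes. -/
noncomputable def valA (B s x k : ℕ) : ℕ :=
  Nat.rec 0 (fun j r => Nat.add r (Nat.shiftLeft (Nat.land (Nat.shiftRight (pl B s j) x) 1) j)) k

theorem valA_eq {B x : ℕ} (s : ℕ) (hB : x < B) (hx : x < nn) (k : ℕ) : valA B s x k = f s x % 2 ^ k := by
  induction k with
  | zero => simp [valA, Nat.mod_one]
  | succ k ih =>
    change valA B s x k + ((pl B s k >>> x) &&& 1) <<< k = _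
    have h1 : (pl B s k).testBit x = (f s x).testBit k := by
      rw [pl, testBit_land', testBit_ones]
      have := testBit_plane [s] k hx
      change (app s (idp k 15)).testBit x = (f s x).testBit k at this
      simp [this, hB]
    rw [ih, Nat.and_one_is_mod, Nat.shiftLeft_eq, Nat.mod_pow_succ, Nat.shiftRight_eq_div_pow,
      ← Nat.toNat_testBit, h1, Nat.toNat_testBit, mul_comm]

/-- Forcing a small number. -/
noncomputable def frN {α : Type} (x : ℕ) (k : ℕ → α) : α := Nat.rec (k 0) (fun m _ => k (Nat.succ m)) x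

theorem frN_eq {α : Type} (x : ℕ) (k : ℕ → α) : frN x k = k x := by cases x <;> rfl

/-- Evaluation of a letter. -/
noncomputable def val (B s x : ℕ) : ℕ := frN x fun y => valA B s y 15

theorem val_eq {B x : ℕ} (s : ℕ) (hB : x < B) (hx : x < nn) : val B s x = f s x := by
  rw [val, frN_eq, valA_eq s hB hx, Nat.mod_eq_of_lt ((f_lt s hx).trans nn_lt)]

/-- Evaluation of a word. -/
noncomputable def valW (w : List ℕ) : ℕ → ℕ :=
  List.rec (fun x => x) (fun s _ ih x => frN (val nn s x) ih) w

theorem valW_eq (w : List ℕ) {x : ℕ} (hx : x < nn) : valW w x = pf w x := by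
  induction w generalizing x with
  | nil => rfl
  | cons s w ih =>
    change frN (val nn s x) (valW w) = _
    rw [frN_eq, val_eq s hx hx, ih (f_lt s hx), pf_cons]

/-- Closure of a set under a sequence of letters. -/
noncomputable def clo (w : List ℕ) : ℕ → ℕ :=
  List.rec (fun O => O) (fun s _ ih O => ih (Nat.lor O (app s O))) w

theorem clo_spec {Y : Pt → Prop} {w : List ℕ} (hw : ∀ s ∈ w, ∀ x, Y x → Y (t s • x)) {O : ℕ}
    (hO : ∀ x : Pt, O.testBit x = true → Y x) (x : Pt) (hx : (clo w O).testBit x = true) : Y x := by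
  induction w generalizing O with
  | nil => exact hO x hx
  | cons s w ih =>
    refine ih (fun a ha => hw a (List.mem_cons_of_mem _ ha)) (O := Nat.lor O (app s O)) (fun y hy => ?_) hx
    rw [testBit_lor', Bool.or_eq_true, testBit_app] at hy
    rcases hy with hy | hy
    · exact hO y hy
    · have := hw s List.mem_cons_self _ (hO (t s • y) hy)
      rwa [t_t] at this

theorem clo_single {Y : Pt → Prop} {w : List ℕ} (hw : ∀ s ∈ w, ∀ x, Y x → Y (t s • x)) {y : Pt} (hy : Y y)
    (x : Pt) (hx : (clo w (Nat.shiftLeft 1 y)).testBit x = true) : Y x := by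
  refine clo_spec hw (fun z hz => ?_) x hx
  rw [shl_one, Nat.testBit_two_pow] at hz
  have : y = z := Fin.ext (by simpa using hz)
  rwa [← this]

end Cfsg.Agent.H9.Fi
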