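import Cfsg.Agent.H9.FiRel

/-!
Finite checks on orbits, on the set of `324` points, and on iterated commutators.
-/

set_option autoImplicit false

namespace Cfsg.Agent.H9.Fi

open scoped commutatorElement

/-- The points of the generators. -/
def xv (s : ℕ) : ℕ := [29, 27, 471, 390, 11, 9, 329, 1, 18, 20, 0].getD s 0

theorem xv_lt : ∀ s < 11, xv s < nn := by decide +kernel

theorem xv_ok : allL (fun p : ℕ × ℕ => Nat.beq (valW [p.2, p.1] (xv p.1)) (xv p.2))
    [(10, 7), (7, 6), (6, 5), (5, 4), (4, 3), (3, 2), (2, 1), (1, 0), (3, 8), (8, 9)] = true := by decide +kernel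

/-- Letters for an orbit. -/
def uG : List ℕ := [5, 4, 6, 3, 2, 8, 5, 1, 9, 3, 4, 0, 2, 8, 3, 1, 5, 2, 4, 8, 9, 3, 1, 5, 0, 6, 8, 9, 2, 4, 3, 1,
  5, 0, 6, 2, 8, 1, 3, 2]

/-- Letters for an orbit. -/
def uJ : List ℕ := [6, 10, 5, 4, 3, 2, 8, 1, 9, 3, 0, 4, 2, 5, 8, 3, 6, 1, 4, 2, 8, 5, 3, 1, 9, 6, 0, 4, 8, 2, 5, 3,
  9, 2, 1, 8, 4, 6, 3, 0, 2, 8, 9, 4, 1, 5, 0, 3, 4, 3, 2, 1, 3]

theorem u_ok : Nat.beq (Nat.lor (Nat.lor (clo uG (Nat.shiftLeft 1 329)) (clo uJ (Nat.shiftLeft 1 1))) 1) om = true := by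
  decide +kernel

/-- The letters normalising the set of `324` points. -/
def LL : List ℕ := [0, 1, 4, 5, 7, 8, 9, 10, 11, 12, 13, 14]

/-- Letters for an orbit. -/
def uX : List ℕ := [7, 11, 14, 12, 13, 1, 0, 14, 4, 8, 14, 11]

/-- Letters for an orbit. -/
def uO1 : List ℕ := [5, 7, 12, 11, 14, 13, 12, 11, 8, 9, 12, 13, 10, 14, 7, 8, 12, 11, 13, 11, 9]

/-- Letters for an orbit. -/
def uO2 : List ℕ := [0, 1, 4, 8, 9, 10, 12, 13, 11, 14, 12, 13, 8, 9, 12, 14, 1, 13, 12, 0]

/-- Letters for an orbit. -/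
def uA : List ℕ := [7, 11, 14, 12, 13, 6, 5, 11, 12, 14, 6, 13, 11, 12, 6, 13, 11, 14, 12, 6, 13, 11, 4, 0]

theorem uX_ok : Nat.beq (clo uX (Nat.shiftLeft 1 0)) (Nat.sub (Nat.shiftLeft 1 324) 1) = true := by decide +kernel

theorem uO_ok : Nat.beq (Nat.lor (Nat.lor (clo uO1 (Nat.shiftLeft 1 329)) (clo uO2 (Nat.shiftLeft 1 2633)))
    (Nat.sub (Nat.shiftLeft 1 324) 1)) om = true := by decide +kernel

theorem uA_ok : Nat.beq (clo uA (Nat.shiftLeft 1 0)) om = true := by decide +kernel

theorem pts_ok : (Nat.beq (valW [14, 2, 6] 0) 2633 &&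
    Nat.beq (valW [0, 8, 10, 6, 2, 14, 10, 14, 2, 6, 5] 2633) 329 && Nat.beq (valW [6] 1) 326 &&
    Nat.beq (valW [7] 0) 2) = true := by decide +kernel

/-- The third point on a line of the affine plane of order three. -/
def op (a b : ℕ) : ℕ := (6 - a % 3 - b % 3) % 3 + 3 * ((6 - a / 3 - b / 3) % 3)

/-- The check that a letter preserves the structure on the `324` points. -/
noncomputable def eChk (s : ℕ) : Bool :=
  allB (fun x => frN (val 324 s x) fun y => Nat.ble y 323 && Nat.beq (y / 36) (val 324 s (36 * (x / 36)) / 36) &&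
    Nat.beq (y / 9) (val 324 s (9 * (x / 9)) / 9)) 324 &&
  allB (fun a => allB (fun b => Nat.beq (val 324 s (36 * op a b) / 36)
    (op (val 324 s (36 * a) / 36) (val 324 s (36 * b) / 36))) 9) 9

theorem e_ok : allL eChk LL = true := by decide +kernel

theorem k_ok : allB (fun y => frN (val 324 10 y) fun z => Nat.beq (z / 36) (op 0 (y / 36)) &&
    (Nat.beq z y == (Nat.beq y 0 || (Nat.ble 9 y && Nat.ble y 35)))) 324 = true := by decide +kernel

/-- Words for the points of one small plane. -/
def thW (x : ℕ) : List ℕ := [[], [7, 10], [7], [7, 14, 0, 1, 14], [14, 0, 1, 14], [14, 5, 4, 14],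
  [7, 14, 4, 5, 14], [14, 4, 5, 14], [14, 1, 0, 14]].getD x []

theorem th_ok : allB (fun x => Nat.beq (valW (thW x) 0) x &&
    allB (fun y => Nat.beq (valW ((thW x).reverse ++ 10 :: thW x) y) (op x y)) 9) 9 = true := by decide +kernel

/-- The points moved by the letter `10`. -/
noncomputable def mv (k : ℕ) : ℕ := Nat.rec 0 (fun j r => Nat.lor r (Nat.xor (app 10 (idp j 15)) (idp j 15))) k

theorem mv_spec (k : ℕ) {x : ℕ} (h : f 10 x = x) : (mv k).testBit x = false := by
  induction k with
  | zero => exact Nat.zero_testBit _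
  | succ k ih =>
    change (Nat.lor (mv k) (Nat.xor (app 10 (idp k 15)) (idp k 15))).testBit x = false
    rw [testBit_lor', ih, testBit_xor', testBit_app, h]
    simp

/-- Words for fixed point sets. -/
def zW : List (List ℕ) := [[], [11, 10, 7], [12, 11], [12, 11, 10, 7], [13, 11], [13, 11, 10, 7], [7, 14, 11]]

/-- A union of sets of moved points. -/
noncomputable def mvU (l : List (List ℕ)) : ℕ := List.rec 0 (fun u _ r => Nat.lor r (appW u (mv 15))) l

theorem mvU_spec {l : List (List ℕ)} {x : ℕ} (h : ∀ u ∈ l, f 10 (pf u x) = pf u x) :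
    (mvU l).testBit x = false := by
  induction l with
  | nil => exact Nat.zero_testBit _
  | cons u l ih =>
    change (Nat.lor (mvU l) (appW u (mv 15))).testBit x = false
    rw [testBit_lor', ih fun v hv => h v (List.mem_cons_of_mem _ hv), testBit_appW,
      mv_spec 15 (h u List.mem_cons_self)]
    rfl

theorem z_ok : Nat.beq (Nat.lor (mvU zW) (Nat.lor (Nat.shiftLeft 1 329) (Nat.lor (Nat.shiftLeft 1 1609)
    (Nat.shiftLeft 1 2016)))) om = true := by decide +kernel

theorem z_ok' : allL (fun u => Nat.beq (valW (u ++ [10]) 329) (valW u 329)) zW = true := by decide +kernel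

theorem z_spec {x : ℕ} (hx : x < nn) (h : ∀ u ∈ zW, f 10 (pf u x) = pf u x) : x = 329 ∨ x = 1609 ∨ x = 2016 := by
  have h1 := congrArg (fun v => Nat.testBit v x) (Nat.eq_of_beq_eq_true z_ok)
  simp only [testBit_lor', mvU_spec h, testBit_om, testBit_shl', hx, decide_true, Bool.false_or, Bool.or_eq_true,
    Bool.and_eq_true, decide_eq_true_eq, Nat.testBit_one_eq_true_iff_self_eq_zero] at h1
  omega

/-- Expressions for group elements. -/
inductive Ex
  | l (s : ℕ)
  | c (a b : Ex)
  | j (u : List ℕ) (a : Ex)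
  | m (a b : Ex)

/-- The value of an expression. -/
noncomputable def Ex.el (e : Ex) : GG :=
  Ex.rec t (fun _ _ a b => ⁅a, b⁆) (fun u _ a => pe u * a * (pe u)⁻¹) (fun _ _ a b => a * b) e

/-- Composition of four maps. -/
noncomputable def c4 (a b c d : ℕ → ℕ) (x : ℕ) : ℕ := frN (d x) fun y => frN (c y) fun z => frN (b z) a

/-- An expression (or its inverse) on points. -/
noncomputable def Ex.ev (e : Ex) : Bool → ℕ → ℕ :=
  Ex.rec (fun s _ => val nn s)
    (fun _ _ a b i => Bool.rec (c4 (b true) (a true) (b false) (a false)) (c4 (a true) (b true) (a false) (b false)) i)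
    (fun u _ a i x => frN (valW u.reverse x) fun y => frN (a i y) (valW u))
    (fun _ _ a b i => Bool.rec (fun x => frN (a false x) (b false)) (fun x => frN (b true x) (a true)) i) e

theorem valW_val (u : List ℕ) (x : Pt) : valW u x = (pe u • x : Pt) := by rw [valW_eq u x.2, pe_val]

theorem Ex.ev_eq (e : Ex) : (∀ x : Pt, e.ev true x = (e.el • x : Pt)) ∧ ∀ x : Pt, e.ev false x = (e.el⁻¹ • x : Pt) := by
  induction e with
  | l s =>
    refine ⟨fun x => val_eq s x.2 x.2, fun x => ?_⟩
    change val nn s x = ((t s)⁻¹ • x : Pt)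
    rw [t_inv]; exact val_eq s x.2 x.2
  | c a b iha ihb =>
    constructor
    · intro x
      change c4 (a.ev true) (b.ev true) (a.ev false) (b.ev false) x = (⁅a.el, b.el⁆ • x : Pt)
      simp only [c4, frN_eq, iha.1, iha.2, ihb.1, ihb.2, commutatorElement_def, mul_smul]
    · intro x
      change c4 (b.ev true) (a.ev true) (b.ev false) (a.ev false) x = (⁅a.el, b.el⁆⁻¹ • x : Pt)
      rw [commutatorElement_inv]
      simp only [c4, frN_eq, iha.1, iha.2, ihb.1, ihb.2, commutatorElement_def, mul_smul]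
  | j u a ih =>
    constructor
    · intro x
      change frN (valW u.reverse x) (fun y => frN (a.ev true y) (valW u)) = ((pe u * a.el * (pe u)⁻¹) • x : Pt)
      simp only [frN_eq, valW_val, ih.1, pe_reverse, mul_smul]
    · intro x
      change frN (valW u.reverse x) (fun y => frN (a.ev false y) (valW u)) = ((pe u * a.el * (pe u)⁻¹)⁻¹ • x : Pt)
      simp only [frN_eq, valW_val, ih.2, pe_reverse, mul_smul, mul_inv_rev, inv_inv]
  | m a b iha ihb =>
    constructor
    · intro x
      change frN (b.ev true x) (a.ev true) = ((a.el * b.el) • x : Pt)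
      simp only [frN_eq, iha.1, ihb.1, mul_smul]
    · intro x
      change frN (a.ev false x) (b.ev false) = ((a.el * b.el)⁻¹ • x : Pt)
      simp only [frN_eq, iha.2, ihb.2, mul_smul, mul_inv_rev]

/-- An expression lies `r` steps down the derived series, starting from the letters in `B`. -/
noncomputable def Ex.ok (B : List ℕ) (e : Ex) : ℕ → Bool :=
  Ex.rec (fun s r => decide (s ∈ B) && Nat.beq r 0) (fun _ _ a b r => a (Nat.pred r) && b (Nat.pred r))
    (fun u _ a r => allL (fun s => decide (s ∈ LL)) u && a r) (fun _ _ a b r => a r && b r) e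

theorem Ex.el_mem {D : ℕ → Subgroup GG} (hD : ∀ k, D (k + 1) = ⁅D k, D k⁆)
    (hn : ∀ k, ∀ s ∈ LL, ∀ g ∈ D k, t s * g * t s ∈ D k) {b : ℕ} {B : List ℕ} (hB : ∀ s ∈ B, t s ∈ D b)
    (e : Ex) {r : ℕ} (h : e.ok B r = true) : e.el ∈ D (b + r) := by
  induction e generalizing r with
  | l s =>
    change (decide (s ∈ B) && Nat.beq r 0) = true at h
    simp only [Bool.and_eq_true, decide_eq_true_eq, Nat.beq_eq] at h
    rw [h.2]
    exact hB s h.1
  | c a c iha ihc =>
    change (a.ok B (Nat.pred r) && c.ok B (Nat.pred r)) = true at h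
    rw [Bool.and_eq_true] at h
    change ⁅a.el, c.el⁆ ∈ _
    cases r with
    | zero =>
      have h1 := iha h.1
      have h2 := ihc h.2
      exact mul_mem (mul_mem (mul_mem h1 h2) (inv_mem h1)) (inv_mem h2)
    | succ r =>
      rw [← add_assoc, hD]
      exact Subgroup.commutator_mem_commutator (iha h.1) (ihc h.2)
  | j u a ih =>
    change (allL (fun s => decide (s ∈ LL)) u && a.ok B r) = true at h
    rw [Bool.and_eq_true] at h
    have h1 : ∀ s ∈ u, s ∈ LL := fun s hs => by simpa using allL_spec h.1 hs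
    have h2 := ih h.2
    change pe u * a.el * (pe u)⁻¹ ∈ _
    generalize a.el = g at h2
    clear h ih
    induction u generalizing g with
    | nil => simpa [pe] using h2
    | cons s u ih =>
      have := ih (fun a ha => h1 a (List.mem_cons_of_mem _ ha)) _ (hn _ s (h1 s List.mem_cons_self) g h2)
      rw [pe, mul_inv_rev, t_inv]
      simpa only [mul_assoc] using this
  | m a c iha ihc =>
    change (a.ok B r && c.ok B r) = true at h
    rw [Bool.and_eq_true] at h
    exact mul_mem (iha h.1) (ihc h.2)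

/-- An iterated commutator. -/
def e2 : Ex := .c (.c (.l 11) (.l 13)) (.j [14] (.c (.l 11) (.l 12)))
/-- An iterated commutator. -/
def e3 : Ex := .c e2 (.j [12] e2)
/-- An expression for the letter `10`. -/
def e3' : Ex := .j [11, 12, 10, 0, 14] (.m e3 (.m e3 e3))
/-- An iterated commutator. -/
def e4 : Ex := .c (.l 10) (.j [14] (.l 0))
/-- An iterated commutator. -/
def e5 : Ex := .c e4 (.j [12] e4)
/-- An iterated commutator. -/
def e6 : Ex := .c e5 (.j [0] e5)
/-- An iterated commutator. -/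
def e7 : Ex := .c e6 (.j [12, 14] e6)
/-- An iterated commutator. -/
def e8 : Ex := .c e7 (.j [1] e7)
/-- An iterated commutator. -/
def e9 : Ex := .c e8 (.j [13, 14] e8)

theorem e3_ok : e3'.ok LL 3 = true := by decide +kernel
theorem e9_ok : e9.ok [0, 10] 6 = true := by decide +kernel
theorem e3_ev : allB (fun s => Nat.beq (e3'.ev true (xv s)) (val nn 10 (xv s))) 11 = true := by decide +kernel
theorem e9_ev : Nat.beq (e9.ev true 324) 2976 = true := by decide +kernel

end Cfsg.Agent.H9.Fi
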