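import Cfsg.Agent.H9.FiRel

/-!
Verification of a coset table: the machinery.
-/

set_option autoImplicit false

namespace Cfsg.Agent.H9.Fi

/-- A plane of the state. -/
noncomputable def get (S s : ℕ) : ℕ := Nat.land (Nat.shiftRight S (Nat.mul 32768 s)) om

/-- Adding to a plane of the state. -/
noncomputable def put (S s V : ℕ) : ℕ := Nat.lor S (Nat.shiftLeft (Nat.land V om) (Nat.mul 32768 s))

theorem testBit_get (S s : ℕ) (x : Pt) : (get S s).testBit x = S.testBit (32768 * s + x) := by
  rw [get, testBit_land', testBit_shr', testBit_om]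
  simp only [x.2, decide_true, Bool.and_true]
  rfl

theorem get_put (S s V s' : ℕ) (x : Pt) :
    (get (put S s V) s').testBit x = true ↔ (get S s').testBit x = true ∨ (s' = s ∧ V.testBit x = true) := by
  rw [testBit_get, testBit_get, put, testBit_lor', testBit_shl', testBit_land', testBit_om, Bool.or_eq_true]
  refine or_congr_right ?_
  have h1 : Nat.mul 32768 s = 32768 * s := rfl
  have h2 : (x : ℕ) < 32768 := x.2.trans nn_lt
  have h3 : nn < 32768 := nn_lt
  rw [h1]
  simp only [Bool.and_eq_true, decide_eq_true_eq]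
  constructor
  · rintro ⟨a, b, c⟩
    obtain rfl : s' = s := by omega
    exact ⟨rfl, by simpa using b⟩
  · rintro ⟨rfl, b⟩
    refine ⟨by omega, by simpa using b, ?_⟩
    simp

/-- The base point. -/
def x0 : Pt := ⟨0, by decide⟩

/-- A good edge. -/
def Good (d : Pt → GG) (s : ℕ) (x : Pt) : Prop := d (t s • x) = t s * d x * t s

theorem Good.symm {d : Pt → GG} {s : ℕ} {x : Pt} (h : Good d s (t s • x)) : Good d s x := by
  rw [Good, t_t] at h
  rw [Good, h, ← mul_assoc, ← mul_assoc, t_mul_t, one_mul, mul_assoc, t_mul_t, mul_one]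

/-- One step of the first phase. -/
noncomputable def step1 (S s : ℕ) : ℕ :=
  (fun D => (fun A => (fun N => put (put S s N) 11 N) (Nat.xor A (Nat.land A D))) (app s D)) (get S 11)

/-- The first phase. -/
noncomputable def run1 (w : List ℕ) : ℕ → ℕ :=
  List.rec (fun S => S) (fun s _ ih S => frc S (ih (step1 S s))) w

/-- The invariant of the first phase. -/
def Inv1 (S : ℕ) : Prop := ∃ d : Pt → GG, d x0 = t 10 ∧ (get S 11).testBit x0 = true ∧
  (∀ x : Pt, (get S 11).testBit x = true → ∃ g : GG, g • x0 = x) ∧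
  ∀ s < 11, ∀ x : Pt, (get S s).testBit x = true →
    (get S 11).testBit x = true ∧ (get S 11).testBit (t s • x : Pt) = true ∧ Good d s x

theorem Inv1.step {S s : ℕ} (h : Inv1 S) (hs : s < 11) : Inv1 (step1 S s) := by
  classical
  obtain ⟨d, h0, h1, h2, h3⟩ := h
  set N := Nat.xor (app s (get S 11)) (Nat.land (app s (get S 11)) (get S 11)) with hN
  have hS : step1 S s = put (put S s N) 11 N := rfl
  have hb : ∀ x : Pt, N.testBit x = true ↔
      (get S 11).testBit (t s • x : Pt) = true ∧ ¬ (get S 11).testBit x = true := fun x => by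
    rw [hN, testBit_xor', testBit_land', testBit_app, t_val]
    cases (get S 11).testBit (f s x) <;> cases (get S 11).testBit x <;> simp
  have hD : ∀ x : Pt, (get (step1 S s) 11).testBit x = true ↔
      (get S 11).testBit x = true ∨ N.testBit x = true := fun x => by
    rw [hS, get_put, get_put]
    have : ¬ 11 = s := by omega
    simp [this]
  let d' : Pt → GG := fun x => if (get S 11).testBit x = true then d x else t s * d (t s • x) * t s
  have hd : ∀ x : Pt, (get S 11).testBit x = true → d' x = d x := fun x hx => if_pos hx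
  refine ⟨d', by rw [hd _ h1, h0], (hD _).2 (Or.inl h1), fun x hx => ?_, fun a ha x hx => ?_⟩
  · rcases (hD x).1 hx with hx | hx
    · exact h2 x hx
    · obtain ⟨g, hg⟩ := h2 _ ((hb x).1 hx).1
      exact ⟨t s * g, by rw [mul_smul, hg, t_t]⟩
  · rw [hS, get_put, get_put] at hx
    rcases hx with (hx | ⟨rfl, hx⟩) | ⟨rfl, _⟩
    · obtain ⟨e1, e2, e3⟩ := h3 a ha x hx
      refine ⟨(hD _).2 (Or.inl e1), (hD _).2 (Or.inl e2), ?_⟩
      rwa [Good, hd _ e1, hd _ e2]
    · obtain ⟨e1, e2⟩ := (hb x).1 hx
      refine ⟨(hD _).2 (Or.inr hx), (hD _).2 (Or.inl e1), Good.symm ?_⟩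
      rw [Good, t_t, hd _ e1]
      exact if_neg e2
    · omega

theorem Inv1.run {w : List ℕ} (hw : ∀ s ∈ w, s < 11) {S : ℕ} (h : Inv1 S) : Inv1 (run1 w S) := by
  induction w generalizing S with
  | nil => exact h
  | cons s w ih =>
    change Inv1 (frc S (run1 w (step1 S s)))
    rw [frc_eq]
    exact ih (fun a ha => hw a (List.mem_cons_of_mem _ ha)) (h.step (hw s List.mem_cons_self))

theorem inv1_init : Inv1 (put 0 11 1) := by
  have h0 : ∀ s (x : Pt), (get 0 s).testBit x = false := fun s x => by rw [testBit_get, Nat.zero_testBit]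
  have h1 : ∀ x : Pt, Nat.testBit 1 x = true → x = x0 := fun x hx => Fin.ext (by
    rwa [Nat.testBit_one_eq_true_iff_self_eq_zero] at hx)
  refine ⟨fun _ => t 10, rfl, (get_put _ _ _ _ _).2 (Or.inr ⟨rfl, rfl⟩), fun x hx => ?_, fun a ha x hx => ?_⟩
  · rw [get_put, h0] at hx
    exact ⟨1, by rw [one_smul, h1 x (by simpa using hx)]⟩
  · rw [get_put, h0] at hx
    have : a = 11 := by simpa using (by simpa using hx : a = 11 ∧ _).1
    omega

/-- The invariant of the second phase. -/
def Inv2 (d : Pt → GG) (S : ℕ) : Prop := ∀ s < 11, ∀ x : Pt, (get S s).testBit x = true → Good d s x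

theorem Inv2.put {d : Pt → GG} {S s V : ℕ} (h : Inv2 d S) (hV : ∀ x : Pt, V.testBit x = true → Good d s x) :
    Inv2 d (put S s V) := fun a ha x hx => by
  rcases (get_put _ _ _ _ _).1 hx with hx' | ⟨rfl, hx'⟩
  · exact h a ha x hx'
  · exact hV x hx'

/-- The points from which a path consists of known edges. -/
noncomputable def pth (S : ℕ) (w : List ℕ) : ℕ :=
  List.rec om (fun a _ r => Nat.land (get S a) (app a r)) w

theorem Inv2.pth {d : Pt → GG} {S : ℕ} (h : Inv2 d S) {w : List ℕ} (hw : ∀ s ∈ w, s < 11) {y : Pt}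
    (hy : (pth S w).testBit y = true) : d (pe w • y) = pe w * d y * (pe w)⁻¹ := by
  induction w generalizing y with
  | nil => simp [pe]
  | cons a w ih =>
    change (Nat.land (get S a) (app a (Fi.pth S w))).testBit y = true at hy
    rw [testBit_land', Bool.and_eq_true, testBit_app, ← t_val] at hy
    rw [pe, mul_smul, ih (fun s hs => hw s (List.mem_cons_of_mem _ hs)) hy.2, h a (hw a List.mem_cons_self) y hy.1,
      mul_inv_rev, t_inv]
    simp only [mul_assoc]

/-- A deduction from a relator. -/
noncomputable def relStep (S : ℕ) (w : List ℕ) : ℕ :=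
  List.rec S (fun s w' _ => put S s (app s (pth S w'))) w

theorem Inv2.rel {d : Pt → GG} {S : ℕ} (h : Inv2 d S) {w : List ℕ} (hw : ∀ s ∈ w, s < 11) (h1 : pe w = 1) :
    Inv2 d (relStep S w) := by
  cases w with
  | nil => exact h
  | cons s w =>
    refine h.put fun x hx => Good.symm ?_
    rw [testBit_app, ← t_val] at hx
    have e := h.pth (fun a ha => hw a (List.mem_cons_of_mem _ ha)) hx
    have e1 : pe w = t s := by rw [← t_inv]; exact eq_inv_of_mul_eq_one_left h1
    rwa [e1, t_inv] at e

/-- A deduction from a commuting pair. -/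
noncomputable def sqStep (S a b : ℕ) : ℕ :=
  (fun Ka Kb => (fun M => put (put S a (Nat.land Kb M)) b (Nat.land Ka M)) (Nat.land (app a Kb) (app b Ka)))
    (get S a) (get S b)

theorem Good.sq {d : Pt → GG} {a b : ℕ} (hab : t a * t b = t b * t a) {x : Pt} (h1 : Good d b x)
    (h2 : Good d b (t a • x)) (h3 : Good d a (t b • x)) : Good d a x := by
  rw [Good] at *
  rw [← mul_smul, ← hab, mul_smul, h3, h1] at h2
  have e : d (t a • x) = t b * (t a * (t b * d x * t b) * t a) * t b := by
    rw [h2, ← mul_assoc, ← mul_assoc, t_mul_t, one_mul, mul_assoc, t_mul_t, mul_one]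
  rw [e]
  calc _ = (t b * t a) * t b * d x * (t b * (t a * t b)) := by simp only [mul_assoc]
    _ = _ := by
      rw [hab, ← hab, mul_assoc (t a), t_mul_t, mul_one, hab, ← mul_assoc (t b), t_mul_t, one_mul]

theorem Inv2.sq {d : Pt → GG} {S a b : ℕ} (h : Inv2 d S) (ha : a < 11) (hb : b < 11) (hab : adj a b = false) :
    Inv2 d (sqStep S a b) := by
  have e := t_comm ha hb hab
  refine Inv2.put (Inv2.put h fun x hx => ?_) fun x hx => ?_
  · simp only [testBit_land', Bool.and_eq_true, testBit_app, ← t_val] at hx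
    exact Good.sq e (h b hb _ hx.1) (h b hb _ hx.2.1) (h a ha _ hx.2.2)
  · simp only [testBit_land', Bool.and_eq_true, testBit_app, ← t_val] at hx
    exact Good.sq e.symm (h a ha _ hx.1) (h a ha _ hx.2.2) (h b hb _ hx.2.1)

theorem x0_ok : allB (fun a => Bool.rec (Nat.beq (val nn a 0) 0) true (adj a 10)) 11 = true := by decide +kernel

theorem t_x0 {a : ℕ} (ha : a < 11) (h : adj a 10 = false) : t a • x0 = x0 := by
  have e := allB_spec x0_ok ha
  rw [h] at e
  have e1 : val nn a 0 = 0 := Nat.eq_of_beq_eq_true e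
  rw [val_eq a (by decide) (by decide)] at e1
  exact Fin.ext e1

/-- A rotated long relator. -/
def lrot (a b : ℕ) : List ℕ := (fun w => w.drop b ++ w.take b) (Nat.rec lr0 (fun _ _ => lr1) a : List ℕ)

theorem lrot_spec (a b : ℕ) : (∀ s ∈ lrot a b, s < 11) ∧ pe (lrot a b) = 1 := by
  have key : ∀ w : List ℕ, (∀ s ∈ w, s < 11) → pe w = 1 →
      (∀ s ∈ w.drop b ++ w.take b, s < 11) ∧ pe (w.drop b ++ w.take b) = 1 := fun w h1 h2 => by
    refine ⟨fun s hs => ?_, ?_⟩
    · rcases List.mem_append.mp hs with h | h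
      · exact h1 s (List.mem_of_mem_drop h)
      · exact h1 s (List.mem_of_mem_take h)
    · rw [← List.take_append_drop b w, pe_append] at h2
      rw [pe_append, mul_eq_one_comm, h2]
  cases a with
  | zero => exact key lr0 (by decide) pe_lr0
  | succ a => exact key lr1 (by decide) pe_lr1

/-- One step of the second phase. -/
noncomputable def step2 (S k a b : ℕ) : ℕ :=
  Nat.rec (sqStep S a b) (fun k _ => Nat.rec (relStep S [a, b, a, b, a, b]) (fun k _ =>
    Nat.rec (relStep S (lrot a b)) (fun k _ => Nat.rec (put S a (app a (get S a))) (fun _ _ => put S a 1) k) k) k) k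

/-- Admissible steps. -/
def okOp (k a b : ℕ) : Bool :=
  Nat.ble a 10 && (Nat.beq k 2 || (Nat.ble b 10 && (Nat.beq k 3 || (adj a b == Nat.beq k 1)) &&
    (Nat.ble k 3 || Nat.beq b 10)))

theorem Inv2.step {d : Pt → GG} (h0 : d x0 = t 10) {S k a b : ℕ} (h : Inv2 d S) (hk : okOp k a b = true) :
    Inv2 d (step2 S k a b) := by
  simp only [okOp, Bool.and_eq_true, Bool.or_eq_true, Nat.ble_eq, Nat.beq_eq, beq_iff_eq] at hk
  obtain ⟨ha, hk⟩ := hk
  have ha' : a < 11 := by omega
  match k, hk with
  | 0, hk =>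
    have hb : b < 11 := by omega
    exact h.sq ha' hb ((hk.resolve_left (by omega)).1.2.resolve_left (by omega))
  | 1, hk =>
    have hb : b < 11 := by omega
    have e : adj a b = true := (hk.resolve_left (by omega)).1.2.resolve_left (by omega)
    refine Inv2.rel (w := [a, b, a, b, a, b]) h (by simp [ha', hb]) ?_
    have e1 := t_braid ha' hb e
    calc pe [a, b, a, b, a, b] = (t b * t a * t b) * (t a * t b * t a) := by simp [pe, mul_assoc]
      _ = t a * (t b * (t a * t a) * t b) * t a := by rw [← e1]; simp only [mul_assoc]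
      _ = 1 := by rw [t_mul_t, mul_one, t_mul_t, mul_one, t_mul_t]
  | 2, _ => exact h.rel (lrot_spec a b).1 (lrot_spec a b).2
  | 3, _ =>
    refine h.put fun x hx => Good.symm ?_
    rw [testBit_app, ← t_val] at hx
    exact h a ha' _ hx
  | k + 4, hk =>
    obtain ⟨⟨-, e1⟩, e2⟩ := hk.resolve_left (by omega)
    obtain rfl : b = 10 := by omega
    have e : adj a 10 = false := e1.resolve_left (by omega)
    refine h.put fun x hx => ?_
    obtain rfl : x = x0 := Fin.ext (by rwa [Nat.testBit_one_eq_true_iff_self_eq_zero] at hx)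
    rw [Good, t_x0 ha' e, h0, t_comm ha' (by omega) e, mul_assoc, t_mul_t, mul_one]

/-- The second phase; a step is coded by one number. -/
noncomputable def run2 (w : List ℕ) : ℕ → ℕ :=
  List.rec (fun S => S) (fun c _ ih S => frc S (ih (step2 S (Nat.div c 1024) (Nat.mod (Nat.div c 64) 16)
    (Nat.mod c 64)))) w

/-- Admissible codes. -/
def okC (c : ℕ) : Bool := okOp (Nat.div c 1024) (Nat.mod (Nat.div c 64) 16) (Nat.mod c 64)

theorem Inv2.run {d : Pt → GG} (h0 : d x0 = t 10) {w : List ℕ} (hw : allL okC w = true) {S : ℕ}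
    (h : Inv2 d S) : Inv2 d (run2 w S) := by
  have hw' : ∀ c ∈ w, okC c = true := fun c hc => allL_spec hw hc
  clear hw
  induction w generalizing S with
  | nil => exact h
  | cons c w ih =>
    change Inv2 d (frc S (run2 w (step2 S _ _ _)))
    rw [frc_eq]
    exact ih (h.step h0 (hw' c List.mem_cons_self)) fun a ha => hw' a (List.mem_cons_of_mem _ ha)

end Cfsg.Agent.H9.Fi
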