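import Cfsg.Agent.H9.FiSimple
import Cfsg.Agent.H9.SmallPerfect

/-!
A maximal subgroup with a long derived series.
-/

set_option autoImplicit false

namespace Cfsg.Agent.H9.Fi

open scoped commutatorElement

attribute [local irreducible] valW val clo app

/-- Directions in the affine plane of order three. -/
def dirn (v : ZMod 3 × ZMod 3) : Fin 4 := if v.1 = 0 then 0 else if v.2 = 0 then 1 else if v.1 = v.2 then 2 else 3

theorem dirn_eq : ∀ v w : ZMod 3 × ZMod 3, v ≠ 0 → w ≠ 0 → (dirn v = dirn w ↔ w = v ∨ w = -v) := by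
  decide +kernel

/-- A perfect group acts trivially on an affine plane of order three. -/
theorem ag {G Ω : Type*} [Group G] [MulAction G Ω] {P : Subgroup G} (hP : ⁅P, P⁆ = P) (S : Ω → Prop)
    (hS : ∀ g ∈ P, ∀ v, S v → S (g • v)) (lab : Ω → ZMod 3 × ZMod 3) (hsurj : ∀ c, ∃ v, S v ∧ lab v = c)
    (h3 : ∀ g ∈ P, ∀ x y w, S x → S y → S w → lab x + lab y + lab w = 0 →
      lab (g • x) + lab (g • y) + lab (g • w) = 0) {g : G} (hg : g ∈ P) {x : Ω} (hx : S x) :
    lab (g • x) = lab x := by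
  classical
  have key : ∀ g ∈ P, ∀ x y x' y', S x → S y → S x' → S y' → lab x - lab y = lab x' - lab y' →
      lab (g • x) - lab (g • y) = lab (g • x') - lab (g • y') := fun g hg x y x' y' hx hy hx' hy' e => by
    obtain ⟨w, hw, e1⟩ := hsurj (-(lab x + lab y'))
    have a1 := h3 g hg x y' w hx hy' hw (by rw [e1]; abel)
    have a2 := h3 g hg x' y w hx' hy hw (by rw [e1]; linear_combination (exp := 1) -e)
    linear_combination (exp := 1) a1 - a2
  have hne : ∀ g ∈ P, ∀ x y, S x → S y → lab x - lab y ≠ 0 → lab (g • x) - lab (g • y) ≠ 0 :=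
    fun g hg x y hx hy h e => h (by
      have := key g⁻¹ (inv_mem hg) _ _ _ _ (hS g hg _ hx) (hS g hg _ hy) (hS g hg _ hx) (hS g hg _ hx)
        (by rw [e, sub_self])
      simpa using this)
  have s1 : ∀ g ∈ P, ∀ x y, S x → S y → lab x - lab y ≠ 0 →
      lab (g • x) - lab (g • y) = lab x - lab y ∨ lab (g • x) - lab (g • y) = -(lab x - lab y) :=
    fun g hg x y hx hy h => by
      have := perfect_fix (V := Ω × Ω) (X := Fin 4) (by simp) hP
        (fun p => S p.1 ∧ S p.2 ∧ lab p.1 - lab p.2 ≠ 0)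
        (fun g hg p hp => ⟨hS g hg _ hp.1, hS g hg _ hp.2.1, hne g hg _ _ hp.1 hp.2.1 hp.2.2⟩)
        (fun p => dirn (lab p.1 - lab p.2)) (fun g hg p p' hp hp' e => by
          refine (dirn_eq _ _ (hne g hg _ _ hp.1 hp.2.1 hp.2.2) (hne g hg _ _ hp'.1 hp'.2.1 hp'.2.2)).2 ?_
          rcases (dirn_eq _ _ hp.2.2 hp'.2.2).1 e with e | e
          · exact Or.inl (key g hg _ _ _ _ hp'.1 hp'.2.1 hp.1 hp.2.1 e)
          · refine Or.inr ?_
            rw [neg_sub] at e ⊢
            exact key g hg _ _ _ _ hp'.1 hp'.2.1 hp.2.1 hp.1 e) hg (v := (x, y)) ⟨hx, hy, h⟩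
      exact (dirn_eq _ _ h (hne g hg _ _ hx hy h)).1 this.symm
  have s2 : ∀ g ∈ P, ∀ x y, S x → S y → lab (g • x) - lab (g • y) = lab x - lab y := fun g hg x y hx hy => by
    by_cases h : lab x - lab y = 0
    · rw [key g hg x y x x hx hy hx hx (by rw [h, sub_self]), sub_self, h]
    generalize hv : lab x - lab y = v at h
    have h' : -v ≠ 0 := neg_ne_zero.mpr h
    have := perfect_fix (V := Ω × Ω) (X := Bool) (by simp) hP
      (fun p => S p.1 ∧ S p.2 ∧ (lab p.1 - lab p.2 = v ∨ lab p.1 - lab p.2 = -v))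
      (fun g hg p hp => ⟨hS g hg _ hp.1, hS g hg _ hp.2.1, by
        change lab (g • p.1) - lab (g • p.2) = v ∨ lab (g • p.1) - lab (g • p.2) = -v
        rcases hp.2.2 with e | e
        · simpa only [e] using s1 g hg _ _ hp.1 hp.2.1 (by rwa [e])
        · simpa only [e, neg_neg, or_comm] using s1 g hg _ _ hp.1 hp.2.1 (by rwa [e])⟩)
      (fun p => decide (lab p.1 - lab p.2 = v)) (fun g hg p p' hp hp' e => by
        have e1 : lab p.1 - lab p.2 = lab p'.1 - lab p'.2 := by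
          rw [decide_eq_decide] at e
          by_cases h1 : lab p.1 - lab p.2 = v
          · rw [h1, e.1 h1]
          · rw [hp.2.2.resolve_left h1, hp'.2.2.resolve_left (fun h => h1 (e.2 h))]
        have := key g hg _ _ _ _ hp.1 hp.2.1 hp'.1 hp'.2.1 e1
        change decide (lab (g • p.1) - lab (g • p.2) = v) = decide (lab (g • p'.1) - lab (g • p'.2) = v)
        rw [this]) hg (v := (x, y)) ⟨hx, hy, Or.inl hv⟩
    change decide (lab (g • x) - lab (g • y) = v) = decide (lab x - lab y = v) at this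
    rw [decide_eq_decide] at this
    exact this.2 hv
  refine Prod.ext ?_ ?_
  · refine perfect_fix (X := ZMod 3) (by simp) hP S hS (fun v => (lab v).1) (fun g hg v w hv hw e => ?_) hg hx
    have := congrArg Prod.fst (s2 g hg v w hv hw)
    simp only [Prod.fst_sub] at this e ⊢
    rwa [e, sub_self, sub_eq_zero] at this
  · refine perfect_fix (X := ZMod 3) (by simp) hP S hS (fun v => (lab v).2) (fun g hg v w hv hw e => ?_) hg hx
    have := congrArg Prod.snd (s2 g hg v w hv hw)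
    simp only [Prod.snd_sub] at this e ⊢
    rwa [e, sub_self, sub_eq_zero] at this

/-- Coordinates in the affine plane. -/
def lb (a : ℕ) : ZMod 3 × ZMod 3 := ((a : ZMod 3), ((a / 3 : ℕ) : ZMod 3))

theorem lb_sum : ∀ a < 9, ∀ b < 9, ∀ c < 9, lb a + lb b + lb c = 0 ↔ c = op a b := by decide +kernel

theorem lb_inj : ∀ a < 9, ∀ b < 9, lb a = lb b → a = b := by decide +kernel

theorem lb_surj : ∀ c, ∃ a < 9, lb a = c := by decide +kernel

theorem op_self : ∀ a < 9, op a a = a := by decide +kernel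

theorem op_lt (a b : ℕ) : op a b < 9 := by unfold op; omega

/-- The stabiliser of the set of `324` points. -/
def HH : Subgroup GG where
  carrier := {g | ∀ x : Pt, ((g • x : Pt) : ℕ) < 324 ↔ (x : ℕ) < 324}
  mul_mem' := fun {a b} ha hb x => by rw [mul_smul, ha, hb]
  one_mem' := fun x => by rw [one_smul]
  inv_mem' := fun {a} ha x => by rw [← ha, smul_inv_smul]

theorem mem_HH {g : GG} : g ∈ HH ↔ ∀ x : Pt, ((g • x : Pt) : ℕ) < 324 ↔ (x : ℕ) < 324 := Iff.rfl

/-- Preservation of the structure on the `324` points. -/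
structure Pres (g : GG) : Prop where
  lt : ∀ x : Pt, (x : ℕ) < 324 → ((g • x : Pt) : ℕ) < 324
  th : ∀ x y : Pt, (x : ℕ) < 324 → (y : ℕ) < 324 → (x : ℕ) / 9 = y / 9 →
    ((g • x : Pt) : ℕ) / 9 = (g • y : Pt) / 9
  tri : ∀ x y w : Pt, (x : ℕ) < 324 → (y : ℕ) < 324 → (w : ℕ) < 324 → (w : ℕ) / 36 = op (x / 36) (y / 36) →
    ((g • w : Pt) : ℕ) / 36 = op ((g • x : Pt) / 36) ((g • y : Pt) / 36)

theorem Pres.top {g : GG} (h : Pres g) {x y : Pt} (hx : (x : ℕ) < 324) (hy : (y : ℕ) < 324)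
    (e : (x : ℕ) / 36 = y / 36) : ((g • x : Pt) : ℕ) / 36 = (g • y : Pt) / 36 := by
  have := h.tri y y x hy hy hx (by rw [e, op_self _ (by omega)])
  rwa [op_self _ (by have := h.lt y hy; omega)] at this

theorem Pres.mul {g h : GG} (hg : Pres g) (hh : Pres h) : Pres (g * h) where
  lt := fun x hx => by rw [mul_smul]; exact hg.lt _ (hh.lt x hx)
  th := fun x y hx hy e => by
    rw [mul_smul, mul_smul]; exact hg.th _ _ (hh.lt x hx) (hh.lt y hy) (hh.th x y hx hy e)
  tri := fun x y w hx hy hw e => by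
    rw [mul_smul, mul_smul, mul_smul]
    exact hg.tri _ _ _ (hh.lt x hx) (hh.lt y hy) (hh.lt w hw) (hh.tri x y w hx hy hw e)

theorem val324 (s : ℕ) {x : ℕ} (hx : x < 324) : val 324 s x = f s x := val_eq s hx (hx.trans (by decide))

theorem pres_t {s : ℕ} (hs : s ∈ LL) : Pres (t s) := by
  have h := allL_spec e_ok hs
  rw [eChk, Bool.and_eq_true] at h
  have h1 : ∀ x < 324, f s x < 324 ∧ f s x / 36 = f s (36 * (x / 36)) / 36 ∧ f s x / 9 = f s (9 * (x / 9)) / 9 :=
    fun x hx => by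
      have := allB_spec h.1 hx
      rw [frN_eq, val324 s hx, val324 s (by omega : 36 * (x / 36) < 324), val324 s (by omega : 9 * (x / 9) < 324)]
        at this
      simp only [Bool.and_eq_true, Nat.ble_eq, Nat.beq_eq] at this
      exact ⟨by omega, this.1.2, this.2⟩
  have h2 : ∀ a < 9, ∀ b < 9, f s (36 * op a b) / 36 = op (f s (36 * a) / 36) (f s (36 * b) / 36) :=
    fun a ha b hb => by
      have := allB_spec (allB_spec h.2 ha) hb
      have h3 := op_lt a b
      rw [val324 s (by omega : 36 * op a b < 324), val324 s (by omega : 36 * a < 324),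
        val324 s (by omega : 36 * b < 324)] at this
      exact Nat.eq_of_beq_eq_true this
  refine ⟨fun x hx => (h1 x hx).1, fun x y hx hy e => ?_, fun x y w hx hy hw e => ?_⟩
  · rw [t_val, t_val, (h1 x hx).2.2, (h1 y hy).2.2, e]
  · rw [t_val, t_val, t_val, (h1 x hx).2.1, (h1 y hy).2.1, (h1 w hw).2.1, e, h2 _ (by omega) _ (by omega)]

theorem pres_pe {w : List ℕ} (hw : ∀ s ∈ w, s ∈ LL) : Pres (pe w) := by
  induction w with
  | nil => exact ⟨fun x hx => by simpa [pe] using hx, fun x y _ _ e => by simpa [pe] using e,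
      fun x y w _ _ _ e => by simpa [pe] using e⟩
  | cons s w ih => exact (ih fun a ha => hw a (List.mem_cons_of_mem _ ha)).mul (pres_t (hw s List.mem_cons_self))

theorem t_mem {s : ℕ} (hs : s ∈ LL) : t s ∈ HH := fun x =>
  ⟨fun h => by simpa only [t_t] using (pres_t hs).lt _ h, (pres_t hs).lt x⟩

theorem exists_word {x : Pt} (hx : (x : ℕ) < 324) : ∃ w : List ℕ, (∀ s ∈ w, s ∈ LL) ∧ pe w • x0 = x := by
  refine clo_single (Y := fun x => ∃ w : List ℕ, (∀ s ∈ w, s ∈ LL) ∧ pe w • x0 = x) (w := uX) (y := x0) ?_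
    ⟨[], by simp, by simp [pe]⟩ x ?_
  · rintro s hs y ⟨w, h1, h2⟩
    refine ⟨w ++ [s], fun a ha => ?_, by rw [pe_append, mul_smul, h2]; simp [pe]⟩
    rcases List.mem_append.mp ha with h | h
    · exact h1 a h
    · rw [List.mem_singleton.mp h]
      exact (by decide : ∀ s ∈ uX, s ∈ LL) s hs
  · have := Nat.eq_of_beq_eq_true uX_ok
    change (clo uX (Nat.shiftLeft 1 0)).testBit x = true
    rw [this, testBit_ones]
    simpa using hx

theorem dd_facts {x y : Pt} (hx : (x : ℕ) < 324) (hy : (y : ℕ) < 324) :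
    ((dd x • y : Pt) : ℕ) < 324 ∧ ((dd x • y : Pt) : ℕ) / 36 = op (x / 36) (y / 36) ∧
      (dd x • y = y ↔ y = x ∨ ((y : ℕ) / 36 = x / 36 ∧ (y : ℕ) / 9 ≠ x / 9)) := by
  obtain ⟨w, hw, rfl⟩ := exists_word hx
  have p1 := pres_pe hw
  have p2 : Pres (pe w)⁻¹ := by
    rw [← pe_reverse]; exact pres_pe fun s hs => hw s (List.mem_reverse.mp hs)
  generalize pe w = W at *
  obtain ⟨y, rfl⟩ : ∃ y', y = W • y' := ⟨W⁻¹ • y, by simp⟩
  have hy' : (y : ℕ) < 324 := by simpa using p2.lt _ hy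
  have h0 : ((x0 : Pt) : ℕ) < 324 := by decide
  have e : dd (W • x0) • W • y = W • t 10 • y := by rw [dd_smul, dd_x0, mul_smul, mul_smul, inv_smul_smul]
  have hk := allB_spec k_ok hy'
  rw [frN_eq, val324 10 hy'] at hk
  simp only [Bool.and_eq_true, Nat.beq_eq, beq_iff_eq, ← t_val] at hk
  have h10 := (pres_t (s := 10) (by decide)).lt y hy'
  rw [e]
  refine ⟨p1.lt _ h10, p1.tri _ _ _ h0 hy' h10 hk.1, ?_⟩
  have h2 : t 10 • y = y ↔ (y : ℕ) = 0 ∨ (9 ≤ (y : ℕ) ∧ (y : ℕ) ≤ 35) := by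
    have := congrArg (· = true) hk.2
    simp only [Nat.beq_eq, Bool.or_eq_true, Bool.and_eq_true, Nat.ble_eq, eq_iff_iff] at this
    rw [← this, Fin.ext_iff]
  have h3 : ((W • y : Pt) : ℕ) / 36 = (W • x0 : Pt) / 36 ↔ (y : ℕ) / 36 = 0 :=
    ⟨fun h => by have := p2.top hy hx h; rwa [inv_smul_smul, inv_smul_smul] at this, fun h => p1.top hy' h0 h⟩
  have h4 : ((W • y : Pt) : ℕ) / 9 = (W • x0 : Pt) / 9 ↔ (y : ℕ) / 9 = 0 :=
    ⟨fun h => by have := p2.th _ _ hy hx h; rwa [inv_smul_smul, inv_smul_smul] at this,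
      fun h => p1.th _ _ hy' h0 h⟩
  rw [smul_left_cancel_iff, smul_left_cancel_iff, h2, h3, Ne, h4, Fin.ext_iff]
  change _ ↔ (y : ℕ) = 0 ∨ _
  omega

theorem dd_smul_smul (g : GG) (x y : Pt) : dd (g • x) • g • y = g • dd x • y := by
  rw [dd_smul, mul_smul, mul_smul, inv_smul_smul]

theorem pres_of_mem {g : GG} (hg : g ∈ HH) : Pres g := by
  have rel : ∀ g ∈ HH, ∀ x y : Pt, (x : ℕ) < 324 → (y : ℕ) < 324 → (y : ℕ) / 36 = x / 36 → (y : ℕ) / 9 ≠ x / 9 →
      ((g • y : Pt) : ℕ) / 36 = (g • x : Pt) / 36 ∧ ((g • y : Pt) : ℕ) / 9 ≠ (g • x : Pt) / 9 :=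
    fun g hg x y hx hy e1 e2 => by
      have h1 := (dd_facts hx hy).2.2.2 (Or.inr ⟨e1, e2⟩)
      refine ((dd_facts ((hg x).2 hx) ((hg y).2 hy)).2.2.1 (by rw [dd_smul_smul, h1])).resolve_left fun h => ?_
      rw [smul_left_cancel_iff] at h
      exact e2 (by rw [h])
  have top : ∀ x y : Pt, (x : ℕ) < 324 → (y : ℕ) < 324 → (x : ℕ) / 36 = y / 36 →
      ((g • x : Pt) : ℕ) / 36 = (g • y : Pt) / 36 := fun x y hx hy e => by
    obtain ⟨w, h1, h2, h3, h4⟩ : ∃ w : ℕ, w < 324 ∧ w / 36 = x / 36 ∧ w / 9 ≠ x / 9 ∧ w / 9 ≠ y / 9 := by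
      by_cases a1 : (x : ℕ) / 9 % 4 ≠ 0 ∧ (y : ℕ) / 9 % 4 ≠ 0
      · exact ⟨36 * (x / 36), by omega, by omega, by omega, by omega⟩
      by_cases a2 : (x : ℕ) / 9 % 4 ≠ 1 ∧ (y : ℕ) / 9 % 4 ≠ 1
      · exact ⟨36 * (x / 36) + 9, by omega, by omega, by omega, by omega⟩
      · exact ⟨36 * (x / 36) + 18, by omega, by omega, by omega, by omega⟩
    let w' : Pt := ⟨w, h1.trans (by decide)⟩
    rw [← (rel g hg x w' hx h1 h2 h3).1, ← (rel g hg y w' hy h1 (h2.trans e) h4).1]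
  refine ⟨fun x => (hg x).2, fun x y hx hy e => ?_, fun x y w hx hy hw e => ?_⟩
  · by_contra h
    have := (rel g⁻¹ (inv_mem hg) _ _ ((hg y).2 hy) ((hg x).2 hx) (top x y hx hy (by omega)) h).2
    rw [inv_smul_smul, inv_smul_smul] at this
    exact this e
  · have h1 := dd_facts hx hy
    rw [top w _ hw h1.1 (e.trans h1.2.1.symm), ← dd_smul_smul, (dd_facts ((hg x).2 hx) ((hg y).2 hy)).2.1]

theorem dd_small {x y : Pt} (hx : (x : ℕ) < 9) (hy : (y : ℕ) < 9) : ((dd x • y : Pt) : ℕ) = op x y := by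
  have h := allB_spec th_ok hx
  rw [Bool.and_eq_true] at h
  have h1 : valW (thW x) x0 = x := Nat.eq_of_beq_eq_true h.1
  have h2 := Nat.eq_of_beq_eq_true (allB_spec h.2 hy)
  rw [valW_val] at h1 h2
  rw [← h2]
  conv_lhs => rw [← Fin.ext h1, dd_smul, dd_x0]
  rw [pe_append, pe_reverse, pe]

theorem all_of_closed {Y : Pt → Prop} (h0 : Y x0) (h : ∀ s, s ∈ LL ∨ s = 6 → ∀ x, Y x → Y (t s • x)) (x : Pt) :
    Y x := by
  refine clo_single (w := uA) (fun s hs => h s ((by decide : ∀ s ∈ uA, s ∈ LL ∨ s = 6) s hs)) h0 x ?_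
  change (clo uA (Nat.shiftLeft 1 0)).testBit x = true
  rw [Nat.eq_of_beq_eq_true uA_ok, testBit_om]
  simp

theorem conj_pe_mem {P : Subgroup GG} (hn : ∀ s ∈ LL, ∀ g ∈ P, t s * g * t s ∈ P) {u : List ℕ}
    (hu : ∀ s ∈ u, s ∈ LL) {g : GG} (hg : g ∈ P) : pe u * g * (pe u)⁻¹ ∈ P := by
  induction u generalizing g with
  | nil => simpa [pe] using hg
  | cons s u ih =>
    have := ih (fun a ha => hu a (List.mem_cons_of_mem _ ha)) (hn s (hu s List.mem_cons_self) g hg)
    rw [pe, mul_inv_rev, t_inv]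
    simpa only [mul_assoc] using this

theorem perfect_eq_bot {P : Subgroup GG} (hP : ⁅P, P⁆ = P) (hle : P ≤ HH)
    (hn : ∀ s ∈ LL, ∀ g ∈ P, t s * g * t s ∈ P) : P = ⊥ := by
  have hnn : 324 < nn := by decide
  have s1 : ∀ g ∈ P, ∀ x : Pt, (x : ℕ) < 324 → ((g • x : Pt) : ℕ) / 36 = x / 36 := fun g hg x hx => by
    have := (hle hg x).2 hx
    refine lb_inj _ (by omega) _ (by omega) (ag hP (fun x : Pt => (x : ℕ) < 324) (fun g hg v => (hle hg v).2)
      (fun x : Pt => lb (x / 36)) (fun c => ?_) (fun g hg x y w hx hy hw e => ?_) hg hx)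
    · obtain ⟨a, ha, rfl⟩ := lb_surj c
      exact ⟨⟨36 * a, by omega⟩, by simp only; omega, by simp⟩
    · have h1 := (hle hg x).2 hx
      have h2 := (hle hg y).2 hy
      have h3 := (hle hg w).2 hw
      exact (lb_sum _ (by omega) _ (by omega) _ (by omega)).2
        ((pres_of_mem (hle hg)).tri x y w hx hy hw ((lb_sum _ (by omega) _ (by omega) _ (by omega)).1 e))
  have i1 : ∀ g ∈ P, ∀ x : Pt, (x : ℕ) < 36 → ((g • x : Pt) : ℕ) < 36 := fun g hg x hx => by
    have := s1 g hg x (by omega); omega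
  have s2 : ∀ g ∈ P, ∀ x : Pt, (x : ℕ) < 36 → ((g • x : Pt) : ℕ) / 9 = x / 9 := fun g hg x hx => by
    have := perfect_fix (X := Fin 4) (by simp) hP (fun x : Pt => (x : ℕ) < 36) i1
      (fun x : Pt => (⟨x / 9 % 4, Nat.mod_lt _ (by omega)⟩ : Fin 4)) (fun g hg v w hv hw e => by
        rw [Fin.mk.injEq] at e ⊢
        rw [(pres_of_mem (hle hg)).th v w (by omega) (by omega) (by omega)]) hg hx
    have h1 := i1 g hg x hx
    rw [Fin.mk.injEq] at this
    omega
  have i2 : ∀ g ∈ P, ∀ x : Pt, (x : ℕ) < 9 → ((g • x : Pt) : ℕ) < 9 := fun g hg x hx => by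
    have := s2 g hg x (by omega); omega
  have s3 : ∀ g ∈ P, g • x0 = x0 := fun g hg => by
    have h0 : ((x0 : Pt) : ℕ) < 9 := by decide
    refine Fin.ext (lb_inj _ (i2 g hg _ h0) _ h0 (ag hP (fun x : Pt => (x : ℕ) < 9) i2
      (fun x : Pt => lb x) (fun c => ?_) (fun g hg x y w hx hy hw e => ?_) hg h0))
    · obtain ⟨a, ha, rfl⟩ := lb_surj c
      exact ⟨⟨a, by omega⟩, ha, rfl⟩
    · have e1 : w = dd x • y := Fin.ext (by rw [dd_small hx hy]; exact (lb_sum _ hx _ hy _ hw).1 e)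
      refine (lb_sum _ (i2 g hg _ hx) _ (i2 g hg _ hy) _ (i2 g hg _ hw)).2 ?_
      rw [e1, ← dd_smul_smul, dd_small (i2 g hg _ hx) (i2 g hg _ hy)]
  have s4 : ∀ g ∈ P, g • xs 6 (by omega) = xs 6 (by omega) := fun g hg => by
    let S : Pt → Prop := fun x => ∀ u ∈ zW, t 10 • pe u • x = pe u • x
    have hS : ∀ x, S x → (x : ℕ) = 329 ∨ (x : ℕ) = 1609 ∨ (x : ℕ) = 2016 := fun x hx =>
      z_spec x.2 fun u hu => by rw [← pe_val, ← t_val, hx u hu]
    have hI : ∀ g ∈ P, ∀ v, S v → S (g • v) := fun g hg v hv u hu => by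
      have h1 := conj_pe_mem hn ((by decide : ∀ u ∈ zW, ∀ s ∈ u, s ∈ LL) u hu) hg
      have h2 := dd_smul_smul (pe u * g * (pe u)⁻¹) x0 (pe u • v)
      rwa [s3 _ h1, dd_x0, hv u hu, mul_smul, mul_smul, inv_smul_smul] at h2
    have h6 : S (xs 6 (by omega)) := fun u hu => by
      have h1 : valW (u ++ [10]) (xs 6 (by omega)) = valW u (xs 6 (by omega)) :=
        Nat.eq_of_beq_eq_true (allL_spec z_ok' hu)
      rw [valW_val, valW_val, pe_append, mul_smul, show pe [10] = t 10 by simp [pe]] at h1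
      exact Fin.ext h1
    let F : Pt → Fin 3 := fun x => if (x : ℕ) = 329 then 0 else if (x : ℕ) = 1609 then 1 else 2
    have hF : ∀ v w, S v → S w → F v = F w → v = w := fun v w hv hw e => by
      apply Fin.ext
      rcases hS v hv with h1 | h1 | h1 <;> rcases hS w hw with h2 | h2 | h2 <;> simp [F, h1, h2] at e ⊢
    exact hF _ _ (hI g hg _ h6) h6 (perfect_fix (X := Fin 3) (by simp) hP S hI F
      (fun g _ v w hv hw e => by rw [hF v w hv hw e]) hg h6)
  refine (Subgroup.eq_bot_iff_forall P).mpr fun g hg => GG_ext fun x => ?_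
  rw [one_smul]
  refine all_of_closed (Y := fun x => ∀ g ∈ P, g • x = x) s3 (fun s hs x hx g hg => ?_) x g hg
  rcases hs with hs | rfl
  · have := hx _ (hn s hs g hg)
    rw [mul_smul, mul_smul] at this
    conv_rhs => rw [← this, t_t]
  · have := dd_smul_smul g (xs 6 (by omega)) x
    rwa [s4 g hg, dd_xs, hx g hg, eq_comm] at this

theorem dd_mem {x : Pt} (hx : (x : ℕ) < 324) : dd x ∈ HH := by
  obtain ⟨w, hw, rfl⟩ := exists_word hx
  rw [dd_smul, dd_x0]
  exact conj_pe_mem (fun s hs g hg => mul_mem (mul_mem (t_mem hs) hg) (t_mem hs)) hw (t_mem (by decide))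

theorem isCoatom_HH : IsCoatom HH := by
  have hp := pts_ok
  simp only [Bool.and_eq_true, Nat.beq_eq] at hp
  obtain ⟨⟨⟨p1, p2⟩, p3⟩, -⟩ := hp
  refine ⟨fun h => ?_, fun K hK => ?_⟩
  · have h1 : t 6 ∈ HH := h ▸ Subgroup.mem_top _
    have h2 : valW [6] (xs 7 (by omega)) = 326 := p3
    have h3 := (h1 (xs 7 (by omega))).2 (by decide)
    rw [valW_val, show pe [6] = t 6 by simp [pe]] at h2
    omega
  have hI : ∀ g ∈ K, ∀ x, dd x ∈ K → dd (g • x) ∈ K := fun g hg x hx => by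
    rw [dd_smul]; exact mul_mem (mul_mem hg hx) (inv_mem hg)
  obtain ⟨y, hy, hy'⟩ : ∃ y : Pt, dd y ∈ K ∧ ¬ (y : ℕ) < 324 := by
    by_contra h
    push Not at h
    refine hK.not_ge fun g hg x => ⟨fun hx => ?_, fun hx => h _ (hI g hg x (hK.le (dd_mem hx)))⟩
    have := h _ (hI g⁻¹ (inv_mem hg) _ (hK.le (dd_mem hx)))
    rwa [inv_smul_smul] at this
  have key : ∀ (z : Pt) (w : List ℕ), (∀ s ∈ w, s ∈ LL) → (clo w (Nat.shiftLeft 1 z)).testBit y = true →
      dd z ∈ K := fun z w hw h =>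
    clo_single (Y := fun y => dd y ∈ K → dd z ∈ K) (fun s hs x hx h => hx (by
      simpa only [t_t] using hI _ (hK.le (t_mem (hw s hs))) _ h)) id y h hy
  have h6 : dd (xs 6 (by omega)) ∈ K := by
    have h1 := congrArg (fun v => Nat.testBit v y) (Nat.eq_of_beq_eq_true uO_ok)
    simp only [testBit_lor', testBit_om, y.2, decide_true, Bool.or_eq_true, testBit_ones, decide_eq_true_eq] at h1
    rcases h1.resolve_right hy' with h | h
    · exact key _ uO1 (by decide) h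
    · let y2 : Pt := ⟨2633, by decide⟩
      have h2 : dd y2 ∈ K := key y2 uO2 (by decide) h
      have h3 : valW [14, 2, 6] x0 = y2 := p1
      have h4 : valW ([0, 8, 10] ++ ([14, 2, 6].reverse ++ 10 :: [14, 2, 6]) ++ [5]) y2 = xs 6 (by omega) := p2
      rw [valW_val] at h3 h4
      have h5 : pe ([14, 2, 6].reverse ++ 10 :: [14, 2, 6]) = dd y2 := by
        rw [← Fin.ext h3, dd_smul, dd_x0, pe_append, pe_reverse, pe]
      rw [← Fin.ext h4, pe_append, pe_append, h5]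
      refine hI _ (mul_mem ?_ (mul_mem h2 ?_)) _ h2
      · simpa [pe] using hK.le (t_mem (s := 5) (by decide))
      · simpa [pe] using mul_mem (mul_mem (hK.le (t_mem (s := 10) (by decide))) (hK.le (t_mem (s := 8) (by decide))))
          (hK.le (t_mem (s := 0) (by decide)))
  rw [dd_xs] at h6
  have hall := all_of_closed (Y := fun x => dd x ∈ K) (hK.le (dd_mem (by decide))) fun s hs x hx =>
    hI _ (hs.elim (fun h => hK.le (t_mem h)) fun h => h ▸ h6) x hx
  refine eq_top_iff.mpr fun g hg => ?_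
  clear hg
  induction g using GG_induction with
  | h1 => exact one_mem _
  | h s hs g ih => exact mul_mem (dd_xs s hs ▸ hall _) ih

theorem derived_ne : derivedSeries HH 10 ≠ derivedSeries HH 9 := fun h => by
  let D : ℕ → Subgroup GG := fun k => (derivedSeries HH k).map HH.subtype
  have hD : ∀ k, D (k + 1) = ⁅D k, D k⁆ := fun k => Subgroup.map_commutator _ _ _
  have hn : ∀ k, ∀ s ∈ LL, ∀ g ∈ D k, t s * g * t s ∈ D k := by
    rintro k s hs _ ⟨g, hg, rfl⟩
    refine ⟨_, (derivedSeries_normal HH k).conj_mem g hg ⟨t s, t_mem hs⟩, ?_⟩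
    simp [t_inv]
  have h9 : D 9 = ⊥ := perfect_eq_bot (by rw [← hD]; exact congrArg (Subgroup.map HH.subtype) h)
    (Subgroup.map_subtype_le _) (hn 9)
  have h3 : e3'.el ∈ D (0 + 3) := Ex.el_mem hD hn (b := 0) (fun s hs => ⟨⟨t s, t_mem hs⟩, Subgroup.mem_top _, rfl⟩) e3' e3_ok
  have e10 : e3'.el = t 10 := eq_of_base fun s hs => Fin.ext (by
    have h1 : e3'.ev true (xs s hs) = val nn 10 (xs s hs) := Nat.eq_of_beq_eq_true (allB_spec e3_ev hs)
    rwa [e3'.ev_eq.1, val_eq 10 (xs s hs).2 (xs s hs).2] at h1)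
  rw [e10] at h3
  have h0 : t 0 ∈ D 3 := by
    obtain ⟨w, hw, e⟩ := exists_word (x := xs 0 (by omega)) (by decide)
    rw [← dd_xs 0 (by omega), ← e, dd_smul, dd_x0]
    exact conj_pe_mem (hn 3) hw h3
  have h4 : e9.el ∈ D (3 + 6) := Ex.el_mem hD hn (fun s hs => by
    rcases List.mem_pair.mp hs with rfl | rfl
    · exact h0
    · exact h3) e9 e9_ok
  rw [show 3 + 6 = 9 from rfl, h9, Subgroup.mem_bot] at h4
  let y : Pt := ⟨324, by decide⟩
  have h5 : e9.ev true y = 2976 := Nat.eq_of_beq_eq_true e9_ev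
  rw [e9.ev_eq.1, h4, one_smul] at h5
  exact absurd h5 (by decide)

end Cfsg.Agent.H9.Fi
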