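import Mathlib

/-!
Permutations of `ℕ` given by swap networks, and their action on bit vectors.
-/

set_option autoImplicit false

namespace Cfsg.Agent.H9.Fi

/-- One stage of a network on points. -/
def sw (m d x : ℕ) : ℕ :=
  if m.testBit x then x + d else if d ≤ x ∧ m.testBit (x - d) then x - d else x

/-- One stage of a network on bit vectors. -/
def stg (m d V : ℕ) : ℕ :=
  (fun t => Nat.xor V (Nat.xor t (Nat.shiftLeft t d))) (Nat.land (Nat.xor (Nat.shiftRight V d) V) m)

/-- Validity of a stage. -/
def stOK (m d : ℕ) : Bool := Nat.beq (Nat.land m (Nat.shiftLeft m d)) 0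

theorem testBit_xor' (a b i : ℕ) : (Nat.xor a b).testBit i = (a.testBit i ^^ b.testBit i) := Nat.testBit_xor a b i
theorem testBit_land' (a b i : ℕ) : (Nat.land a b).testBit i = (a.testBit i && b.testBit i) := Nat.testBit_and a b i
theorem testBit_lor' (a b i : ℕ) : (Nat.lor a b).testBit i = (a.testBit i || b.testBit i) := Nat.testBit_or a b i
theorem testBit_shl' (a d i : ℕ) : (Nat.shiftLeft a d).testBit i = (decide (i ≥ d) && a.testBit (i - d)) :=
  Nat.testBit_shiftLeft a
theorem testBit_shr' (a d i : ℕ) : (Nat.shiftRight a d).testBit i = a.testBit (d + i) :=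
  Nat.testBit_shiftRight a

theorem stOK_spec {m d : ℕ} (h : stOK m d = true) {x : ℕ} (hx : d ≤ x) (h1 : m.testBit x = true) :
    m.testBit (x - d) = false := by
  have h0 : Nat.land m (Nat.shiftLeft m d) = 0 := Nat.eq_of_beq_eq_true h
  have := congrArg (fun v => Nat.testBit v x) h0
  simp only [testBit_land', testBit_shl', Nat.zero_testBit, h1, Bool.true_and] at this
  simpa [hx] using this

theorem testBit_stg {m d : ℕ} (h : stOK m d = true) (V x : ℕ) :
    (stg m d V).testBit x = V.testBit (sw m d x) := by
  simp only [stg, testBit_xor', testBit_land', testBit_shl', testBit_shr', sw]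
  by_cases h1 : m.testBit x = true
  · rw [if_pos h1, h1, add_comm x d]
    by_cases hx : d ≤ x
    · rw [stOK_spec h hx h1]
      cases V.testBit x <;> cases V.testBit (d + x) <;> simp
    · cases V.testBit x <;> cases V.testBit (d + x) <;> simp [hx]
  · rw [if_neg h1]
    have h1' : m.testBit x = false := by simpa using h1
    rw [h1']
    by_cases hx : d ≤ x
    · by_cases h2 : m.testBit (x - d) = true
      · rw [if_pos ⟨hx, h2⟩, h2, Nat.add_sub_cancel' hx]; simp [hx]
      · rw [if_neg (fun h => h2 h.2)]
        have h2' : m.testBit (x - d) = false := by simpa using h2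
        simp [h2']
    · rw [if_neg (fun h => hx h.1)]; simp [hx]

/-- Forcing the evaluation of a number. -/
noncomputable def frc {α : Type} (V : ℕ) (r : α) : α := Bool.rec r r (Nat.ble V 0)

theorem frc_eq {α : Type} (V : ℕ) (r : α) : frc V r = r := by
  unfold frc; cases Nat.ble V 0 <;> rfl

/-- A network on points. -/
def evN (N : List (ℕ × ℕ)) (x : ℕ) : ℕ := N.foldr (fun p y => sw p.1 p.2 y) x

/-- A network on bit vectors. -/
noncomputable def appN (N : List (ℕ × ℕ)) : ℕ → ℕ :=
  List.rec (fun V => V) (fun p _ ih V => ih (stg p.1 p.2 V)) N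

/-- Validity of a network. -/
noncomputable def netOK (N : List (ℕ × ℕ)) : Bool :=
  List.rec true (fun p _ ih => Bool.rec false ih (stOK p.1 p.2)) N

theorem testBit_appN {N : List (ℕ × ℕ)} (h : netOK N = true) (V x : ℕ) :
    (appN N V).testBit x = V.testBit (evN N x) := by
  induction N generalizing V with
  | nil => rfl
  | cons p N ih =>
    have h1 : stOK p.1 p.2 = true := by
      have : Bool.rec false (netOK N) (stOK p.1 p.2) = true := h
      revert this; cases stOK p.1 p.2 <;> simp
    have h2 : netOK N = true := by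
      have : Bool.rec false (netOK N) (stOK p.1 p.2) = true := h
      rwa [h1] at this
    change (appN N (stg p.1 p.2 V)).testBit x = V.testBit (sw p.1 p.2 (evN N x))
    rw [ih h2, testBit_stg h1]

/-- The bit planes of the identity on `[0, 2 ^ k)`. -/
noncomputable def idp (j k : ℕ) : ℕ :=
  Nat.rec 0 (fun k r => Bool.rec (Nat.lor r (Nat.shiftLeft r (Nat.shiftLeft 1 k)))
    (Nat.shiftLeft (Nat.sub (Nat.shiftLeft 1 (Nat.shiftLeft 1 k)) 1) (Nat.shiftLeft 1 k)) (Nat.beq k j)) k

theorem shl_one (k : ℕ) : Nat.shiftLeft 1 k = 2 ^ k := Nat.one_shiftLeft k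

theorem testBit_idp (j k x : ℕ) : (idp j k).testBit x = (decide (x < 2 ^ k) && x.testBit j) := by
  induction k generalizing x with
  | zero =>
    change (0 : ℕ).testBit x = _
    rw [Nat.zero_testBit]
    by_cases h : x = 0
    · subst h; simp
    · have : ¬ x < 2 ^ 0 := by omega
      simp [h]
  | succ k ih =>
    change Nat.testBit (Bool.rec (Nat.lor (idp j k) (Nat.shiftLeft (idp j k) (Nat.shiftLeft 1 k)))
      (Nat.shiftLeft (Nat.sub (Nat.shiftLeft 1 (Nat.shiftLeft 1 k)) 1) (Nat.shiftLeft 1 k)) (Nat.beq k j)) x = _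
    have hp : 2 ^ (k + 1) = 2 ^ k + 2 ^ k := by ring
    by_cases hkj : k = j
    · subst hkj
      rw [Nat.beq_refl]
      simp only [testBit_shl', shl_one]
      rw [show Nat.sub (2 ^ 2 ^ k) 1 = 2 ^ 2 ^ k - 1 from rfl, Nat.testBit_two_pow_sub_one]
      by_cases h1 : x < 2 ^ k
      · rw [Nat.testBit_lt_two_pow h1]
        have : ¬ x ≥ 2 ^ k := by omega
        simp [this]
      · by_cases h2 : x < 2 ^ (k + 1)
        · have : x.testBit k = true := Nat.testBit_of_two_pow_le_and_two_pow_add_one_gt (by omega) h2
          have h3 : x - 2 ^ k < 2 ^ k := by omega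
          have h4 : x ≥ 2 ^ k := by omega
          simp [this, h2, h3, h4]
        · have h3 : ¬ x - 2 ^ k < 2 ^ k := by omega
          simp [h2, h3]
    · have : Nat.beq k j = false := by
        cases h : Nat.beq k j
        · rfl
        · exact absurd (Nat.eq_of_beq_eq_true h) hkj
      rw [this]
      simp only [testBit_lor', testBit_shl', shl_one, ih]
      by_cases h1 : x < 2 ^ k
      · have h3 : ¬ x ≥ 2 ^ k := by omega
        have h2 : x < 2 ^ (k + 1) := by omega
        simp [h1, h2, h3]
      · have h4 : x ≥ 2 ^ k := by omega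
        by_cases h2 : x < 2 ^ (k + 1)
        · have h3 : x - 2 ^ k < 2 ^ k := by omega
          obtain ⟨y, rfl⟩ : ∃ y, x = 2 ^ k + y := ⟨x - 2 ^ k, by omega⟩
          simp only [h1, h2, h4, decide_true, decide_false, Bool.false_and, Bool.false_or, Bool.true_and,
            Nat.add_sub_cancel_left] at h3 ⊢
          simp only [h3, decide_true, Bool.true_and]
          rcases Nat.lt_or_gt_of_ne hkj with h | h
          · rw [Nat.testBit_lt_two_pow (h3.trans_le (Nat.pow_le_pow_right two_pos h.le)),
              Nat.testBit_lt_two_pow (h2.trans_le (Nat.pow_le_pow_right two_pos h))]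
          · rw [Nat.testBit_two_pow_add_gt h]
        · have h3 : ¬ x - 2 ^ k < 2 ^ k := by omega
          simp [h1, h2, h3]

end Cfsg.Agent.H9.Fi
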