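import Cfsg.Agent.H9.FiAct

/-!
The relations between the first eleven letters.
-/

set_option autoImplicit false

namespace Cfsg.Agent.H9.Fi

/-- Adjacency in the diagram. -/
def adj (a b : ℕ) : Bool :=
  Nat.beq (Nat.land (Nat.shiftRight 166315919846574524842609759127349250 (Nat.add (Nat.mul 11 a) b)) 1) 1

/-- The check of the relations of one letter with the later ones. -/
noncomputable def relChk (a : ℕ) : Bool :=
  allB (fun b => Bool.rec true (Bool.rec (eqW [a, b] [b, a]) (eqW [a, b, a] [b, a, b]) (adj a b))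
    (Nat.ble (Nat.succ a) b)) 11

theorem rel0 : allL relChk [0, 1] = true := by decide +kernel
theorem rel1 : allL relChk [2, 3, 4] = true := by decide +kernel
theorem rel2 : allL relChk [5, 6, 7, 8, 9, 10] = true := by decide +kernel

theorem relChk_all {a : ℕ} (ha : a < 11) : relChk a = true := by
  by_cases h1 : a < 2
  · exact allL_spec rel0 (by interval_cases a <;> simp)
  by_cases h2 : a < 5
  · exact allL_spec rel1 (by interval_cases a <;> simp_all)
  · exact allL_spec rel2 (by interval_cases a <;> simp_all)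

theorem adj_symm : ∀ a < 11, ∀ b < 11, adj a b = adj b a := by decide +kernel

theorem rel_lt {a b : ℕ} (hab : a < b) (hb : b < 11) :
    (adj a b = false → t a * t b = t b * t a) ∧ (adj a b = true → t a * t b * t a = t b * t a * t b) := by
  have h := allB_spec (relChk_all (hab.trans hb)) hb
  rw [Nat.ble_eq_true_of_le hab] at h
  constructor
  · intro e
    rw [e] at h
    have := pe_eq h
    simpa [pe] using this.symm
  · intro e
    rw [e] at h
    have := pe_eq h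
    simpa [pe] using this

theorem t_comm {a b : ℕ} (ha : a < 11) (hb : b < 11) (h : adj a b = false) : t a * t b = t b * t a := by
  rcases lt_trichotomy a b with e | e | e
  · exact (rel_lt e hb).1 h
  · rw [e]
  · exact ((rel_lt e ha).1 (by rwa [adj_symm b hb a ha])).symm

theorem t_braid {a b : ℕ} (ha : a < 11) (hb : b < 11) (h : adj a b = true) :
    t a * t b * t a = t b * t a * t b := by
  rcases lt_trichotomy a b with e | e | e
  · exact (rel_lt e hb).2 h
  · rw [e]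
  · exact ((rel_lt e ha).2 (by rwa [adj_symm b hb a ha])).symm

/-- A long relator. -/
def lr0 : List ℕ := [3, 4, 2, 8, 5, 1, 6, 3, 4, 2, 8, 5, 1, 6, 3, 4, 2, 8, 5, 1, 6, 3, 4, 2, 8, 5, 1, 6, 3, 4, 2, 8, 5, 1, 6, 3, 4, 2, 8, 5, 1, 6, 3, 4, 2, 8, 5, 1, 6, 3, 4, 2, 8, 5, 1, 6, 3, 4, 2, 8, 5, 1, 6, 10]

/-- A long relator. -/
def lr1 : List ℕ := [3, 4, 2, 8, 5, 9, 6, 3, 4, 2, 8, 5, 9, 6, 3, 4, 2, 8, 5, 9, 6, 3, 4, 2, 8, 5, 9, 6, 3, 4, 2, 8, 5, 9, 6, 3, 4, 2, 8, 5, 9, 6, 3, 4, 2, 8, 5, 9, 6, 3, 4, 2, 8, 5, 9, 6, 3, 4, 2, 8, 5, 9, 6, 10]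

/-- A relator of odd length. -/
def lr2 : List ℕ := [0, 1, 2, 3, 4, 5, 8, 0, 1, 2, 3, 4, 5, 8, 0, 1, 2, 3, 4, 5, 8, 0, 1, 2, 3, 4, 5, 8, 0, 1, 2, 3, 4, 5, 8, 0, 1, 2, 3, 4, 5, 8, 0, 1, 2, 3, 4, 5, 8, 0, 1, 2, 3, 4, 5, 8, 0, 1, 2, 3, 4, 5, 8]

theorem lr0_ok : eqW lr0 [] = true := by decide +kernel
theorem lr1_ok : eqW lr1 [] = true := by decide +kernel
theorem lr2_ok : eqW lr2 [] = true := by decide +kernel

theorem pe_lr0 : pe lr0 = 1 := pe_eq lr0_ok
theorem pe_lr1 : pe lr1 = 1 := pe_eq lr1_ok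
theorem pe_lr2 : pe lr2 = 1 := pe_eq lr2_ok

end Cfsg.Agent.H9.Fi
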