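import Cfsg.Agent.H9.FiCos2
import Cfsg.Agent.H9.FiChk

/-!
The group generated by the eleven letters is simple.
-/

set_option autoImplicit false

namespace Cfsg.Agent.H9.Fi

attribute [local irreducible] valW val clo app

/-- The involution attached to a point. -/
noncomputable def dd : Pt → GG := exists_d.choose

theorem dd_x0 : dd x0 = t 10 := exists_d.choose_spec.1

theorem exists_smul_x0 (x : Pt) : ∃ g : GG, g • x0 = x := exists_d.choose_spec.2.1 x

theorem dd_smul (g : GG) (x : Pt) : dd (g • x) = g * dd x * g⁻¹ := exists_d.choose_spec.2.2 g x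

/-- The points of the generators. -/
def xs (s : ℕ) (hs : s < 11) : Pt := ⟨xv s, xv_lt s hs⟩

theorem dd_step {a b : ℕ} (ha : a < 11) (hb : b < 11) (h : adj a b = true)
    (hm : (a, b) ∈ [(10, 7), (7, 6), (6, 5), (5, 4), (4, 3), (3, 2), (2, 1), (1, 0), (3, 8), (8, 9)])
    (ih : dd (xs a ha) = t a) : dd (xs b hb) = t b := by
  have e : valW [b, a] (xv a) = xv b := Nat.eq_of_beq_eq_true (allL_spec xv_ok hm)
  have e1 : xs b hb = pe [b, a] • xs a ha := Fin.ext (e.symm.trans (valW_val [b, a] (xs a ha)))
  have e2 : pe [b, a] = t a * t b := by simp [pe]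
  rw [e1, dd_smul, ih, e2, mul_inv_rev, t_inv, t_inv, t_braid ha hb h]
  calc _ = t b * t a * (t b * t b) * t a := by simp only [mul_assoc]
    _ = _ := by rw [t_mul_t, mul_one, mul_assoc, t_mul_t, mul_one]

theorem dd_xs (s : ℕ) (hs : s < 11) : dd (xs s hs) = t s := by
  have h10 : dd (xs 10 (by omega)) = t 10 := dd_x0
  have h7 := dd_step (b := 7) _ (by omega) (by decide +kernel) (by simp) h10
  have h6 := dd_step (b := 6) _ (by omega) (by decide +kernel) (by simp) h7
  have h5 := dd_step (b := 5) _ (by omega) (by decide +kernel) (by simp) h6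
  have h4 := dd_step (b := 4) _ (by omega) (by decide +kernel) (by simp) h5
  have h3 := dd_step (b := 3) _ (by omega) (by decide +kernel) (by simp) h4
  have h2 := dd_step (b := 2) _ (by omega) (by decide +kernel) (by simp) h3
  have h1 := dd_step (b := 1) _ (by omega) (by decide +kernel) (by simp) h2
  have h0 := dd_step (b := 0) _ (by omega) (by decide +kernel) (by simp) h1
  have h8 := dd_step (b := 8) _ (by omega) (by decide +kernel) (by simp) h3
  have h9 := dd_step (b := 9) _ (by omega) (by decide +kernel) (by simp) h8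
  interval_cases s <;> assumption

theorem rank_three (y : Pt) : y = x0 ∨ (∃ u : GG, u • x0 = x0 ∧ u • y = xs 6 (by omega)) ∨
    ∃ u : GG, u • x0 = x0 ∧ u • y = xs 7 (by omega) := by
  have h1 := congrArg (fun v => Nat.testBit v y) (Nat.eq_of_beq_eq_true u_ok)
  simp only [testBit_lor', testBit_om, y.2, decide_true, Bool.or_eq_true,
    Nat.testBit_one_eq_true_iff_self_eq_zero] at h1
  have key : ∀ (z : Pt) (w : List ℕ), (∀ s ∈ w, s < 11 ∧ adj s 10 = false) →
      (clo w (Nat.shiftLeft 1 z)).testBit y = true → ∃ u : GG, u • x0 = x0 ∧ u • y = z := fun z w hw h =>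
    clo_single (Y := fun y => ∃ u : GG, u • x0 = x0 ∧ u • y = z) (by
      rintro s hs x ⟨u, h1, h2⟩
      exact ⟨u * t s, by rw [mul_smul, t_x0 (hw s hs).1 (hw s hs).2, h1], by rw [mul_smul, t_t, h2]⟩)
      ⟨1, one_smul _ _, one_smul _ _⟩ y h
  rcases h1 with (h | h) | h
  · exact Or.inr (Or.inl (key _ uG (by decide +kernel) h))
  · exact Or.inr (Or.inr (key _ uJ (by decide +kernel) h))
  · exact Or.inl (Fin.ext h)

theorem eq_of_braid {Q : Type*} [Group Q] {a b : Q} (ha : a * a = 1) (hb : b * b = 1) (h1 : a * b = b * a)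
    (h2 : a * b * a = b * a * b) : a = b := by
  rw [h1, mul_assoc, ha, mul_one, ← h1, mul_assoc, hb, mul_one] at h2
  exact h2.symm

theorem eq_top_of_normal (M : Subgroup GG) [M.Normal] (hM : M ≠ ⊥) : M = ⊤ := by
  let q := QuotientGroup.mk' M
  have hq : ∀ s, q (t s) * q (t s) = 1 := fun s => by rw [← map_mul, t_mul_t, map_one]
  have step : ∀ a b c, a < 11 → b < 11 → c < 11 → adj b c = true → adj a c = false → q (t a) = q (t b) →
      q (t c) = q (t b) := fun a b c ha hb hc h1 h2 e => by
    refine (eq_of_braid (hq b) (hq c) ?_ ?_).symm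
    · rw [← e, ← map_mul, t_comm ha hc h2, map_mul]
    · simp only [← map_mul, t_braid hb hc h1]
  obtain ⟨m, hm, hm1⟩ : ∃ m ∈ M, m ≠ 1 := by
    by_contra h
    push Not at h
    exact hM ((Subgroup.eq_bot_iff_forall M).mpr h)
  obtain ⟨x, hx⟩ : ∃ x : Pt, m • x ≠ x := by
    by_contra h
    push Not at h
    exact hm1 (GG_ext fun x => by rw [h, one_smul])
  obtain ⟨g, rfl⟩ := exists_smul_x0 x
  have hm' : g⁻¹ * m * g ∈ M := by simpa using ‹M.Normal›.conj_mem _ hm g⁻¹
  have hy : (g⁻¹ * m * g) • x0 ≠ x0 := fun e => hx (by rwa [mul_smul, mul_smul, inv_smul_eq_iff] at e)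
  generalize g⁻¹ * m * g = m' at hm' hy
  have h1 : q m' = 1 := (QuotientGroup.eq_one_iff _).mpr hm'
  have key : ∀ (u : GG) (s : ℕ) (hs : s < 11), u • x0 = x0 → u • m' • x0 = xs s hs → q (t s) = q (t 10) :=
    fun u s hs e1 e2 => by
      have e3 := dd_smul u x0
      rw [e1, dd_x0] at e3
      rw [← dd_xs s hs, ← e2, dd_smul, dd_smul, dd_x0]
      conv_rhs => rw [e3]
      simp only [map_mul, map_inv, h1, one_mul, inv_one, mul_one]
  have h7 : q (t 7) = q (t 10) := by
    rcases rank_three (m' • x0) with h | ⟨u, e1, e2⟩ | ⟨u, e1, e2⟩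
    · exact absurd h hy
    · have e := key u 6 _ e1 e2
      have e5 := step 10 6 5 (by omega) (by omega) (by omega) (by decide +kernel) (by decide +kernel) e.symm
      rw [← e]
      exact step 5 6 7 (by omega) (by omega) (by omega) (by decide +kernel) (by decide +kernel) e5
    · exact key u 7 _ e1 e2
  have h6 := step 10 7 6 (by omega) (by omega) (by omega) (by decide +kernel) (by decide +kernel) h7.symm
  have h5 := step 7 6 5 (by omega) (by omega) (by omega) (by decide +kernel) (by decide +kernel) h6.symm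
  have h4 := step 6 5 4 (by omega) (by omega) (by omega) (by decide +kernel) (by decide +kernel) h5.symm
  have h3 := step 5 4 3 (by omega) (by omega) (by omega) (by decide +kernel) (by decide +kernel) h4.symm
  have h2 := step 4 3 2 (by omega) (by omega) (by omega) (by decide +kernel) (by decide +kernel) h3.symm
  have h8 := step 4 3 8 (by omega) (by omega) (by omega) (by decide +kernel) (by decide +kernel) h3.symm
  have h1' := step 3 2 1 (by omega) (by omega) (by omega) (by decide +kernel) (by decide +kernel) h2.symm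
  have h0 := step 2 1 0 (by omega) (by omega) (by omega) (by decide +kernel) (by decide +kernel) h1'.symm
  have h9 := step 3 8 9 (by omega) (by omega) (by omega) (by decide +kernel) (by decide +kernel) h8.symm
  have hall : ∀ s < 11, q (t s) = q (t 10) := fun s hs => by
    interval_cases s <;> simp only [h0, h1', h2, h3, h4, h5, h6, h7, h8, h9]
  have hw : ∀ w : List ℕ, (∀ s ∈ w, s < 11) → q (pe w) = q (t 10) ^ w.length := fun w hw => by
    induction w with
    | nil => simp [pe]
    | cons s w ih =>
      rw [pe, map_mul, ih fun a ha => hw a (List.mem_cons_of_mem _ ha), hall s (hw s List.mem_cons_self),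
        List.length_cons, pow_succ]
  have h10 : q (t 10) = 1 := by
    have e := hw lr2 (by decide)
    rw [pe_lr2, map_one, show lr2.length = 2 * 31 + 1 from rfl, pow_succ, pow_mul, pow_two, hq, one_pow,
      one_mul] at e
    exact e.symm
  refine eq_top_iff.mpr fun g _ => (QuotientGroup.eq_one_iff g).mp ?_
  change q g = 1
  induction g using GG_induction with
  | h1 => exact map_one q
  | h s hs g ih => rw [map_mul, ih trivial, hall s hs, h10, mul_one]

theorem not_comm : t 7 * t 10 ≠ t 10 * t 7 := fun h => by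
  have e := eq_of_braid (t_mul_t 7) (t_mul_t 10) h (t_braid (by omega) (by omega) (by decide +kernel))
  have h1 := pts_ok
  simp only [Bool.and_eq_true, Nat.beq_eq] at h1
  have h2 : valW [7] x0 = 2 := h1.2
  rw [valW_val, show pe [7] = t 7 by simp [pe], e, t_x0 (by omega) (by decide +kernel)] at h2
  exact absurd h2 (by decide)

theorem isSimpleGroup_GG : IsSimpleGroup GG :=
  haveI : Nontrivial GG := ⟨_, _, not_comm⟩
  ⟨fun M _ => (em (M = ⊥)).imp_right (eq_top_of_normal M)⟩

theorem center_GG : Subgroup.center GG = ⊥ := by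
  by_contra h
  have := eq_top_of_normal _ h
  exact not_comm (Subgroup.mem_center_iff.mp (this ▸ Subgroup.mem_top (t 10)) (t 7))

theorem eq_of_base {g h : GG} (e : ∀ s (hs : s < 11), g • xs s hs = h • xs s hs) : g = h := by
  have h1 : h⁻¹ * g ∈ Subgroup.center GG := Subgroup.mem_center_iff.mpr fun a => by
    induction a using GG_induction with
    | h1 => simp
    | h s hs a ih =>
      have e1 := dd_smul (h⁻¹ * g) (xs s hs)
      rw [mul_smul, e, inv_smul_smul, dd_xs, eq_mul_inv_iff_mul_eq] at e1
      rw [mul_assoc, ih, ← mul_assoc, e1, mul_assoc]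
  rw [center_GG, Subgroup.mem_bot, inv_mul_eq_one] at h1
  exact h1.symm

end Cfsg.Agent.H9.Fi
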