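import Cfsg.Agent.H9.W3A

/-!
Permutation groups on a product `M × R` containing the alternating group of the first factor.
-/

set_option autoImplicit false
set_option linter.unusedSectionVars false

namespace Cfsg.Agent.H9.PW

open Equiv Equiv.Perm

theorem inv_app {α : Type*} (f : Perm α) (x : α) : f⁻¹ (f x) = x := f.symm_apply_apply x

variable {M R : Type*} [Fintype M] [DecidableEq M]

theorem ex4 (h5 : 5 ≤ Fintype.card M) (a b c d : M) : ∃ e, e ≠ a ∧ e ≠ b ∧ e ≠ c ∧ e ≠ d := by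
  obtain ⟨e, -, he⟩ := Finset.exists_mem_notMem_of_card_lt_card (s := {a, b, c, d})
    (t := Finset.univ) (lt_of_le_of_lt Finset.card_le_four (by rw [Finset.card_univ]; omega))
  exact ⟨e, by simpa [not_or] using he⟩

theorem ex5 (h6 : 6 ≤ Fintype.card M) (a b c d e : M) :
    ∃ f, f ≠ a ∧ f ≠ b ∧ f ≠ c ∧ f ≠ d ∧ f ≠ e := by
  obtain ⟨f, -, hf⟩ := Finset.exists_mem_notMem_of_card_lt_card (s := {a, b, c, d, e})
    (t := Finset.univ) (lt_of_le_of_lt Finset.card_le_five (by rw [Finset.card_univ]; omega))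
  exact ⟨f, by simpa [not_or] using hf⟩

/-- `σ` is the three-cycle `(a b c)`. -/
structure C3 (σ : Perm M) (a b c : M) : Prop where
  ab : a ≠ b
  ac : a ≠ c
  bc : b ≠ c
  ha : σ a = b
  hb : σ b = c
  hc : σ c = a
  fix : ∀ p, p ≠ a → p ≠ b → p ≠ c → σ p = p

/-- The three-cycle `(a b c)`. -/
def c3 (a b c : M) : Perm M := swap a c * swap a b

theorem c3_spec {a b c : M} (ab : a ≠ b) (ac : a ≠ c) (bc : b ≠ c) : C3 (c3 a b c) a b c :=
  ⟨ab, ac, bc, by simp [c3, swap_apply_of_ne_of_ne ab.symm bc], by simp [c3],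
    by simp [c3, swap_apply_of_ne_of_ne ac.symm bc.symm],
    fun p h1 h2 h3 => by simp [c3, swap_apply_of_ne_of_ne h1 h2, swap_apply_of_ne_of_ne h1 h3]⟩

theorem C3.rot {σ : Perm M} {a b c : M} (h : C3 σ a b c) : C3 σ b c a :=
  ⟨h.bc, h.ab.symm, h.ac.symm, h.hb, h.hc, h.ha, fun p h1 h2 h3 => h.fix p h3 h1 h2⟩

theorem C3.eq {σ : Perm M} {a b c : M} (h : C3 σ a b c) : σ = c3 a b c := by
  have h' := c3_spec h.ab h.ac h.bc
  ext p
  by_cases h1 : p = a
  · rw [h1, h.ha, h'.ha]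
  by_cases h2 : p = b
  · rw [h2, h.hb, h'.hb]
  by_cases h3 : p = c
  · rw [h3, h.hc, h'.hc]
  rw [h.fix p h1 h2 h3, h'.fix p h1 h2 h3]

theorem C3.three {σ : Perm M} {a b c : M} (h : C3 σ a b c) : σ.IsThreeCycle :=
  h.eq ▸ isThreeCycle_swap_mul_swap_same h.ac h.ab h.bc.symm

theorem C3.sign {σ : Perm M} {a b c : M} (h : C3 σ a b c) : sign σ = 1 := h.three.sign

theorem C3.moved {σ : Perm M} {a b c : M} (h : C3 σ a b c) (p : M) :
    σ p ≠ p ↔ p = a ∨ p = b ∨ p = c := by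
  constructor
  · intro h1
    by_contra! h2
    exact h1 (h.fix p h2.1 h2.2.1 h2.2.2)
  · rintro (rfl | rfl | rfl)
    · rw [h.ha]; exact h.ab.symm
    · rw [h.hb]; exact h.bc.symm
    · rw [h.hc]; exact h.ac

theorem exists_C3 {σ : Perm M} (h : σ.IsThreeCycle) : ∃ a b c, C3 σ a b c := by
  obtain ⟨a, ha⟩ : σ.support.Nonempty := Finset.card_pos.1 (by rw [h.card_support]; omega)
  have h1 : σ a ≠ a := mem_support.1 ha
  have h3 : σ (σ (σ a)) = a := by
    have := congrArg (fun g : Perm M => g a) (h.orderOf ▸ pow_orderOf_eq_one σ)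
    simpa [pow_succ] using this
  have h2 : σ (σ a) ≠ a := fun e => h1 (by rw [e] at h3; exact h3)
  have h4 : σ (σ a) ≠ σ a := fun e => h1 (σ.injective e)
  have h5 : ({a, σ a, σ (σ a)} : Finset M) = σ.support := Finset.eq_of_subset_of_card_le
    (by
      intro x hx
      simp only [Finset.mem_insert, Finset.mem_singleton] at hx
      rcases hx with rfl | rfl | rfl <;> simp [h1, h4])
    (by rw [h.card_support, Finset.card_eq_three.2 ⟨_, _, _, h1.symm, h2.symm, h4.symm, rfl⟩])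
  refine ⟨a, σ a, σ (σ a), h1.symm, h2.symm, h4.symm, rfl, rfl, h3, fun p k1 k2 k3 => ?_⟩
  rw [← notMem_support, ← h5]
  simp [k1, k2, k3]

variable (h5 : 5 ≤ Fintype.card M)
include h5

theorem exists_fix_move {a b : M} (hab : a ≠ b) : ∃ u c d, C3 u b c d ∧ u a = a := by
  obtain ⟨c, h1, h2, -⟩ := ex4 h5 a b b b
  obtain ⟨d, h3, h4, h6, -⟩ := ex4 h5 a b c c
  have h := c3_spec h2.symm h4.symm h6.symm
  exact ⟨_, c, d, h, h.fix a hab h1.symm h3.symm⟩

theorem exists_not_comm {σ : Perm M} (h : σ ≠ 1) : ∃ u a b c, C3 u a b c ∧ σ * u ≠ u * σ := by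
  obtain ⟨a, ha⟩ : ∃ a, σ a ≠ a := by
    by_contra! h1
    exact h (Equiv.ext h1)
  obtain ⟨u, c, d, h1, h2⟩ := exists_fix_move h5 ha.symm
  refine ⟨u, _, c, d, h1, fun e => h1.ab ?_⟩
  simpa [h2, h1.ha] using Equiv.congr_fun e a

theorem exists_two {a b c d : M} (hab : a ≠ b) (hcd : c ≠ d) :
    ∃ u : Perm M, sign u = 1 ∧ u a = c ∧ u b = d := by
  have h1 := alternatingGroup.isMultiplyPretransitive M
  have h2 : MulAction.IsMultiplyPretransitive (alternatingGroup M) M 2 :=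
    MulAction.isMultiplyPretransitive_of_le (n := Nat.card M - 2)
      (by rw [Nat.card_eq_fintype_card]; omega) (Nat.sub_le _ _)
  obtain ⟨g, h3, h4⟩ := MulAction.is_two_pretransitive_iff.1 h2 hab hcd
  exact ⟨g, g.2, h3, h4⟩

theorem exists_one (a c : M) : ∃ u : Perm M, sign u = 1 ∧ u a = c := by
  obtain ⟨b, hb, -⟩ := ex4 h5 a a a a
  obtain ⟨d, hd, -⟩ := ex4 h5 c c c c
  obtain ⟨u, h1, h2, -⟩ := exists_two h5 hb.symm hd.symm
  exact ⟨u, h1, h2⟩

theorem mem_of_normal {N : Subgroup (Perm M)}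
    (hN : ∀ g : Perm M, sign g = 1 → ∀ x ∈ N, g * x * g⁻¹ ∈ N) {x : Perm M} (hx : x ∈ N)
    (h0 : x ≠ 1) {σ : Perm M} (hσ : sign σ = 1) : σ ∈ N := by
  obtain ⟨u, a, b, c, h1, h2⟩ := exists_not_comm h5 h0
  have : (N.subgroupOf (alternatingGroup M)).Normal := ⟨fun y hy g => hN g g.2 y hy⟩
  rcases alternatingGroup.normal_subgroup_eq_bot_or_eq_top (α := M)
    (by rwa [Nat.card_eq_fintype_card]) (N := N.subgroupOf (alternatingGroup M)) with h | h
  · have h3 : (⟨x * (u * x⁻¹ * u⁻¹), by simp [h1.sign]⟩ : alternatingGroup M) ∈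
        N.subgroupOf (alternatingGroup M) := N.mul_mem hx (hN u h1.sign _ (N.inv_mem hx))
    rw [h, Subgroup.mem_bot, Subtype.ext_iff] at h3
    refine absurd ?_ h2
    calc x * u = x * (u * x⁻¹ * u⁻¹) * (u * x) := by group
      _ = _ := by rw [show x * (u * x⁻¹ * u⁻¹) = 1 from h3, one_mul]
  · exact (h ▸ Subgroup.mem_top _ : (⟨σ, hσ⟩ : alternatingGroup M) ∈
      N.subgroupOf (alternatingGroup M))

omit h5

/-- Permutations preserving the fibres. -/
def fib : (R → Perm M) →* Perm (M × R) where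
  toFun f := Equiv.prodCongrLeft f
  map_one' := Equiv.ext fun _ => rfl
  map_mul' _ _ := Equiv.ext fun _ => rfl

@[simp] theorem fib_apply (f : R → Perm M) (p : M) (r : R) : fib f (p, r) = (f r p, r) := rfl

/-- Permutations preserving the hyperplanes. -/
def hyp : (M → Perm R) →* Perm (M × R) where
  toFun f := Equiv.prodCongrRight f
  map_one' := Equiv.ext fun _ => rfl
  map_mul' _ _ := Equiv.ext fun _ => rfl

@[simp] theorem hyp_apply (f : M → Perm R) (p : M) (r : R) : hyp f (p, r) = (p, f p r) := rfl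

/-- Product permutations. -/
def pc : Perm M × Perm R →* Perm (M × R) where
  toFun x := Equiv.prodCongr x.1 x.2
  map_one' := Equiv.ext fun _ => rfl
  map_mul' _ _ := Equiv.ext fun _ => rfl

@[simp] theorem pc_apply (σ : Perm M) (π : Perm R) (p : M) (r : R) :
    pc (σ, π) (p, r) = (σ p, π r) := rfl

/-- Permutations of the first factor. -/
def kl : Perm M →* Perm (M × R) where
  toFun σ := Equiv.prodCongr σ 1
  map_one' := Equiv.ext fun _ => rfl
  map_mul' _ _ := Equiv.ext fun _ => rfl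

@[simp] theorem kl_apply (σ : Perm M) (p : M) (r : R) : kl σ (p, r) = (σ p, r) := rfl

@[simp] theorem kl_symm_apply (σ : Perm M) (p : M) (r : R) :
    (kl σ).symm (p, r) = (σ.symm p, r) := rfl

@[simp] theorem pc_symm_apply (σ : Perm M) (π : Perm R) (p : M) (r : R) :
    (pc (σ, π)).symm (p, r) = (σ.symm p, π.symm r) := rfl

theorem kl_eq_fib (σ : Perm M) : (kl σ : Perm (M × R)) = fib fun _ => σ := rfl

theorem exists_fib {x : Perm (M × R)} (h : ∀ q, (x q).2 = q.2) : ∃ f, x = fib f :=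
  ⟨fun r => Equiv.ofBijective (fun p => (x (p, r)).1) (Finite.injective_iff_bijective.1
      fun p p' e => congrArg Prod.fst (x.injective (Prod.ext e (by rw [h, h])) : (p, r) = (p', r))),
    Equiv.ext fun q => Prod.ext rfl (h q)⟩

/-- The permutations induced on the second factor. -/
def GR (X : Subgroup (Perm (M × R))) : Subgroup (Perm R) :=
  (X.comap pc).map (MonoidHom.snd _ _)

theorem mem_GR {X : Subgroup (Perm (M × R))} {π : Perm R} : π ∈ GR X ↔ ∃ σ, pc (σ, π) ∈ X :=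
  ⟨by rintro ⟨⟨σ, π⟩, h, rfl⟩; exact ⟨σ, h⟩, fun ⟨σ, h⟩ => ⟨(σ, π), h, rfl⟩⟩

variable [Fintype R] [DecidableEq R]

/-- The basic hypotheses. -/
structure Sl0 (X : Subgroup (Perm (M × R))) : Prop where
  h5 : 5 ≤ Fintype.card M
  hL : ∀ σ : Perm M, sign σ = 1 → kl σ ∈ X
  prim : ∀ s : Setoid R, (∀ π ∈ GR X, ∀ r r', s r r' → s (π r) (π r')) →
    (∀ r r', s r r' → r = r') ∨ ∀ r r', s r r'
  no3 : ∀ (r : R) (σ : Perm M), σ.IsThreeCycle → fib (Pi.mulSingle r σ) ∉ X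

variable {X : Subgroup (Perm (M × R))}

theorem Sl0.fib_const (h : Sl0 X) {f : R → Perm M} (hf : fib f ∈ X) (r r' : R) : f r = f r' := by
  let s : Setoid R := ⟨fun r r' => ∀ f : R → Perm M, fib f ∈ X → f r = f r',
    fun _ _ _ => rfl, fun h f hf => (h f hf).symm, fun h h' f hf => (h f hf).trans (h' f hf)⟩
  rcases h.prim s (fun π hπ r r' hr f hf => by
    obtain ⟨σ, hσ⟩ := mem_GR.1 hπ
    have := hr (fun ρ => σ⁻¹ * f (π ρ) * σ) (by
      convert X.mul_mem (X.mul_mem (X.inv_mem hσ) hf) hσ using 1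
      exact Equiv.ext fun ⟨p, ρ⟩ => by simp)
    simpa using this) with h1 | h1
  · exfalso
    let N : Finset R → Subgroup (Perm M) := fun T =>
      ((X.comap fib) ⊓ ⨅ ρ ∈ T, (Pi.evalMonoidHom (fun _ => Perm M) ρ).ker).map
        (Pi.evalMonoidHom (fun _ => Perm M) r)
    have hN : ∀ T σ, σ ∈ N T ↔ ∃ f : R → Perm M, fib f ∈ X ∧ (∀ ρ ∈ T, f ρ = 1) ∧ f r = σ :=
      fun T σ => by simp [N, and_assoc]
    have hn : ∀ T, ∀ g : Perm M, sign g = 1 → ∀ x ∈ N T, g * x * g⁻¹ ∈ N T := fun T g hg x hx => by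
      obtain ⟨f, k1, k2, rfl⟩ := (hN T x).1 hx
      refine (hN T _).2 ⟨(fun _ => g) * f * (fun _ => g)⁻¹, ?_, fun ρ hρ => by simp [k2 ρ hρ], rfl⟩
      rw [map_mul, map_mul, map_inv]
      exact X.mul_mem (X.mul_mem (h.hL g hg) k1) (X.inv_mem (h.hL g hg))
    have h2 : ∀ ρ, ρ ≠ r → ∀ σ, sign σ = 1 → σ ∈ N {ρ} := fun ρ hρ σ hσ => by
      obtain ⟨f, k1, k2⟩ : ∃ f : R → Perm M, fib f ∈ X ∧ f ρ ≠ f r := by
        by_contra! k
        exact hρ (h1 ρ r k)
      obtain ⟨u, a, b, c, k3, k4⟩ := exists_not_comm h.h5 (σ := (f ρ)⁻¹ * f r)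
        fun e => k2 (inv_mul_eq_one.1 e)
      refine mem_of_normal h.h5 (hn _) (x := f r * u * (f r)⁻¹ * (f ρ * u * (f ρ)⁻¹)⁻¹)
        ((hN _ _).2 ⟨f * (fun _ => u) * f⁻¹ * (fun _ => f ρ * u * (f ρ)⁻¹)⁻¹, ?_, by simp, rfl⟩)
        (fun e => k4 ?_) hσ
      · rw [map_mul, map_mul, map_mul, map_inv, map_inv]
        exact X.mul_mem (X.mul_mem (X.mul_mem k1 (h.hL u k3.sign)) (X.inv_mem k1))
          (X.inv_mem (h.hL _ (by simp [k3.sign])))
      · rw [mul_inv_eq_one] at e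
        calc (f ρ)⁻¹ * f r * u = (f ρ)⁻¹ * (f r * u * (f r)⁻¹) * f r := by group
          _ = _ := by rw [e]; group
    obtain ⟨a⟩ : Nonempty M := Fintype.card_pos_iff.1 (by have := h.h5; omega)
    obtain ⟨b, hb, -⟩ := ex4 h.h5 a a a a
    obtain ⟨u, c, d, k1, -⟩ := exists_fix_move h.h5 hb
    obtain ⟨v, a', b', c', k2, k3⟩ := exists_not_comm h.h5 k1.three.ne_one
    have h3 : ∀ T : Finset R, r ∉ T → ∀ σ, sign σ = 1 → σ ∈ N T := fun T => by
      induction T using Finset.induction_on with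
      | empty => exact fun _ σ hσ => (hN _ _).2 ⟨fun _ => σ, h.hL σ hσ, by simp, rfl⟩
      | insert ρ T _ ih =>
        intro hr σ hσ
        simp only [Finset.mem_insert, not_or] at hr
        obtain ⟨f, k4, k5, k6⟩ := (hN _ _).1 (ih hr.2 u k1.sign)
        obtain ⟨f', k7, k8, k9⟩ := (hN _ _).1 (h2 ρ (Ne.symm hr.1) v k2.sign)
        refine mem_of_normal h.h5 (hn _) (x := u * v * u⁻¹ * v⁻¹)
          ((hN _ _).2 ⟨f * f' * f⁻¹ * f'⁻¹, ?_, fun ρ' hρ' => ?_, by simp [k6, k9]⟩)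
          (fun e => k3 (by rwa [mul_inv_eq_one, mul_inv_eq_iff_eq_mul] at e)) hσ
        · rw [map_mul, map_mul, map_mul, map_inv, map_inv]
          exact X.mul_mem (X.mul_mem (X.mul_mem k4 k7) (X.inv_mem k4)) (X.inv_mem k7)
        · rcases Finset.mem_insert.1 hρ' with rfl | hρ'
          · simp [k8 ρ' (by simp)]
          · simp [k5 ρ' hρ']
    obtain ⟨f, k4, k5, k6⟩ := (hN _ _).1 (h3 (Finset.univ.erase r) (by simp) u k1.sign)
    refine h.no3 r u k1.three (show fib (Pi.mulSingle r u) ∈ X from ?_)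
    convert k4 using 2
    ext1 ρ
    by_cases e : ρ = r
    · subst e; simp [k6]
    · simp [e, k5 ρ (by simpa using e)]
  · exact h1 r r' f hf

theorem Sl0.eq_kl (h : Sl0 X) {x : Perm (M × R)} (hx : x ∈ X) (h1 : ∀ q, (x q).2 = q.2) :
    ∃ σ, x = kl σ := by
  obtain ⟨f, rfl⟩ := exists_fib h1
  rcases isEmpty_or_nonempty R with hR | ⟨⟨r⟩⟩
  · exact ⟨1, Equiv.ext fun q => hR.elim q.2⟩
  · exact ⟨f r, congrArg fib (funext fun ρ => h.fib_const hx ρ r)⟩

/-- The full hypotheses. -/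
structure Sl (X : Subgroup (Perm (M × R))) : Prop extends Sl0 X where
  hN : ∀ P : Subgroup (Perm R), P ≠ ⊥ → (∀ π ∈ GR X, ∀ α ∈ P, π * α * π⁻¹ ∈ P) →
    ∃ u ∈ P, ∃ u' ∈ P, ∀ g : M, hyp (Pi.mulSingle g (u * u' * u⁻¹ * u'⁻¹)) ∉ X
  five : Fintype.card M = 5 → 5 ∣ Fintype.card R

theorem Sl.eq_one (h : Sl X) {f : M → Perm R} (hf : hyp f ∈ X) {g a : M} (hga : g ≠ a)
    (h1 : ∀ p, p ≠ g → p ≠ a → f p = 1) : f g = 1 := by
  let Q : M → M → Subgroup (Perm R) := fun g a =>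
    ((X.comap hyp) ⊓ ⨅ p ∈ {p | p ≠ g ∧ p ≠ a}, (Pi.evalMonoidHom (fun _ => Perm R) p).ker).map
      (Pi.evalMonoidHom (fun _ => Perm R) g)
  have hQ : ∀ g a α, α ∈ Q g a ↔
      ∃ f : M → Perm R, hyp f ∈ X ∧ (∀ p, p ≠ g → p ≠ a → f p = 1) ∧ f g = α :=
    fun g a α => by simp [Q, and_assoc]
  have hc : ∀ σ π, pc (σ, π) ∈ X → ∀ g a, ∀ α ∈ Q (σ⁻¹ g) (σ⁻¹ a), π * α * π⁻¹ ∈ Q g a := by
    intro σ π hx g a α hα
    obtain ⟨f, k1, k2, rfl⟩ := (hQ _ _ _).1 hα
    refine (hQ _ _ _).2 ⟨fun p => π * f (σ⁻¹ p) * π⁻¹, ?_, fun p k3 k4 => by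
      simp [k2 (σ⁻¹ p) (by simpa using k3) (by simpa using k4), -coe_inv], rfl⟩
    convert X.mul_mem (X.mul_mem hx k1) (X.inv_mem hx) using 1
    exact Equiv.ext fun ⟨p, ρ⟩ => by simp
  by_contra h0
  obtain ⟨u, hu, u', hu', h2⟩ := h.hN (⨅ g, ⨅ a, ⨅ _ : g ≠ a, Q g a) (fun e => h0 (by
      rw [← Subgroup.mem_bot, ← e]
      simp only [Subgroup.mem_iInf]
      intro g' a' h'
      obtain ⟨σ, k1, k2, k3⟩ := exists_two h.h5 hga h'
      simpa using hc σ 1 (h.hL σ k1) g' a' (f g) (by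
        rw [← k2, ← k3, inv_app, inv_app]
        exact (hQ _ _ _).2 ⟨f, hf, h1, rfl⟩)))
    fun π hπ α hα => by
      obtain ⟨σ, hσ⟩ := mem_GR.1 hπ
      simp only [Subgroup.mem_iInf] at hα ⊢
      exact fun g a h' => hc σ π hσ g a α (hα _ _ (by simpa using h'))
  simp only [Subgroup.mem_iInf] at hu hu'
  obtain ⟨b, k1, k2, -⟩ := ex4 h.h5 g a a a
  obtain ⟨f₁, k3, k4, k5⟩ := (hQ _ _ _).1 (hu g a hga)
  obtain ⟨f₂, k6, k7, k8⟩ := (hQ _ _ _).1 (hu' g b k1.symm)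
  refine h2 g ?_
  convert X.mul_mem (X.mul_mem (X.mul_mem k3 k6) (X.inv_mem k3)) (X.inv_mem k6) using 1
  rw [← map_inv, ← map_inv, ← map_mul, ← map_mul, ← map_mul]
  congr 1
  ext1 p
  by_cases e : p = g
  · subst e; simp [k5, k8]
  by_cases e' : p = a
  · simp [e, k7 p e (e' ▸ k2.symm)]
  · simp [e, k4 p e e']

/-- The core lemma: twisted three-cycles through two hyperplanes are untwisted. -/
theorem Sl.core (h : Sl X) {y : Perm (M × R)} (hy : y ∈ X) {a b c : M} (ab : a ≠ b) (ac : a ≠ c)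
    (bc : b ≠ c) {φ : R → M × R} (h1 : ∀ r, y (a, r) = (b, r)) (h2 : ∀ r, y (b, r) = φ r)
    (h3 : ∀ r, y (φ r) = (a, r)) (h4 : ∀ q, q.1 ≠ a → q.1 ≠ b → (∀ r, φ r ≠ q) → y q = q)
    (ha : ∀ r, (φ r).1 ≠ a) (hb : ∀ r, (φ r).1 ≠ b) (hc : ∀ r, (φ r).1 ≠ c) (r₀ : R) :
    ∀ r, φ r = ((φ r₀).1, r) := by
  obtain ⟨g, hg⟩ : ∃ g, g = (φ r₀).1 := ⟨_, rfl⟩
  have ga : g ≠ a := hg ▸ ha r₀
  have gb : g ≠ b := hg ▸ hb r₀
  have gc : g ≠ c := hg ▸ hc r₀
  rw [← hg]
  have hyc : ∀ r, y (c, r) = (c, r) := fun r => h4 _ ac.symm bc.symm fun ρ e => hc ρ (by rw [e])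
  have hD : ∀ r, ∃ ρ, φ ρ = (g, r) := by
    obtain ⟨l, la, lb, lc, lg⟩ := ex4 h.h5 a b c g
    let w := swap a b * swap c g
    have wa : w a = b := by simp [w, swap_apply_of_ne_of_ne ac ga.symm]
    have wb : w b = a := by simp [w, swap_apply_of_ne_of_ne bc gb.symm]
    have wc : w c = g := by simp [w, swap_apply_of_ne_of_ne ga gb]
    have wg : w g = c := by simp [w, swap_apply_of_ne_of_ne ac.symm bc.symm]
    have wl : w l = l := by simp [w, swap_apply_of_ne_of_ne la lb, swap_apply_of_ne_of_ne lc lg]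
    have hw : kl w ∈ X := h.hL w (by simp [w, ab, gc.symm])
    let z := y * kl w * y * kl w
    have hz : z ∈ X := X.mul_mem (X.mul_mem (X.mul_mem hy hw) hy) hw
    have zb : ∀ r, z (b, r) = (b, r) := fun r => by simp [z, wa, wb, h1]
    have zl : ∀ r, z (l, r) = (l, r) := fun r => by
      by_cases e : ∃ ρ, φ ρ = (l, r)
      · obtain ⟨ρ, e⟩ := e
        simp only [z, mul_apply, kl_apply, wl]
        rw [← e, h3, kl_apply, wa, h2]
      · simp [z, wl, h4 (l, r) la lb (not_exists.1 e)]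
    have zc : ∀ r, (∃ ρ, φ ρ = (g, r)) → z (c, r) = (g, r) := by
      rintro r ⟨ρ, e⟩
      simp only [z, mul_apply, kl_apply, wc]
      rw [← e, h3, kl_apply, wa, h2]
    have zc' : ∀ r, (¬ ∃ ρ, φ ρ = (g, r)) → z (c, r) = (c, r) := fun r e => by
      simp [z, wc, wg, h4 (g, r) ga gb (not_exists.1 e), hyc]
    have z2 : ∀ r, (z (c, r)).2 = r := fun r => by
      by_cases e : ∃ ρ, φ ρ = (g, r)
      · rw [zc r e]
      · rw [zc' r e]
    have hu := c3_spec bc.symm lc.symm lb.symm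
    obtain ⟨σ, hσ⟩ := h.eq_kl (X.mul_mem (X.mul_mem hz (h.hL _ hu.sign)) (X.inv_mem hz)) fun q => by
      obtain ⟨⟨p, r⟩, rfl⟩ := z.surjective q
      simp only [mul_apply, inv_app, kl_apply]
      by_cases e1 : p = c
      · rw [e1, hu.ha, zb, z2]
      by_cases e2 : p = b
      · rw [e2, hu.hb, zb, zl]
      by_cases e3 : p = l
      · rw [e3, hu.hc, z2, zl]
      · rw [hu.fix p e1 e2 e3]
    have k : ∀ r, z (c, r) = (σ l, r) := fun r => by
      have := Equiv.congr_fun hσ (z (l, r))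
      simp only [mul_apply, inv_app, kl_apply, hu.hc] at this
      rw [this, zl, kl_apply]
    intro r
    by_contra e
    have k1 := (k r).symm.trans (zc' r e)
    have k2 := (k (φ r₀).2).symm.trans (zc _ ⟨r₀, by rw [hg]⟩)
    exact gc ((Prod.ext_iff.1 k2).1.symm.trans (Prod.ext_iff.1 k1).1)
  choose β hβ using hD
  have hβ' : Function.Bijective β := Finite.injective_iff_bijective.1 fun r r' e =>
    (Prod.ext_iff.1 ((hβ r).symm.trans (e ▸ hβ r'))).2
  let β' : Perm R := Equiv.ofBijective β hβ'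
  have hφ : ∀ r, φ r = (g, β'⁻¹ r) := fun r => by
    obtain ⟨ρ, rfl⟩ := β'.surjective r
    rw [inv_app]; exact hβ ρ
  have hu := c3_spec ab ga.symm gb.symm
  have k := h.eq_one (f := fun p => if p = g then β'⁻¹ else if p = a then β' else 1) (g := g)
    (a := a) (by
      convert X.mul_mem hy (X.inv_mem (h.hL _ hu.sign)) using 1
      rw [eq_mul_inv_iff_mul_eq]
      refine Equiv.ext fun ⟨p, r⟩ => ?_
      simp only [mul_apply, kl_apply, hyp_apply]
      by_cases e1 : p = a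
      · simp [e1, hu.ha, h1, gb.symm, ab.symm]
      by_cases e2 : p = b
      · simp [e2, hu.hb, h2, hφ]
      by_cases e3 : p = g
      · rw [e3, hu.hc, ← hβ, h3]
        simp [ga.symm, β']
      · rw [hu.fix p e1 e2 e3, h4 _ e1 e2 fun ρ e => e3 (by rw [hφ] at e; simpa using
          (Prod.ext_iff.1 e).1.symm)]
        simp [e1, e3]) ga fun p k1 k2 => by simp [k1, k2]
  intro r
  rw [hφ, show β'⁻¹ = 1 by simpa using k, one_apply]

theorem Sl.conj_core (h : Sl X) {x : Perm (M × R)} (hx : x ∈ X) {a b c a' b' c' d : M}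
    {κ : Perm R} (ab : a ≠ b) (ac : a ≠ c) (bc : b ≠ c) (h1 : ∀ r, x (a', r) = (a, κ r))
    (h2 : ∀ r, x (b', r) = (b, κ r)) (h3 : ∀ r, x (c', r) = (c, κ r)) (da : d ≠ a') (db : d ≠ b')
    (dc : d ≠ c') (r : R) : (x (d, r)).2 = κ r ∧ ∀ r', (x (d, r')).1 = (x (d, r)).1 := by
  have ab' : a' ≠ b' := fun e => ab (by simpa [e, h2] using (h1 r).symm)
  have hu := c3_spec ab' da.symm db.symm
  have hne : ∀ {p p' : M}, (∀ r, x (p', r) = (p, κ r)) → d ≠ p' → ∀ r, (x (d, r)).1 ≠ p :=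
    fun {p p'} k1 k2 r e => k2 (Prod.ext_iff.1 (x.injective
      (show x (d, r) = x (p', κ⁻¹ (x (d, r)).2) by rw [k1, ← e]; simp))).1
  have key := h.core (X.mul_mem (X.mul_mem hx (h.hL _ hu.sign)) (X.inv_mem hx)) ab ac bc
    (φ := fun r => x (d, κ⁻¹ r))
    (fun r => by
      obtain ⟨r, rfl⟩ := κ.surjective r
      rw [← h1, ← h2]; simp [hu.ha])
    (fun r => by
      obtain ⟨r, rfl⟩ := κ.surjective r
      rw [← h2]; simp [hu.hb])
    (fun r => by
      obtain ⟨r, rfl⟩ := κ.surjective r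
      rw [← h1]; simp [hu.hc])
    (fun q k1 k2 k3 => by
      obtain ⟨⟨p, r⟩, rfl⟩ := x.surjective q
      simp only [mul_apply, inv_app, kl_apply]
      rw [hu.fix p (by rintro rfl; exact k1 (by rw [h1])) (by rintro rfl; exact k2 (by rw [h2]))
        (by rintro rfl; exact k3 (κ r) (by simp))])
    (fun r => hne h1 da _) (fun r => hne h2 db _) (fun r => hne h3 dc _) (κ r)
  simp only [inv_app] at key
  exact ⟨by simpa using congrArg Prod.snd (key (κ r)),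
    fun r' => by simpa using congrArg Prod.fst (key (κ r'))⟩

theorem Sl.eq_kl_of_fix (h : Sl X) {x : Perm (M × R)} (hx : x ∈ X) {a b c : M} (ab : a ≠ b)
    (ac : a ≠ c) (bc : b ≠ c) (h1 : ∀ r, x (a, r) = (a, r)) (h2 : ∀ r, x (b, r) = (b, r))
    (h3 : ∀ r, x (c, r) = (c, r)) : ∃ σ, x = kl σ :=
  h.eq_kl hx fun ⟨d, r⟩ => by
    by_cases e1 : d = a
    · rw [e1, h1]
    by_cases e2 : d = b
    · rw [e2, h2]
    by_cases e3 : d = c
    · rw [e3, h3]
    exact (h.conj_core hx (κ := 1) ab ac bc h1 h2 h3 e1 e2 e3 r).1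

end Cfsg.Agent.H9.PW
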