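import Cfsg.Agent.H9.PW1

/-!
A three-cycle of the first factor determines the product structure.
-/

set_option autoImplicit false
set_option linter.unusedSectionVars false

namespace Cfsg.Agent.H9.PW

open Equiv Equiv.Perm W3

variable {M R : Type*} [Fintype M] [DecidableEq M] [Fintype R] [DecidableEq R]
  {X : Subgroup (Perm (M × R))}

theorem exists_pc {x : Perm (M × R)} (h1 : ∀ p r r', (x (p, r)).1 = (x (p, r')).1)
    (h2 : ∀ p p' r, (x (p, r)).2 = (x (p', r)).2) : ∃ σ π, x = pc (σ, π) := by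
  rcases isEmpty_or_nonempty (M × R) with h | ⟨⟨p₀, r₀⟩⟩
  · exact ⟨1, 1, Equiv.ext fun q => h.elim q⟩
  exact ⟨Equiv.ofBijective (fun p => (x (p, r₀)).1) (Finite.injective_iff_bijective.1
      fun p p' e => congrArg Prod.fst (x.injective (Prod.ext e (h2 _ _ _)) : (p, r₀) = (p', r₀))),
    Equiv.ofBijective (fun r => (x (p₀, r)).2) (Finite.injective_iff_bijective.1
      fun r r' e => congrArg Prod.snd (x.injective (Prod.ext (h1 _ _ _) e) : (p₀, r) = (p₀, r'))),
    Equiv.ext fun ⟨p, r⟩ => Prod.ext (h1 _ _ _) (h2 _ _ _)⟩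

theorem Sl.five_case (h : Sl X) (hM : Fintype.card M = 5) {a b c : M} (ab : a ≠ b) (ac : a ≠ c)
    (bc : b ≠ c) {x : Perm (M × R)} (hx : x ∈ X)
    (h1 : ∀ q, ((x q).1 = a ∨ (x q).1 = b ∨ (x q).1 = c) ↔ (q.1 = a ∨ q.1 = b ∨ q.1 = c))
    (h2 : ∀ q, (q.1 = a ∨ q.1 = b ∨ q.1 = c) → (x q).2 = q.2) (q : M × R) : (x q).2 = q.2 := by
  obtain ⟨d, da, db, dc, -⟩ := ex4 h.h5 a b c c
  obtain ⟨e, ea, eb, ec, ed⟩ := ex4 h.h5 a b c d
  have hA : ∀ p, (p = a ∨ p = b ∨ p = c) ↔ p ≠ d ∧ p ≠ e := fun p => by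
    have : p ∈ ({a, b, c, d, e} : Finset M) := by
      rw [Finset.eq_univ_of_card ({a, b, c, d, e} : Finset M) (by
        rw [hM, Finset.card_insert_of_notMem (by simp [ab, ac, da.symm, ea.symm]),
          Finset.card_insert_of_notMem (by simp [bc, db.symm, eb.symm]),
          Finset.card_insert_of_notMem (by simp [dc.symm, ec.symm]), Finset.card_pair ed.symm])]
      exact Finset.mem_univ p
    simp only [Finset.mem_insert, Finset.mem_singleton] at this
    grind
  simp only [hA] at h1 h2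
  let N : Subgroup (Perm (M × R)) :=
    { carrier := {x | x ∈ X ∧ (∀ q : M × R, ((x q).1 ≠ d ∧ (x q).1 ≠ e) ↔ (q.1 ≠ d ∧ q.1 ≠ e)) ∧
        ∀ q : M × R, (q.1 ≠ d ∧ q.1 ≠ e) → (x q).2 = q.2}
      mul_mem' := fun {x y} hx hy => ⟨X.mul_mem hx.1 hy.1, fun q => (hx.2.1 _).trans (hy.2.1 q),
        fun q hq => (hx.2.2 _ ((hy.2.1 q).2 hq)).trans (hy.2.2 q hq)⟩
      one_mem' := ⟨X.one_mem, fun _ => Iff.rfl, fun _ _ => rfl⟩
      inv_mem' := fun {x} hx => ⟨X.inv_mem hx.1, fun q => by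
        obtain ⟨q, rfl⟩ := x.surjective q
        rw [inv_app, hx.2.1], fun q hq => by
        obtain ⟨q, rfl⟩ := x.surjective q
        rw [inv_app, hx.2.2 q ((hx.2.1 q).1 hq)]⟩ }
  let w := swap a b * swap d e
  have wd : w d = e := by simp [w, swap_apply_of_ne_of_ne ea eb]
  have we : w e = d := by simp [w, swap_apply_of_ne_of_ne da db]
  have hw : kl w ∈ N := ⟨h.hL w (by simp [w, ab, ed.symm]), fun ⟨p, r⟩ => by
    rw [kl_apply, ← we, w.injective.ne_iff, we, ← wd, w.injective.ne_iff, wd, and_comm],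
    fun _ _ => rfl⟩
  let s : Setoid R := ⟨fun r r' => ∃ x ∈ N, x (d, r) = (d, r'), fun r => ⟨1, N.one_mem, rfl⟩,
    fun ⟨x, hx, e⟩ => ⟨x⁻¹, N.inv_mem hx, by rw [← e, inv_app]⟩,
    fun ⟨x, hx, e⟩ ⟨y, hy, e'⟩ => ⟨y * x, N.mul_mem hy hx, by rw [mul_apply, e, e']⟩⟩
  have hde : ∀ x ∈ N, ∀ r, (x (d, r)).1 = d ∨ (x (d, r)).1 = e := fun x hx r => by
    have := hx.2.1 (d, r)
    grind
  rcases h.prim s (fun π hπ r r' ⟨x, hx, e1⟩ => by
    obtain ⟨σ, hσ⟩ := mem_GR.1 hπ
    obtain ⟨ρ, k1, k2, k3⟩ := exists_two h.h5 (σ.injective.ne ed.symm) ed.symm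
    have k4 : pc (ρ * σ, π) ∈ X := X.mul_mem (h.hL ρ k1) hσ
    have k5 : ∀ p, (ρ * σ) p = d ↔ p = d := fun p => by
      rw [← (ρ * σ).injective.eq_iff (a := p), mul_apply _ _ d, k2]
    have k6 : ∀ p, (ρ * σ) p = e ↔ p = e := fun p => by
      rw [← (ρ * σ).injective.eq_iff (a := p), mul_apply _ _ e, k3]
    have k7 : ∀ q : M × R, pc (ρ * σ, π) q = ((ρ * σ) q.1, π q.2) := fun _ => rfl
    refine ⟨pc (ρ * σ, π) * x * (pc (ρ * σ, π))⁻¹,
      ⟨X.mul_mem (X.mul_mem k4 hx.1) (X.inv_mem k4), fun q => ?_, fun q => ?_⟩, ?_⟩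
    · obtain ⟨q, rfl⟩ := (pc (ρ * σ, π)).surjective q
      rw [mul_apply, mul_apply, inv_app, k7, k7]
      simpa only [Ne, k5, k6] using hx.2.1 q
    · obtain ⟨q, rfl⟩ := (pc (ρ * σ, π)).surjective q
      rw [mul_apply, mul_apply, inv_app, k7, k7]
      simpa only [Ne, k5, k6] using fun hq => congrArg π (hx.2.2 q hq)
    · rw [show (d, π r) = pc (ρ * σ, π) (d, r) by rw [k7, (k5 d).2 rfl], mul_apply, mul_apply,
        inv_app, e1, k7, (k5 d).2 rfl]) with h3 | h3
  · have h4 : ∀ x ∈ N, ∀ r, (x (d, r)).2 = r := fun x hx r => by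
      rcases hde x hx r with k | k
      · exact (h3 _ _ ⟨x, hx, Prod.ext k rfl⟩).symm
      · exact (h3 _ _ ⟨kl w * x, N.mul_mem hw hx, Prod.ext (by
          change w (x (d, r)).1 = d
          rw [k, we]) rfl⟩).symm
    obtain ⟨p, r⟩ := q
    by_cases k1 : p = d
    · rw [k1]; exact h4 x ⟨hx, h1, h2⟩ r
    by_cases k2 : p = e
    · simpa [wd, k2] using h4 (x * kl w) (N.mul_mem ⟨hx, h1, h2⟩ hw) r
    · exact h2 _ ⟨k1, k2⟩
  · exfalso
    have h4 : MulAction.orbit N (d, q.2) = ({d, e} : Set M) ×ˢ (Set.univ : Set R) := by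
      ext ⟨p, r⟩
      constructor
      · rintro ⟨⟨x, hx⟩, e1⟩
        have := hde x hx q.2
        rw [show x (d, q.2) = (p, r) from e1] at this
        simpa using this
      · rintro ⟨rfl | rfl, -⟩
        · obtain ⟨x, hx, e1⟩ := h3 q.2 r
          exact ⟨⟨x, hx⟩, e1⟩
        · obtain ⟨x, hx, e1⟩ := h3 q.2 r
          exact ⟨⟨kl w * x, N.mul_mem hw hx⟩, by
            change kl w (x (d, q.2)) = _
            rw [e1, kl_apply, wd]⟩
    have h6 : 5 ∣ Nat.card N := by
      refine dvd_trans ?_ (MulAction.stabilizer N (d, q.2)).index_dvd_card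
      rw [MulAction.index_stabilizer, h4, Set.ncard_prod, Set.ncard_univ, Nat.card_eq_fintype_card]
      exact Dvd.dvd.mul_left (h.five hM) _
    have : Fact (Nat.Prime 5) := ⟨by norm_num⟩
    obtain ⟨⟨y, hy⟩, h7⟩ := exists_prime_orderOf_dvd_card' 5 h6
    rw [← Subgroup.orderOf_coe] at h7
    simp only at h7
    have h8 : ∀ p r, p ≠ d ∧ p ≠ e → y (p, r) = (p, r) := fun p r hp => by
      have k1 : ∀ q : M × R, y q ∈ ({(a, r), (b, r), (c, r)} : Finset (M × R)) ↔
          q ∈ ({(a, r), (b, r), (c, r)} : Finset (M × R)) := fun q => by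
        have k2 := hy.2.1 q
        have k3 := hy.2.2 q
        simp only [← hA] at k2 k3
        simp only [Finset.mem_insert, Finset.mem_singleton, Prod.ext_iff]
        grind
      have k2 : (y.subtypePerm k1) ^ 5 = 1 := by
        rw [subtypePerm_pow, ← h7]
        simp only [pow_orderOf_eq_one]
        rfl
      have k3 : (y.subtypePerm k1) ^ 6 = 1 := by
        have := pow_card_eq_one (x := y.subtypePerm k1)
        rwa [Fintype.card_perm, Fintype.card_coe, Finset.card_eq_three.2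
          ⟨_, _, _, by simpa using ab, by simpa using ac, by simpa using bc, rfl⟩] at this
      rw [pow_succ, k2, one_mul] at k3
      exact congrArg Subtype.val (Equiv.congr_fun k3 ⟨(p, r), by simpa using (hA p).2 hp⟩)
    obtain ⟨σ, rfl⟩ := h.eq_kl_of_fix hy.1 ab ac bc (fun r => h8 a r ⟨da.symm, ea.symm⟩)
      (fun r => h8 b r ⟨db.symm, eb.symm⟩) fun r => h8 c r ⟨dc.symm, ec.symm⟩
    have h9 : ∀ p, p ≠ d ∧ p ≠ e → σ p = p := fun p hp => congrArg Prod.fst (h8 p q.2 hp)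
    have h10 : ∀ p, σ (σ p) = p := fun p => by
      have k1 := σ.injective.eq_iff (a := p) (b := σ p)
      have k2 := σ.injective.eq_iff (a := σ p) (b := σ (σ p))
      have k3 := h9 p
      have k4 := h9 (σ p)
      have k5 := h9 (σ (σ p))
      grind
    have h11 : orderOf (kl σ : Perm (M × R)) ∣ 2 := orderOf_dvd_of_pow_eq_one
      (Equiv.ext fun ⟨p, r⟩ => by simp [sq, h10])
    rw [h7] at h11
    omega

theorem Sl.eq_pc (h : Sl X) {g : Perm (M × R)} (hg : g ∈ X) {t t' : Perm M} {a b c a' b' c' : M}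
    (ht : C3 t a b c) (ht' : C3 t' a' b' c') (e : g * kl t' * g⁻¹ = kl t) :
    ∃ σ π, g = pc (σ, π) := by
  have e1 : ∀ p r, g (t' p, r) = (t (g (p, r)).1, (g (p, r)).2) := fun p r => by
    have := Equiv.congr_fun e (g (p, r))
    simp only [mul_apply, inv_app, kl_apply] at this
    exact this
  have hS : ∀ p r, ((g (p, r)).1 = a ∨ (g (p, r)).1 = b ∨ (g (p, r)).1 = c) ↔
      (p = a' ∨ p = b' ∨ p = c') := fun p r => by
    rw [← ht.moved, ← ht'.moved, not_iff_not]
    constructor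
    · intro k
      exact congrArg Prod.fst (g.injective (a₁ := (t' p, r)) (a₂ := (p, r)) (by rw [e1, k]))
    · intro k
      have := e1 p r
      rw [k] at this
      exact (congrArg Prod.fst this).symm
  have hc : ∀ {a' b' c' : M}, C3 t' a' b' c' → (∀ p r, ((g (p, r)).1 = a ∨ (g (p, r)).1 = b ∨
      (g (p, r)).1 = c) ↔ (p = a' ∨ p = b' ∨ p = c')) →
      ∀ r r', (g (c', r)).1 = (g (c', r')).1 := by
    intro a' b' c' ht' hS r r'
    have o1 : ∀ r, g (b', r) = (t (g (a', r)).1, (g (a', r)).2) := fun r => by rw [← e1, ht'.ha]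
    have o2 : ∀ r, g (c', r) = (t (g (b', r)).1, (g (b', r)).2) := fun r => by rw [← e1, ht'.hb]
    obtain ⟨d, da, db, dc, -⟩ := ex4 h.h5 a' b' c' c'
    obtain ⟨l, la, lb, lc, ld⟩ := ex4 h.h5 a' b' c' d
    let w := swap a' b' * swap d l
    have wa : w a' = b' := by simp [w, swap_apply_of_ne_of_ne da.symm la.symm]
    have wb : w b' = a' := by simp [w, swap_apply_of_ne_of_ne db.symm lb.symm]
    have wd : w d = l := by simp [w, swap_apply_of_ne_of_ne la lb]
    have wl : w l = d := by simp [w, swap_apply_of_ne_of_ne da db]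
    have wp : ∀ p, p ≠ a' → p ≠ b' → p ≠ d → p ≠ l → w p = p := fun p k1 k2 k3 k4 => by
      simp [w, swap_apply_of_ne_of_ne k1 k2, swap_apply_of_ne_of_ne k3 k4]
    have wc := wp c' ht'.ac.symm ht'.bc.symm dc.symm lc.symm
    have hw : g * kl w * g⁻¹ ∈ X :=
      X.mul_mem (X.mul_mem hg (h.hL w (by simp [w, ht'.ab, ld.symm]))) (X.inv_mem hg)
    have k1 : ∀ p r, (g * kl w * g⁻¹ : Perm (M × R)) (g (p, r)) = g (w p, r) := fun p r => by simp
    have k2 : ∀ p r, (p = a' ∨ p = b' ∨ p = c') → (g (w p, r)).2 = (g (p, r)).2 := by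
      rintro p r (rfl | rfl | rfl)
      · rw [wa, o1]
      · rw [wb, o1]
      · rw [wc]
    obtain ⟨σ, hσ⟩ := h.eq_kl hw (by
      rcases h.h5.eq_or_lt with h6 | h6
      · refine h.five_case h6.symm ht.ab ht.ac ht.bc hw (fun q => ?_) fun q => ?_
        · obtain ⟨⟨p, r⟩, rfl⟩ := g.surjective q
          rw [k1, hS, hS]
          have j1 : w p = a' ↔ p = b' := by rw [← w.injective.eq_iff (b := b'), wb]
          have j2 : w p = b' ↔ p = a' := by rw [← w.injective.eq_iff (b := a'), wa]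
          have j3 : w p = c' ↔ p = c' := by rw [← w.injective.eq_iff (a := p), wc]
          tauto
        · obtain ⟨⟨p, r⟩, rfl⟩ := g.surjective q
          rw [k1, hS]
          exact k2 p r
      · obtain ⟨m, ma, mb, mc, md, ml⟩ := ex5 h6 a' b' c' d l
        have hu := c3_spec ld.symm md.symm ml.symm
        have k3 : ∀ q : M × R, (q.1 = a ∨ q.1 = b ∨ q.1 = c) →
            (g * kl (c3 d l m) * g⁻¹ : Perm (M × R)) q = q := fun q hq => by
          obtain ⟨⟨p, r⟩, rfl⟩ := g.surjective q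
          rw [hS] at hq
          simp only [mul_apply, inv_app, kl_apply]
          rw [hu.fix p (by grind) (by grind) (by grind)]
        obtain ⟨σ, hσ⟩ := h.eq_kl_of_fix (X.mul_mem (X.mul_mem hg (h.hL _ hu.sign)) (X.inv_mem hg))
          ht.ab ht.ac ht.bc (fun r => k3 _ (by simp)) (fun r => k3 _ (by simp))
          fun r => k3 _ (by simp)
        have k4 : ∀ r, (g (l, r)).2 = (g (d, r)).2 := fun r => by
          have := Equiv.congr_fun hσ (g (d, r))
          simp only [mul_apply, inv_app, kl_apply, hu.ha] at this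
          rw [this]; rfl
        intro q
        obtain ⟨⟨p, r⟩, rfl⟩ := g.surjective q
        rw [k1]
        by_cases k5 : p = a' ∨ p = b' ∨ p = c'
        · exact k2 p r k5
        by_cases k6 : p = d
        · rw [k6, wd, k4]
        by_cases k7 : p = l
        · rw [k7, wl, k4]
        · rw [wp p (by grind) (by grind) k6 k7])
    have k3 : ∀ p r, σ (g (p, r)).1 = (g (w p, r)).1 := fun p r => by rw [← k1, hσ]; rfl
    have k4 := k3 c' r'
    have k5 := k3 a' r
    have k6 := k3 b' r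
    rw [wc] at k4
    rw [wa] at k5
    rw [wb] at k6
    have k7 := (hS c' r').2 (by simp)
    have k8 := (hS a' r).2 (by simp)
    have k9 := congrArg Prod.fst (o1 r)
    have k10 := congrArg Prod.fst (o2 r)
    simp only at k9 k10
    have := ht.ha
    have := ht.hb
    have := ht.hc
    have := ht.ab
    have := ht.ac
    have := ht.bc
    grind
  rcases isEmpty_or_nonempty R with hR | ⟨⟨r₀⟩⟩
  · exact ⟨1, 1, Equiv.ext fun q => hR.elim q.2⟩
  have c1 := hc ht' hS
  have c2 := hc ht'.rot fun p r => (hS p r).trans (by tauto)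
  have c3 := hc ht'.rot.rot fun p r => (hS p r).trans (by tauto)
  have o1 : ∀ r, (g (b', r)).2 = (g (a', r)).2 := fun r => by rw [← ht'.ha, e1]
  have o2 : ∀ r, (g (c', r)).2 = (g (a', r)).2 := fun r => by rw [← ht'.hb, e1, o1]
  let κ : Perm R := Equiv.ofBijective (fun r => (g (a', r)).2) (Finite.injective_iff_bijective.1
    fun r r' e => congrArg Prod.snd (g.injective (Prod.ext (c2 _ _) e) : (a', r) = (a', r')))
  have hne : ∀ {p p' : M}, p ≠ p' → (g (p, r₀)).2 = (g (p', r₀)).2 →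
      (g (p, r₀)).1 ≠ (g (p', r₀)).1 := fun k1 k2 k3 =>
    k1 (congrArg Prod.fst (g.injective (Prod.ext k3 k2)))
  have key := fun d da db dc r => h.conj_core hg (κ := κ) (d := d) (hne ht'.ab (o1 _).symm)
    (hne ht'.ac (o2 _).symm) (hne ht'.bc ((o1 _).trans (o2 _).symm))
    (fun r => Prod.ext (c2 _ _) rfl) (fun r => Prod.ext (c3 _ _) (o1 r))
    (fun r => Prod.ext (c1 _ _) (o2 r)) da db dc r
  have k1 : ∀ p r, (g (p, r)).2 = κ r ∧ ∀ r', (g (p, r')).1 = (g (p, r)).1 := fun p r => by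
    by_cases k1 : p = a'
    · exact k1 ▸ ⟨rfl, fun _ => c2 _ _⟩
    by_cases k2 : p = b'
    · exact k2 ▸ ⟨o1 r, fun _ => c3 _ _⟩
    by_cases k3 : p = c'
    · exact k3 ▸ ⟨o2 r, fun _ => c1 _ _⟩
    exact key p k1 k2 k3 r
  exact exists_pc (fun p r r' => (k1 p r').2 r) fun p p' r => (k1 p r).1.trans (k1 p' r).1.symm

variable (M R) in
/-- The alternating group of the first factor. -/
def LL : Subgroup (Perm (M × R)) := (alternatingGroup M).map kl

theorem mem_LL {x : Perm (M × R)} : x ∈ LL M R ↔ ∃ σ : Perm M, sign σ = 1 ∧ kl σ = x := Iff.rfl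

theorem cj_pc (σ : Perm M) (π : Perm R) : cj (pc (σ, π)) (LL M R) = LL M R := by
  have : ∀ σ π, ∀ x ∈ LL M R, pc (σ, π) * x * (pc (σ, π))⁻¹ ∈ LL M R := by
    rintro σ π _ ⟨u, hu, rfl⟩
    exact ⟨σ * u * σ⁻¹, alternatingGroup.normal.conj_mem u hu σ, Equiv.ext fun ⟨p, r⟩ => by simp⟩
  ext x
  rw [mem_cj]
  refine ⟨fun h => ?_, fun h => this σ⁻¹ π⁻¹ x h⟩
  simpa [mul_assoc] using this σ π _ h

theorem exists_pc_of_cj (h5 : 5 ≤ Fintype.card M) {x : Perm (M × R)}
    (h : cj x (LL M R) = LL M R) : ∃ σ π, x = pc (σ, π) := by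
  refine exists_pc (fun p r r' => ?_) fun p p' r => ?_
  · by_contra k
    obtain ⟨u, c, d, k1, k2⟩ := exists_fix_move h5 k
    obtain ⟨v, -, k3⟩ := mem_cj.1 (h.ge ⟨u, k1.sign, rfl⟩)
    have k4 : ∀ r, x (v p, r) = (u (x (p, r)).1, (x (p, r)).2) := fun r => by
      have : x (v p, r) = kl u (x (p, r)) := by
        simpa using congrArg x (Equiv.congr_fun k3 (p, r))
      exact this
    have k5 : v p = p := congrArg Prod.fst (x.injective (a₁ := (v p, r)) (a₂ := (p, r))
      (by rw [k4, k2]))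
    have := congrArg Prod.fst (k4 r')
    rw [k5, k1.ha] at this
    exact k1.ab this
  · obtain ⟨u, k1, rfl⟩ := exists_one h5 p p'
    obtain ⟨v, -, k3⟩ := h.le (conj_mem_cj (g := x) (show kl u ∈ LL M R from ⟨u, k1, rfl⟩))
    have : (kl v (x (p, r))).2 = (x (u p, r)).2 := by
      simpa using congrArg Prod.snd (Equiv.congr_fun k3 (x (p, r)))
    exact this

theorem card_fix_pc (σ : Perm M) (π : Perm R) :
    (pc (σ, π)).supportᶜ.card = σ.supportᶜ.card * π.supportᶜ.card := by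
  rw [← Finset.card_product]
  congr 1
  ext ⟨p, r⟩
  simp

theorem dich (h5 : 5 ≤ Fintype.card M) {g : Perm (M × R)} {t : Perm M} {a b c : M}
    (ht : C3 t a b c) (h : cj (g⁻¹ * kl t * g) (LL M R) = LL M R) :
    (∃ t' a' b' c', C3 t' a' b' c' ∧ g * kl t' * g⁻¹ = kl t) ∨
      ∀ σ : Perm M, g⁻¹ * kl t * g * kl σ = kl σ * (g⁻¹ * kl t * g) := by
  obtain ⟨σ, π, e⟩ := exists_pc_of_cj h5 h
  by_cases hσ : σ = 1
  · exact Or.inr fun u => by rw [e, hσ]; exact Equiv.ext fun _ => rfl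
  rcases isEmpty_or_nonempty R with hR | ⟨⟨r₀⟩⟩
  · exact Or.inr fun u => Equiv.ext fun q => hR.elim q.2
  left
  have h1 : σ.supportᶜ.card * π.supportᶜ.card = (Fintype.card M - 3) * Fintype.card R := by
    rw [← card_fix_pc, ← e, Finset.card_compl, show g⁻¹ * kl t * g = g⁻¹ * kl t * g⁻¹⁻¹ by simp,
      card_support_conj, ← Finset.card_compl, show (kl t : Perm (M × R)) = pc (t, 1) from rfl,
      card_fix_pc, Finset.card_compl, ht.three.card_support]
    simp
  have h2 : σ ^ 3 = 1 := by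
    have h3 : (pc (σ, π)) ^ 3 = 1 := by
      rw [← e, show g⁻¹ * kl t * g = g⁻¹ * kl t * g⁻¹⁻¹ by simp, conj_pow, ← map_pow,
        ← ht.three.orderOf, pow_orderOf_eq_one]
      simp
    rw [← map_pow] at h3
    exact Equiv.ext fun p => congrArg Prod.fst (Equiv.congr_fun h3 (p, r₀))
  have h3 : 3 ≤ σ.support.card := by
    have : Fact (Nat.Prime 3) := ⟨by norm_num⟩
    have h4 := card_compl_support_modEq (p := 3) (n := 1) (σ := σ) (by simpa using h2)
    have h6 : 0 < σ.support.card := Finset.card_pos.2 (Finset.nonempty_iff_ne_empty.2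
      fun e => hσ (support_eq_empty_iff.1 e))
    have := Finset.card_le_univ σ.support
    rw [Finset.card_compl, Nat.ModEq] at h4
    omega
  have h4 := Finset.card_le_univ σ.support
  have h6 := Finset.card_le_univ π.supportᶜ
  have h7 : 0 < Fintype.card R := Fintype.card_pos_iff.2 ⟨r₀⟩
  rw [Finset.card_compl] at h1
  have h8 : π.supportᶜ.card = Fintype.card R := by
    by_contra k
    have := Nat.mul_lt_mul_of_le_of_lt (show Fintype.card M - σ.support.card ≤
      Fintype.card M - 3 by omega) (lt_of_le_of_ne h6 k) (by omega)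
    omega
  rw [h8] at h1
  have h9 := Nat.eq_of_mul_eq_mul_right h7 h1
  obtain ⟨a', b', c', h10⟩ := exists_C3 (card_support_eq_three_iff.1 (by omega) : σ.IsThreeCycle)
  have h11 : π = 1 := by
    rw [← support_eq_empty_iff, ← Finset.compl_eq_univ_iff]
    exact Finset.eq_univ_of_card _ h8
  refine ⟨σ, a', b', c', h10, ?_⟩
  rw [show (kl σ : Perm (M × R)) = pc (σ, π) by rw [h11]; rfl, ← e]
  group

/-- A three-cycle of the first factor normalises only equal or commuting conjugates. -/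
theorem Sl.rel (h : Sl X) {g : Perm (M × R)} (hg : g ∈ X) {t : Perm M} {a b c : M}
    (ht : C3 t a b c) (h1 : cj (kl t) (cj g (LL M R)) = cj g (LL M R)) :
    cj g (LL M R) = LL M R ∨ Cm (LL M R) (cj g (LL M R)) := by
  rcases dich h.h5 (g := g) ht (by
    rw [cj_mul, cj_mul, h1, ← cj_mul, inv_mul_cancel, cj_one]) with ⟨t', a', b', c', k1, k2⟩ | k1
  · obtain ⟨σ, π, rfl⟩ := h.eq_pc hg ht k1 k2
    exact Or.inl (cj_pc σ π)
  by_contra! hc
  have k2 : ∀ t' : Perm M, t'.IsThreeCycle → ∀ σ : Perm M,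
      g * kl t' * g⁻¹ * kl σ = kl σ * (g * kl t' * g⁻¹) := fun t' ht' => by
    obtain ⟨a', b', c', k2⟩ := exists_C3 ht'
    obtain ⟨σ, π, k3⟩ := h.eq_pc (X.mul_mem (X.mul_mem hg (h.hL _ k2.sign)) (X.inv_mem hg)) ht ht
      (by
        calc _ = g * (kl t' * (g⁻¹ * kl t * g)) * (kl t')⁻¹ * g⁻¹ := by group
          _ = _ := by rw [← k1]; group)
    rcases dich h.h5 (g := g⁻¹) k2 (by rw [inv_inv, k3, cj_pc]) with ⟨u, a, b, c, k4, k5⟩ | k4
    · obtain ⟨σ, π, k6⟩ := h.eq_pc (X.inv_mem hg) k2 k4 k5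
      refine absurd ?_ hc.1
      conv_lhs => rw [← cj_pc σ π, ← k6, ← cj_mul, mul_inv_cancel, cj_one]
    · simpa only [inv_inv] using k4
  refine hc.2 ?_
  rintro _ ⟨σ, -, rfl⟩ _ ⟨_, ⟨u, hu, rfl⟩, rfl⟩
  rw [← closure_three_cycles_eq_alternating] at hu
  have : u ∈ (Subgroup.centralizer {kl σ}).comap ((MulAut.conj g).toMonoidHom.comp kl) :=
    (Subgroup.closure_le ((Subgroup.centralizer {kl σ}).comap
      ((MulAut.conj g).toMonoidHom.comp kl))).2 (fun t' ht' => Subgroup.mem_comap.2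
        (Subgroup.mem_centralizer_singleton_iff.2 (k2 t' ht' σ))) hu
  exact (Subgroup.mem_centralizer_singleton_iff.1 this).symm

end Cfsg.Agent.H9.PW
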