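import Cfsg.Agent.H9.PW2

/-!
Overgroups of the product action wreath product.
-/

set_option autoImplicit false
set_option linter.unusedSectionVars false

namespace Cfsg.Agent.H9.PW

open Equiv Equiv.Perm W3

variable {ι : Type} {M : Type*} [Fintype ι] [DecidableEq ι] [Fintype M] [DecidableEq M]

/-- Elements of the wreath product. -/
def wr (π : Perm ι) (τ : ι → Perm M) : Perm (ι → M) where
  toFun f i := τ i (f (π.symm i))
  invFun f i := (τ (π i)).symm (f (π i))
  left_inv f := funext fun i => by simp
  right_inv f := funext fun i => by simp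

@[simp] theorem wr_apply (π : Perm ι) (τ : ι → Perm M) (f : ι → M) (i : ι) :
    wr π τ f i = τ i (f (π.symm i)) := rfl

/-- The base group. -/
def base : (ι → Perm M) →* Perm (ι → M) where
  toFun := wr 1
  map_one' := Equiv.ext fun _ => rfl
  map_mul' _ _ := Equiv.ext fun _ => rfl

@[simp] theorem base_apply (τ : ι → Perm M) (f : ι → M) (i : ι) : base τ f i = τ i (f i) := rfl

/-- A slot. -/
def sl (i : ι) : Perm M →* Perm (ι → M) := base.comp (MonoidHom.mulSingle (fun _ => Perm M) i)

theorem sl_apply (i : ι) (σ : Perm M) (f : ι → M) : sl i σ f = Function.update f i (σ (f i)) := by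
  ext j
  by_cases h : j = i
  · subst h; simp [sl]
  · simp [sl, h]

@[simp] theorem sl_self (i : ι) (σ : Perm M) (f : ι → M) : sl i σ f i = σ (f i) := by
  simp [sl_apply]

theorem sl_ne {i j : ι} (h : j ≠ i) (σ : Perm M) (f : ι → M) : sl i σ f j = f j := by
  simp [sl_apply, h]

theorem sl_fix {i : ι} {σ : Perm M} {f : ι → M} : sl i σ f = f ↔ σ (f i) = f i := by
  simp [sl_apply]

theorem sl_comm {i j : ι} (h : i ≠ j) (σ σ' : Perm M) : sl i σ * sl j σ' = sl j σ' * sl i σ :=
  ((Pi.mulSingle_commute (f := fun _ => Perm M) h σ σ').map base).eq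

theorem sl_inj (i : ι) : Function.Injective (sl i : Perm M → Perm (ι → M)) := fun σ σ' h =>
  Equiv.ext fun p => by simpa using congrFun (Equiv.congr_fun h fun _ => p) i

theorem wr_conj_sl (π : Perm ι) (τ : ι → Perm M) (i : ι) (σ : Perm M) :
    wr π τ * sl i σ * (wr π τ)⁻¹ = sl (π i) (τ (π i) * σ * (τ (π i))⁻¹) := by
  rw [mul_inv_eq_iff_eq_mul]
  ext f j
  by_cases h : j = π i
  · subst h; simp [-map_mul]
  · rw [mul_apply, mul_apply, wr_apply, sl_ne h, sl_ne fun e => h (by simp [← e]), wr_apply]

/-- Transport to the product attached to a slot. -/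
def tr (i : ι) : Perm (M × ({j // j ≠ i} → M)) ≃* Perm (ι → M) :=
  (Equiv.funSplitAt i M).symm.permCongrHom

theorem tr_self (i : ι) (x : Perm (M × ({j // j ≠ i} → M))) (f : ι → M) :
    tr i x f i = (x (f i, fun j => f j)).1 := by
  simp [tr, Equiv.funSplitAt, Equiv.piSplitAt]

theorem tr_ne (i : ι) (x : Perm (M × ({j // j ≠ i} → M))) (f : ι → M) {j : ι} (h : j ≠ i) :
    tr i x f j = (x (f i, fun j => f j)).2 ⟨j, h⟩ := by
  simp [tr, Equiv.funSplitAt, Equiv.piSplitAt, h]

theorem tr_ext {i : ι} {x : Perm (M × ({j // j ≠ i} → M))} {y : Perm (ι → M)}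
    (h1 : ∀ f, (x (f i, fun j => f j)).1 = y f i)
    (h2 : ∀ f (j : {j // j ≠ i}), (x (f i, fun j => f j)).2 j = y f j) : tr i x = y := by
  ext f j
  by_cases h : j = i
  · rw [h, tr_self, h1]
  · rw [tr_ne _ _ _ h, h2]

theorem tr_kl (i : ι) (σ : Perm M) : tr i (kl σ) = sl i σ :=
  tr_ext (fun f => by simp) fun f j => by simp [sl_ne j.2]

variable (h5 : 5 ≤ Fintype.card M)

include h5 in
theorem eq_one_of_comm {x : Perm (ι → M)}
    (h : ∀ i u a b c, C3 u a b c → x * sl i u = sl i u * x) : x = 1 := by
  ext f i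
  by_contra k
  obtain ⟨u, c, d, k1, k2⟩ := exists_fix_move h5 (a := f i) (Ne.symm k)
  have := congrFun (Equiv.congr_fun (h i u _ _ _ k1) f) i
  rw [mul_apply, sl_fix.2 k2, mul_apply, sl_self, k1.ha] at this
  exact k1.ab this

/-- The hypotheses on the overgroup. -/
structure Hy (X : Subgroup (Perm (ι → M))) : Prop where
  h5 : 5 ≤ Fintype.card M
  hL : ∀ i (σ : Perm M), sign σ = 1 → sl i σ ∈ X
  hS : ∀ i j : ι, i ≠ j → ∃ τ, wr (swap i j) τ ∈ X

variable {X : Subgroup (Perm (ι → M))}

theorem Hy.mono {Y : Subgroup (Perm (ι → M))} (h : Hy X) (hY : X ≤ Y) : Hy Y :=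
  ⟨h.h5, fun i σ hσ => hY (h.hL i σ hσ), fun i j hij => (h.hS i j hij).imp fun _ k => hY k⟩

theorem Hy.base_mem (h : Hy X) {τ : ι → Perm M} (hτ : ∀ i, sign (τ i) = 1) : base τ ∈ X := by
  have key : ∀ s : Finset ι, base (fun i => if i ∈ s then τ i else 1) ∈ X := fun s => by
    induction s using Finset.induction_on with
    | empty => simpa [show (fun _ : ι => (1 : Perm M)) = 1 from rfl] using X.one_mem
    | insert j s hj ih =>
      convert X.mul_mem ih (h.hL j _ (hτ j)) using 1
      ext f i
      by_cases k : i = j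
      · subst k; simp [hj]
      · simp [k, sl_ne k]
  simpa using key Finset.univ

theorem Hy.prim (h : Hy X) (s : Setoid (ι → M)) (hs : ∀ x ∈ X, ∀ f f', s f f' → s (x f) (x f')) :
    (∀ f f', s f f' → f = f') ∨ ∀ f f', s f f' := by
  refine or_iff_not_imp_left.2 fun h1 => ?_
  push Not at h1
  obtain ⟨f, f', h1, h2⟩ := h1
  obtain ⟨l, h2⟩ := Function.ne_iff.1 h2
  have k1 : ∀ l, (∃ f v, v ≠ f l ∧ s f (Function.update f l v)) →
      ∀ g w, s g (Function.update g l w) := by
    rintro l ⟨f, v, k1, k2⟩ g w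
    by_cases k3 : w = g l
    · rw [k3, Function.update_eq_self]
    obtain ⟨u, k4, k5, k6⟩ := exists_two h.h5 k1 k3
    choose τ k7 k8 using fun i => exists_one h.h5 (f i) (g i)
    convert hs _ (h.base_mem (τ := Function.update τ l u) fun i => by
      by_cases k : i = l
      · simp [k, k4]
      · simp [k, k7]) _ _ k2 using 1 <;> ext i <;> by_cases k : i = l <;> simp [k, k5, k6, k8]
  have k2 := k1 l (by
    obtain ⟨u, c, d, k2, k3⟩ := exists_fix_move h.h5 h2
    have k4 := hs _ (h.hL l u k2.sign) _ _ h1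
    rw [sl_fix.2 k3, sl_apply, k2.ha] at k4
    exact ⟨f', c, k2.ab.symm, s.trans (s.symm h1) k4⟩)
  have k3 : ∀ l' g w, s g (Function.update g l' w) := fun l' => by
    by_cases k : l = l'
    · exact k ▸ k2
    obtain ⟨τ, k3⟩ := h.hS l l' k
    refine k1 l' ⟨wr (swap l l') τ f, τ l' (f' l), by simpa using h2.symm, ?_⟩
    convert hs _ k3 _ _ (k2 f (f' l)) using 1
    ext i
    by_cases k4 : i = l'
    · simp [k4]
    · rw [Function.update_of_ne k4, wr_apply, wr_apply, Function.update_of_ne]
      exact fun e => k4 (by simpa [swap_apply_eq_iff] using e)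
  intro g g'
  have k4 : ∀ T : Finset ι, s g (T.piecewise g' g) := fun T => by
    induction T using Finset.induction_on with
    | empty => simp
    | insert j T _ ih => rw [Finset.piecewise_insert]; exact s.trans ih (k3 _ _ _)
  simpa using k4 Finset.univ

open scoped Pointwise in
theorem Hy.preprim (h : Hy X) : MulAction.IsPreprimitive X (ι → M) where
  exists_smul_eq f g := by
    choose τ k7 k8 using fun i => exists_one h.h5 (f i) (g i)
    exact ⟨⟨_, h.base_mem k7⟩, funext k8⟩
  isTrivialBlock_of_isBlock {B} hB := by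
    let s : Setoid (ι → M) := ⟨fun f f' => f = f' ∨ ∃ g : X, g • f ∈ B ∧ g • f' ∈ B,
      fun _ => Or.inl rfl, fun k => k.imp Eq.symm fun ⟨g, k1, k2⟩ => ⟨g, k2, k1⟩, by
        rintro a b c (rfl | ⟨g, k1, k2⟩) (rfl | ⟨g', k3, k4⟩)
        exacts [Or.inl rfl, Or.inr ⟨g', k3, k4⟩, Or.inr ⟨g, k1, k2⟩, Or.inr ⟨g', by
          have := hB.smul_eq_of_mem (g := g' * g⁻¹) k2 (by simpa [mul_smul] using k3)
          rw [← this]
          exact ⟨_, k1, by simp [mul_smul]⟩, k4⟩]⟩
    rcases h.prim s (fun x hx f f' k => k.imp (congrArg x) fun ⟨g, k1, k2⟩ =>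
      ⟨g * ⟨x, hx⟩⁻¹, by rwa [show x f = (⟨x, hx⟩ : X) • f from rfl, mul_smul, inv_smul_smul],
        by rwa [show x f' = (⟨x, hx⟩ : X) • f' from rfl, mul_smul, inv_smul_smul]⟩) with k | k
    · exact Or.inl fun a ha b hb => k a b (Or.inr ⟨1, by simpa using ha, by simpa using hb⟩)
    rcases B.eq_empty_or_nonempty with rfl | ⟨a, ha⟩
    · exact Or.inl Set.subsingleton_empty
    refine Or.inr (Set.eq_univ_of_forall fun b => ?_)
    rcases k a b with rfl | ⟨g, k1, k2⟩
    · exact ha
    · rwa [← hB.smul_eq_of_mem ha k1, Set.smul_mem_smul_set_iff] at k2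

theorem Hy.gr (h : Hy X) (i : ι) : Hy (GR (X.comap (tr i).toMonoidHom)) where
  h5 := h.h5
  hL j σ hσ := mem_GR.2 ⟨1, by
    change tr i _ ∈ X
    rw [tr_ext (y := sl j.1 σ) (fun f => by simp [sl_ne j.2.symm]) fun f l => by
      by_cases k : l = j
      · simp [k]
      · simp [sl_ne k, sl_ne (Subtype.coe_ne_coe.2 k)]]
    exact h.hL _ σ hσ⟩
  hS j l hjl := by
    obtain ⟨τ, hτ⟩ := h.hS j.1 l.1 (Subtype.coe_ne_coe.2 hjl)
    refine ⟨fun m => τ m, mem_GR.2 ⟨τ i, ?_⟩⟩
    change tr i _ ∈ X
    rwa [tr_ext (y := wr (swap j.1 l.1) τ)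
      (fun f => by simp [swap_apply_of_ne_of_ne j.2.symm l.2.symm])
      fun f m => by simp [Subtype.val_injective.map_swap]]

theorem Hy.sl0 (h : Hy X) (hA : ¬ alternatingGroup _ ≤ X) (i : ι) :
    Sl0 (X.comap (tr i).toMonoidHom) where
  h5 := h.h5
  hL σ hσ := by
    change tr i _ ∈ X
    rw [tr_kl]; exact h.hL i σ hσ
  prim := (h.gr i).prim
  no3 r σ hσ hx := hA (alternatingGroup_le_of_isPreprimitive_of_isThreeCycle_mem h.preprim (by
    obtain ⟨a, b, c, k⟩ := exists_C3 hσ
    have k1 : C3 (fib (Pi.mulSingle r σ)) (a, r) (b, r) (c, r) :=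
      ⟨by simpa using k.ab, by simpa using k.ac, by simpa using k.bc, by simp [k.ha],
        by simp [k.hb], by simp [k.hc], fun ⟨p, ρ⟩ k1 k2 k3 => by
          by_cases e : ρ = r
          · subst e
            simpa using k.fix p (by simpa using k1) (by simpa using k2) (by simpa using k3)
          · simp [e]⟩
    rw [← card_support_eq_three_iff, ← k1.three.card_support]
    refine Finset.card_equiv (Equiv.funSplitAt i M) fun f => ?_
    simp [tr, Equiv.symm_apply_eq]) hx)

/-- The number of coordinates in which two functions agree. -/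
def agree (f g : ι → M) : ℕ := (Finset.univ.filter fun i => f i = g i).card

variable (ι M) in
/-- The isometries of the Hamming scheme. -/
def Ham : Subgroup (Perm (ι → M)) where
  carrier := {x | ∀ f g, agree (x f) (x g) = agree f g}
  mul_mem' hx hy f g := (hx _ _).trans (hy f g)
  one_mem' _ _ := rfl
  inv_mem' {x} hx f g := by simpa using (hx (x⁻¹ f) (x⁻¹ g)).symm

theorem wr_mem (π : Perm ι) (τ : ι → Perm M) : wr π τ ∈ Ham ι M := fun f g =>
  Finset.card_equiv π.symm fun i => by simp

theorem agree_update (f g : ι → M) (i : ι) (p : M) : agree f (Function.update g i p) +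
    (if f i = g i then 1 else 0) = agree f g + if f i = p then 1 else 0 := by
  simp only [agree, Finset.card_filter]
  rw [← Finset.add_sum_erase _ _ (Finset.mem_univ i), ← Finset.add_sum_erase _ _ (Finset.mem_univ i),
    Finset.sum_congr rfl (g := fun j => if f j = g j then 1 else 0) fun j hj => by
      rw [Function.update_of_ne (Finset.ne_of_mem_erase hj)], Function.update_self]
  omega

theorem agree_self (f : ι → M) : agree f f = Fintype.card ι := by simp [agree]

theorem agree_comm (f g : ι → M) : agree f g = agree g f := by simp [agree, eq_comm]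

theorem exists_update {f g : ι → M} (h : agree f g + 1 = Fintype.card ι) :
    ∃ i p, p ≠ f i ∧ g = Function.update f i p := by
  have := Finset.card_filter_add_card_filter_not (s := Finset.univ) fun i => f i = g i
  obtain ⟨i, hi⟩ := Finset.card_eq_one.1
    (show (Finset.univ.filter fun i => ¬ f i = g i).card = 1 by
      rw [Finset.card_univ] at this
      unfold agree at h
      omega)
  have k : ∀ j, ¬ f j = g j ↔ j = i := fun j => by simpa using Finset.ext_iff.1 hi j
  refine ⟨i, g i, Ne.symm ((k i).2 rfl), funext fun j => ?_⟩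
  by_cases e : j = i
  · simp [e]
  · rw [Function.update_of_ne e]
    exact (not_not.1 ((k j).not.2 e)).symm

include h5 in
theorem exists_wr {x : Perm (ι → M)} (hx : x ∈ Ham ι M) : ∃ π τ, x = wr π τ := by
  obtain ⟨a⟩ : Nonempty M := Fintype.card_pos_iff.1 (by omega)
  obtain ⟨b, hb, -⟩ := ex4 h5 a a a a
  let f₀ : ι → M := fun _ => a
  have k1 : ∀ i p, p ≠ a → ∃ j q, q ≠ x f₀ j ∧
      x (Function.update f₀ i p) = Function.update (x f₀) j q := fun i p hp => exists_update (by
    have := agree_update f₀ f₀ i p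
    rw [hx]
    simpa [agree_self, f₀, hp.symm] using this)
  have k2 : ∀ (f : ι → M) i j p q, p ≠ f i → q ≠ f j → i ≠ j →
      agree (Function.update f i p) (Function.update f j q) + 2 = Fintype.card ι :=
    fun f i j p q hp hq hij => by
      have e1 := agree_update (Function.update f i p) f j q
      have e2 := agree_update f f i p
      rw [agree_comm f] at e2
      simp [agree_self, hp.symm, hq.symm, hij.symm] at e1 e2
      omega
  have k3 : ∀ (f : ι → M) i p q, p ≠ f i → Fintype.card ι ≤
      agree (Function.update f i p) (Function.update f i q) + 1 := fun f i p q hp => by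
    have e1 := agree_update (Function.update f i p) f i q
    have e2 := agree_update f f i p
    rw [agree_comm f] at e2
    simp [agree_self, hp.symm, hp] at e1 e2
    omega
  choose π v hv hπ using fun i => k1 i b hb
  have k4 : Function.Injective π := fun i j e => by
    by_contra k
    have e1 := k2 f₀ i j b b hb hb k
    have e2 := k3 (x f₀) (π j) (v i) (v j) (e ▸ hv i)
    rw [← hπ j, ← e, ← hπ i, hx] at e2
    omega
  have k5 : ∀ i p, x (Function.update f₀ i p) =
      Function.update (x f₀) (π i) (x (Function.update f₀ i p) (π i)) := fun i p => by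
    by_cases hp : p = a
    · rw [hp, show Function.update f₀ i a = f₀ from Function.update_eq_self i f₀,
        Function.update_eq_self]
    obtain ⟨j, q, e1, e2⟩ := k1 i p hp
    obtain rfl : j = π i := by
      by_contra k
      have e3 := k2 (x f₀) j (π i) q (v i) e1 (hv i) k
      have e4 := k3 f₀ i p b hp
      rw [← e2, ← hπ, hx] at e3
      omega
    rw [e2, Function.update_self]
  let π' : Perm ι := Equiv.ofBijective π (Finite.injective_iff_bijective.1 k4)
  let τ : ι → Perm M := fun i => Equiv.ofBijective (fun p => x (Function.update f₀ i p) (π i))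
    (Finite.injective_iff_bijective.1 fun p q e => by
      have := x.injective ((k5 i p).trans (by rw [k5 i q]; exact congrArg _ e))
      simpa using congrFun this i)
  refine ⟨π', fun j => τ (π'.symm j), Equiv.ext fun f => funext fun j => ?_⟩
  obtain ⟨i, rfl⟩ := π'.surjective j
  simp only [wr_apply, symm_apply_apply]
  have k6 : ∀ p, (if x f (π i) = τ i p then 1 else 0) + (if f i = a then 1 else 0) =
      (if x f (π i) = τ i a then 1 else 0) + if f i = p then 1 else 0 := fun p => by
    have e1 := agree_update (x f) (x f₀) (π i) (τ i p)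
    have e2 := agree_update f f₀ i p
    have e3 : τ i a = x f₀ (π i) := by
      change x (Function.update f₀ i a) (π i) = _
      rw [show Function.update f₀ i a = f₀ from Function.update_eq_self i f₀]
    rw [show Function.update (x f₀) (π i) (τ i p) = _ from (k5 i p).symm, hx, hx, ← e3] at e1
    simp only [f₀] at e1 e2
    omega
  change x f (π i) = _
  by_cases k : f i = a
  · obtain ⟨p, hp⟩ := (τ i).surjective (x f (π i))
    have := k6 p
    rw [← hp, k] at this ⊢
    by_contra k7
    simp [k7] at this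
    split_ifs at this
    omega
  · have := k6 (f i)
    by_contra k7
    simp [k7, k] at this

end Cfsg.Agent.H9.PW
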