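import Cfsg.Agent.H9.PW3

/-!
Overgroups of the product action wreath product: the counting argument and the induction.
-/

set_option autoImplicit false
set_option linter.unusedSectionVars false

namespace Cfsg.Agent.H9.PW

open Equiv Equiv.Perm W3

theorem ncard_modEq {α : Type*} {T : Set α} (hT : T.Finite) (φ : α → α) (h1 : ∀ a ∈ T, φ a ∈ T)
    (h3 : ∀ a ∈ T, φ (φ (φ a)) = a) : T.ncard ≡ {a ∈ T | φ a = a}.ncard [MOD 3] := by
  classical
  have := hT.fintype
  have : Fact (Nat.Prime 3) := ⟨by norm_num⟩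
  have h := card_fixedPoints_modEq (α := T) (f := fun a : T => (⟨φ a, h1 a a.2⟩ : T)) (p := 3)
    (n := 1) (funext fun a => Subtype.ext (h3 a a.2))
  rw [← Nat.card_eq_fintype_card, ← Nat.card_eq_fintype_card, Nat.card_coe_set_eq,
    Nat.card_coe_set_eq, ← Set.ncard_image_of_injective _ Subtype.val_injective] at h
  convert h using 2
  ext a
  simp [Function.mem_fixedPoints, Function.IsFixedPt, and_comm]

theorem eq_of_pow_mul_pow {m n k a b : ℕ} (hn : 0 < n) (hm : n < m) (ha : a ≤ k) (hb : b ≤ k)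
    (h : m ^ a * n ^ (k - a) = m ^ b * n ^ (k - b)) : a = b := by
  have key : ∀ a b, b ≤ k → a < b → m ^ a * n ^ (k - a) < m ^ b * n ^ (k - b) := fun a b hb hab => by
    obtain ⟨d, rfl⟩ := Nat.exists_eq_add_of_lt hab
    rw [show k - a = (d + 1) + (k - (a + d + 1)) by omega, pow_add, add_assoc, pow_add m,
      ← mul_assoc]
    have : 0 < m := by omega
    gcongr
  rcases lt_trichotomy a b with k1 | k1 | k1
  · exact absurd h (key a b hb k1).ne
  · exact k1
  · exact absurd h (key b a ha k1).ne'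

theorem map_cj {G G' : Type*} [Group G] [Group G'] (φ : G →* G') (g : G) (L : Subgroup G) :
    (cj g L).map φ = cj (φ g) (L.map φ) := by
  rw [cj, cj, Subgroup.map_map, Subgroup.map_map]
  congr 1
  ext x
  simp

variable {ι : Type} {M : Type*} [Fintype ι] [DecidableEq ι] [Fintype M] [DecidableEq M]
  {X : Subgroup (Perm (ι → M))}

theorem mem_Ham_of_modEq (h5 : 5 ≤ Fintype.card M) {x : Perm (ι → M)}
    (h : ∀ f g, agree (x f) (x g) ≡ agree f g [MOD 3]) : x ∈ Ham ι M := by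
  have hω := Complex.isPrimitiveRoot_exp 3 (by norm_num)
  generalize Complex.exp (2 * Real.pi * Complex.I / (3 : ℕ)) = ω at hω
  have h1 : ω ^ 3 = 1 := hω.pow_eq_one
  have h2 : 1 + ω + ω ^ 2 = 0 := by
    simpa [Finset.sum_range_succ] using hω.geom_sum_eq_zero (by norm_num)
  have h3 : ∀ (c : ℂ) (f g : ι → M), c ^ agree f g = ∏ i, if f i = g i then c else 1 :=
    fun c f g => by rw [Finset.prod_ite]; simp [agree]
  have h4 : ∀ f g : ι → M, ∑ z, ω ^ agree f z * (ω ^ 2) ^ agree z g =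
      ((Fintype.card M ^ agree f g * (Fintype.card M - 3) ^ (Fintype.card ι - agree f g) : ℕ) : ℂ) :=
    fun f g => by
      simp only [h3, ← Finset.prod_mul_distrib]
      rw [← Fintype.piFinset_univ, ← Finset.prod_univ_sum (fun _ => Finset.univ)
        fun i p => (if f i = p then ω else 1) * if p = g i then ω ^ 2 else 1,
        Finset.prod_congr rfl (g := fun i => if f i = g i then (Fintype.card M : ℂ)
          else Fintype.card M - 3) fun i _ => ?_, Finset.prod_ite]
      · have := Finset.card_filter_add_card_filter_not (s := Finset.univ) fun i => f i = g i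
        rw [Finset.card_univ] at this
        simp only [Finset.prod_const, agree, ← this, Nat.add_sub_cancel_left]
        push_cast [Nat.cast_sub (show 3 ≤ Fintype.card M by omega)]
        rfl
      · rw [Finset.sum_congr rfl (g := fun p => 1 + (if f i = p then ω - 1 else 0) +
          (if g i = p then ω ^ 2 - 1 else 0) +
          if f i = p then (if f i = g i then (ω - 1) * (ω ^ 2 - 1) else 0) else 0) fun p _ => by
            rw [if_congr (eq_comm (a := p)) rfl rfl]
            by_cases k1 : f i = p <;> by_cases k2 : g i = p <;>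
              simp [k1, k2, @eq_comm _ p] <;> ring]
        simp only [Finset.sum_add_distrib, Finset.sum_ite_eq, Finset.mem_univ, if_true,
          Finset.sum_const, Finset.card_univ, nsmul_eq_mul, mul_one]
        split_ifs
        · linear_combination h1
        · linear_combination h2
  intro f g
  have h6 := h4 (x f) (x g)
  rw [← Equiv.sum_comp x, Finset.sum_congr rfl (g := fun z => ω ^ agree f z * (ω ^ 2) ^ agree z g)
    fun z _ => by
      rw [pow_eq_pow_mod _ h1, h f z, ← pow_eq_pow_mod _ h1,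
        pow_eq_pow_mod _ (show (ω ^ 2) ^ 3 = 1 by rw [← pow_mul, mul_comm, pow_mul, h1, one_pow]),
        h z g, ← pow_eq_pow_mod _ (show (ω ^ 2) ^ 3 = 1 by
          rw [← pow_mul, mul_comm, pow_mul, h1, one_pow])], h4] at h6
  exact (eq_of_pow_mul_pow (by omega) (by omega) (Finset.card_le_univ _) (Finset.card_le_univ _)
    (Nat.cast_injective h6)).symm

variable (M) in
/-- The alternating group of a slot. -/
def LS (i : ι) : Subgroup (Perm (ι → M)) := (alternatingGroup M).map (sl i)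

theorem map_LL (i : ι) : (LL M _).map (tr i).toMonoidHom = LS M i := by
  rw [LL, Subgroup.map_map, LS]
  exact congrArg (fun φ => Subgroup.map φ _) (MonoidHom.ext (tr_kl i))

theorem cj_wr (π : Perm ι) (τ : ι → Perm M) (i : ι) : cj (wr π τ) (LS M i) = LS M (π i) := by
  ext x
  constructor
  · rintro ⟨_, ⟨σ, hσ, rfl⟩, rfl⟩
    exact ⟨_, alternatingGroup.normal.conj_mem σ hσ _, (wr_conj_sl π τ i σ).symm⟩
  · rintro ⟨σ, hσ, rfl⟩
    have := wr_conj_sl π τ i ((τ (π i))⁻¹ * σ * τ (π i))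
    rw [show τ (π i) * ((τ (π i))⁻¹ * σ * τ (π i)) * (τ (π i))⁻¹ = σ by group] at this
    exact this ▸ conj_mem_cj ⟨_, alternatingGroup.normal.conj_mem' σ hσ _, rfl⟩

theorem not_cm (h5 : 5 ≤ Fintype.card M) (i : ι) : ¬ Cm (LS M i) (LS M i) := fun h => by
  obtain ⟨a⟩ : Nonempty M := Fintype.card_pos_iff.1 (by omega)
  obtain ⟨b, hb, -⟩ := ex4 h5 a a a a
  obtain ⟨u, c, d, k1, -⟩ := exists_fix_move h5 hb
  obtain ⟨v, a', b', c', k2, k3⟩ := exists_not_comm h5 k1.three.ne_one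
  exact k3 (sl_inj i (by simpa using h _ ⟨u, k1.sign, rfl⟩ _ ⟨v, k2.sign, rfl⟩))

theorem Hy.le_Ham (h : Hy X) (hs : ∀ i, Sl (X.comap (tr i).toMonoidHom)) : X ≤ Ham ι M := by
  let Ω : Set (Subgroup (Perm (ι → M))) := {L | ∃ i, ∃ g ∈ X, L = cj g (LS M i)}
  let T : Finset ι → (ι → M) → (ι → M) → Set (Subgroup (Perm (ι → M))) := fun s f f' =>
    {L | L ∈ Ω ∧ (∀ l ∈ L, l f = f ↔ l f' = f') ∧ ∀ i ∈ s, Cm (LS M i) L}
  have hΩ : ∀ L ∈ Ω, ∀ x ∈ X, cj x L ∈ Ω := by
    rintro _ ⟨i, g, hg, rfl⟩ x hx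
    exact ⟨i, x * g, X.mul_mem hx hg, (cj_mul _ _ _).symm⟩
  have hrel : ∀ (L : Subgroup (Perm (ι → M))) x f f', (∀ l ∈ L, l f = f ↔ l f' = f') →
      ∀ l ∈ cj x L, l (x f) = x f ↔ l (x f') = x f' := fun L x f f' k l hl => by
    simpa [Equiv.symm_apply_eq] using k _ (mem_cj.1 hl)
  have hF : ∀ i t a b c, C3 t a b c → ∀ L ∈ Ω, cj (sl i t) L = L → L = LS M i ∨ Cm (LS M i) L := by
    rintro i t a b c ht _ ⟨j, g, hg, rfl⟩ e
    obtain ⟨g', hg', e'⟩ : ∃ g' ∈ X, cj g (LS M j) = cj g' (LS M i) := by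
      by_cases k : i = j
      · exact ⟨g, hg, k ▸ rfl⟩
      obtain ⟨τ, hτ⟩ := h.hS i j k
      exact ⟨_, X.mul_mem hg hτ, by rw [cj_mul, cj_wr, swap_apply_left]⟩
    obtain ⟨g', rfl⟩ := (tr i).surjective g'
    have k1 : cj (tr i g') (LS M i) = (cj g' (LL M _)).map (tr i).toMonoidHom := by
      rw [map_cj, map_LL]; rfl
    rw [e', k1] at e ⊢
    rw [← map_LL]
    refine ((hs i).rel hg' ht (Subgroup.map_injective (f := (tr i).toMonoidHom) (tr i).injective
      (by rw [map_cj, show (tr i).toMonoidHom (kl t) = sl i t from tr_kl i t, e]))).imp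
      (congrArg _) fun k => ?_
    rintro _ ⟨x, hx, rfl⟩ _ ⟨y, hy, rfl⟩
    rw [← map_mul, k x hx y hy, map_mul]
  have hstep : ∀ f f' s i, i ∉ s → (T s f f').ncard ≡
      (T (insert i s) f f').ncard + (if f i = f' i then 1 else 0) [MOD 3] := by
    intro f f' s i hi
    obtain ⟨a, a1, a2, -⟩ := ex4 h.h5 (f i) (f' i) (f i) (f i)
    obtain ⟨b, b1, b2, ba, -⟩ := ex4 h.h5 (f i) (f' i) a a
    obtain ⟨c, c1, c2, ca, cb⟩ := ex4 h.h5 (f i) (f' i) a b
    have ht := c3_spec ba.symm ca.symm cb.symm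
    have t1 : sl i (c3 a b c) f = f := sl_fix.2 (ht.fix _ a1.symm b1.symm c1.symm)
    have t2 : sl i (c3 a b c) f' = f' := sl_fix.2 (ht.fix _ a2.symm b2.symm c2.symm)
    have k1 := ncard_modEq (Set.toFinite (T s f f')) (cj (sl i (c3 a b c)))
      (fun L hL => ⟨hΩ L hL.1 _ (h.hL i _ ht.sign), by
        simpa only [t1, t2] using hrel L (sl i (c3 a b c)) f f' hL.2.1, fun j hj => by
          rintro _ ⟨σ, hσ, rfl⟩ y hy
          have k1 := hL.2.2 j hj _ ⟨σ, hσ, rfl⟩ _ (mem_cj.1 hy)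
          have k2 := sl_comm (show i ≠ j from fun e => hi (e ▸ hj)) (c3 a b c) σ
          calc sl j σ * y = sl j σ * sl i (c3 a b c) *
                ((sl i (c3 a b c))⁻¹ * y * sl i (c3 a b c)) * (sl i (c3 a b c))⁻¹ := by group
            _ = y * (sl i (c3 a b c) * sl j σ) * (sl i (c3 a b c))⁻¹ := by
                rw [← k2, mul_assoc (sl i (c3 a b c)), k1]; group
            _ = _ := by rw [k2]; group⟩)
      fun L _ => by
        rw [← cj_mul, ← cj_mul, ← map_mul, ← map_mul, ← pow_three', ← ht.three.orderOf,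
          pow_orderOf_eq_one, map_one, cj_one]
    have k2 : ∀ L, (L ∈ T s f f' ∧ cj (sl i (c3 a b c)) L = L) ↔
        L ∈ T (insert i s) f f' ∨ (f i = f' i ∧ L = LS M i) := fun L => by
      constructor
      · rintro ⟨k3, k4⟩
        refine (hF i _ a b c ht L k3.1 k4).symm.imp
          (fun k5 => ⟨k3.1, k3.2.1, by simpa [k5] using k3.2.2⟩) fun k5 => ⟨?_, k5⟩
        by_contra k6
        obtain ⟨u, c', d', k7, k8⟩ := exists_fix_move h.h5 k6
        have := sl_fix.1 ((k3.2.1 (sl i u) (k5 ▸ ⟨u, k7.sign, rfl⟩)).1 (sl_fix.2 k8))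
        rw [k7.ha] at this
        exact k7.ab this.symm
      · rintro (k3 | ⟨k3, rfl⟩)
        · exact ⟨⟨k3.1, k3.2.1, fun j hj => k3.2.2 j (by simp [hj])⟩,
            (acts_one (k3.2.2 i (by simp) _ ⟨_, ht.sign, rfl⟩)).cj_eq⟩
        · refine ⟨⟨⟨i, 1, X.one_mem, (cj_one _).symm⟩, ?_, fun j hj => ?_⟩,
            (acts_self (L := LS M i) ⟨_, ht.sign, rfl⟩).cj_eq⟩
          · rintro _ ⟨σ, -, rfl⟩
            rw [sl_fix, sl_fix, k3]
          · rintro _ ⟨σ, -, rfl⟩ _ ⟨σ', -, rfl⟩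
            exact sl_comm (show j ≠ i from fun e => hi (e ▸ hj)) σ σ'
    refine k1.trans (Eq.subst (motive := fun z => _ ≡ z [MOD 3]) ?_ (Nat.ModEq.refl _))
    split_ifs with k3
    · rw [← Set.ncard_insert_of_notMem (a := LS M i) fun k4 => not_cm h.h5 i (k4.2.2 i (by simp))]
      congr 1
      ext L
      simp only [Set.mem_ofPred_eq, k2, k3, true_and, Set.mem_insert_iff, or_comm]
    · congr 1
      ext L
      simp only [Set.mem_ofPred_eq, k2, k3, false_and, or_false]
  have hcount : ∀ f f', (T ∅ f f').ncard ≡ agree f f' [MOD 3] := fun f f' => by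
    have k1 : ∀ s : Finset ι, (T ∅ f f').ncard ≡
        (T s f f').ncard + (s.filter fun i => f i = f' i).card [MOD 3] := fun s => by
      induction s using Finset.induction_on with
      | empty => simp [Nat.ModEq]
      | insert i s hi ih =>
        have := hstep f f' s i hi
        rw [Finset.card_filter, Finset.sum_insert hi, ← Finset.card_filter]
        unfold Nat.ModEq at *
        omega
    have k2 : T Finset.univ f f' = ∅ := Set.eq_empty_of_forall_notMem (by
      rintro _ ⟨⟨j, g, -, rfl⟩, -, k2⟩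
      obtain ⟨b, hb, -⟩ := ex4 h.h5 (f j) (f j) (f j) (f j)
      obtain ⟨u, c, d, k3, -⟩ := exists_fix_move h.h5 hb
      refine conj_ne (g := g) (d := sl j u) (fun e => k3.three.ne_one (sl_inj j (by simpa using e)))
        (eq_one_of_comm h.h5 fun i v _ _ _ k4 => (k2 i (by simp) _ ⟨v, k4.sign, rfl⟩ _
          (conj_mem_cj ⟨u, k3.sign, rfl⟩)).symm))
    simpa [k2, agree] using k1 Finset.univ
  have hle : ∀ x ∈ X, ∀ f f', (T ∅ f f').ncard ≤ (T ∅ (x f) (x f')).ncard := fun x hx f f' =>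
    Set.ncard_le_ncard_of_injOn (cj x) (fun L hL => ⟨hΩ L hL.1 x hx, hrel L x f f' hL.2.1, by simp⟩)
      fun L _ L' _ e => by simpa [← cj_mul, cj_one] using congrArg (cj x⁻¹) e
  intro x hx
  refine mem_Ham_of_modEq h.h5 fun f g => (hcount _ _).symm.trans (Eq.subst
    (motive := fun z => z ≡ _ [MOD 3]) (le_antisymm (hle x hx f g) ?_) (hcount f g))
  simpa using hle _ (X.inv_mem hx) (x f) (x g)

theorem sl_mem_alt (i : ι) {σ : Perm M} (h : sign σ = 1) : sign (sl i σ) = 1 := by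
  rw [← tr_kl, show tr i (kl σ) = (Equiv.funSplitAt i M).symm.permCongr (kl σ) from rfl,
    sign_permCongr, kl_eq_fib, show fib (fun _ => σ) = Equiv.prodCongrLeft fun _ => σ from rfl,
    sign_prodCongrLeft]
  simp [h]

theorem Hy.exists_slot {G : Subgroup (Perm (ι → M))} (h : Hy G)
    (hT : ∀ X : Subgroup (Perm (ι → M)), Hy X → X ≤ Ham ι M ∨ alternatingGroup _ ≤ X)
    {P : Subgroup (Perm (ι → M))} (hP : P ≠ ⊥) (hn : ∀ π ∈ G, ∀ α ∈ P, π * α * π⁻¹ ∈ P) :
    ∃ j, ∀ σ : Perm M, sign σ = 1 → sl j σ ∈ P := by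
  obtain ⟨⟨α, hα⟩, h0⟩ := Subgroup.ne_bot_iff_exists_ne_one.1 hP
  have h0' : α ≠ 1 := fun e => h0 (Subtype.ext e)
  obtain ⟨j, u, a, b, c, k1, k2⟩ : ∃ j u a b c, C3 u a b c ∧ α * sl j u ≠ sl j u * α := by
    by_contra! k
    exact h0' (eq_one_of_comm h.h5 k)
  have hN : G ≤ Subgroup.normalizer P := fun π hπ => Subgroup.mem_normalizer_iff.2 fun α =>
    ⟨hn π hπ α, fun k => by simpa [mul_assoc] using hn _ (G.inv_mem hπ) _ k⟩
  refine ⟨j, fun σ hσ => ?_⟩
  rcases hT _ (h.mono hN) with k | k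
  · obtain ⟨π, τ, rfl⟩ := exists_wr h.h5 (k (Subgroup.le_normalizer hα))
    have k3 : sl (π j) (τ (π j) * u * (τ (π j))⁻¹) * sl j u⁻¹ ∈ P := by
      rw [← wr_conj_sl]
      simpa [mul_assoc] using P.mul_mem hα (hn _ (h.hL j u k1.sign) _ (P.inv_mem hα))
    have k4 : ∀ g : Perm M, sign g = 1 → ∀ x ∈ P.comap (sl j), g * x * g⁻¹ ∈ P.comap (sl j) :=
      fun g hg x hx => by simpa using hn _ (h.hL j g hg) _ hx
    by_cases k5 : π j = j
    · rw [k5, ← map_mul] at k3
      refine mem_of_normal h.h5 k4 k3 (fun e => k2 ?_) hσ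
      rw [← mul_inv_eq_iff_eq_mul, wr_conj_sl, k5, mul_inv_eq_one.1 e]
    · obtain ⟨v, a', b', c', k6, k7⟩ := exists_not_comm h.h5 k1.three.ne_one
      refine mem_of_normal h.h5 k4 (x := u * (v * u⁻¹ * v⁻¹)) ?_ (fun e => k7 ?_) hσ
      · have k8 := P.mul_mem (P.inv_mem k3) (hn _ (h.hL j v k6.sign) _ k3)
        have k9 := sl_comm k5 (τ (π j) * u * (τ (π j))⁻¹) v
        generalize sl (π j) (τ (π j) * u * (τ (π j))⁻¹) = y at k8 k9
        change sl j _ ∈ P
        convert k8 using 1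
        simp only [map_mul, map_inv]
        rw [← mul_assoc (sl j v), ← k9]
        group
      · calc u * v = u * (v * u⁻¹ * v⁻¹) * (v * u) := by group
          _ = _ := by rw [e, one_mul]
  · refine mem_of_normal (le_trans h.h5 ?_) (fun g hg x hx =>
      (Subgroup.mem_normalizer_iff.1 (k hg) x).1 hx) hα h0' (sl_mem_alt j hσ)
    exact Fintype.card_le_of_injective (fun p _ => p) fun p q e => congrFun e j

theorem main (n : ℕ) : ∀ (ι : Type) [Fintype ι] [DecidableEq ι], Fintype.card ι = n →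
    ∀ X : Subgroup (Perm (ι → M)), Hy X → X ≤ Ham ι M ∨ alternatingGroup _ ≤ X := by
  induction n using Nat.strong_induction_on with
  | _ n ih =>
  intro ι _ _ hn X h
  refine or_iff_not_imp_right.2 fun hA => ?_
  rcases subsingleton_or_nontrivial ι with hι | hι
  · have key : ∀ f g : ι → M, agree f g = if f = g then Fintype.card ι else 0 := fun f g => by
      split_ifs with e
      · rw [e, agree_self]
      · obtain ⟨i, hi⟩ := Function.ne_iff.1 e
        simpa [agree] using fun j => Subsingleton.elim i j ▸ hi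
    exact fun x _ f g => by simp [key]
  refine h.le_Ham fun i => ⟨h.sl0 hA i, fun P hP hP' => ?_, fun h5 => ?_⟩
  · obtain ⟨j, hj⟩ := (h.gr i).exists_slot (ih _ (by
      rw [← hn]; exact Fintype.card_subtype_lt (x := i) (by simp)) _ rfl) hP hP'
    obtain ⟨a⟩ : Nonempty M := Fintype.card_pos_iff.1 (by have := h.h5; omega)
    obtain ⟨b, hb, -⟩ := ex4 h.h5 a a a a
    obtain ⟨u, c, d, k1, -⟩ := exists_fix_move h.h5 hb
    obtain ⟨v, a', b', c', k2, k3⟩ := exists_not_comm h.h5 k1.three.ne_one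
    refine ⟨_, hj u k1.sign, _, hj v k2.sign, fun g hg => k3 ?_⟩
    rw [← map_inv, ← map_inv, ← map_mul, ← map_mul, ← map_mul] at hg
    rw [← mul_inv_eq_iff_eq_mul, ← mul_inv_eq_one]
    generalize u * v * u⁻¹ * v⁻¹ = κ at hg ⊢
    obtain ⟨x, hx⟩ := (tr j.1).surjective (tr i (hyp (Pi.mulSingle g (sl j κ))))
    have k4 : ∀ f l, l ≠ j.1 → tr j.1 x f l = f l := fun f l hl => by
      rw [hx]
      by_cases e : l = i
      · rw [e, tr_self]; rfl
      rw [tr_ne _ _ _ e]
      by_cases e' : f i = g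
      · simp [e', sl_ne (show (⟨l, e⟩ : {j // j ≠ i}) ≠ j from fun k => hl (k ▸ rfl))]
      · simp [e']
    obtain ⟨σ, rfl⟩ := (h.sl0 hA j.1).eq_kl (x := x) (show tr j.1 x ∈ X from hx ▸ hg) fun q => by
      obtain ⟨f, rfl⟩ := (Equiv.funSplitAt j.1 M).surjective q
      exact funext fun l => (tr_ne j.1 x f l.2).symm.trans (k4 f l l.2)
    rw [tr_kl] at hx
    have k5 : ∀ p g', σ p = if g' = g then κ p else p := fun p g' => by
      have := congrFun (Equiv.congr_fun hx (Function.update (fun _ => p) i g')) j.1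
      rw [sl_self, tr_ne _ _ _ j.2, Function.update_of_ne j.2] at this
      rw [this]
      split_ifs with e <;> simp [e, j.2]
    obtain ⟨g', hg', -⟩ := ex4 h.h5 g g g g
    exact Equiv.ext fun p => by simpa [hg'] using (k5 p g).symm.trans (k5 p g')
  · obtain ⟨j, hj⟩ := exists_ne i
    rw [Fintype.card_fun, h5]
    exact dvd_pow_self 5 (Fintype.card_pos_iff.2 ⟨⟨j, hj⟩⟩).ne'

theorem mem_Ham_iff (h5 : 5 ≤ Fintype.card M) {x : Perm (ι → M)} : x ∈ Ham ι M ↔
    ∃ (π : Perm ι) (τ : ι → Perm M), ∀ f i, x f i = τ i (f (π.symm i)) :=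
  ⟨fun h => by obtain ⟨π, τ, rfl⟩ := exists_wr h5 h; exact ⟨π, τ, fun _ _ => rfl⟩,
    fun ⟨π, τ, h⟩ => (show x = wr π τ from Equiv.ext fun f => funext (h f)) ▸ wr_mem π τ⟩

theorem sl_mem_Ham (i : ι) (σ : Perm M) : sl i σ ∈ Ham ι M := wr_mem 1 _

theorem not_alt_le (h5 : 5 ≤ Fintype.card M) [Nontrivial ι] : ¬ alternatingGroup _ ≤ Ham ι M := by
  intro h
  obtain ⟨a⟩ : Nonempty M := Fintype.card_pos_iff.1 (by omega)
  obtain ⟨b, hb, -⟩ := ex4 h5 a a a a
  obtain ⟨i⟩ : Nonempty ι := inferInstance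
  obtain ⟨x, k1, k2, k3⟩ := exists_two (M := ι → M) (le_trans h5
    (Fintype.card_le_of_injective (fun p _ => p) fun p q e => congrFun e i))
    (a := fun _ => a) (b := Function.update (fun _ => a) i b) (c := fun _ => a) (d := fun _ => b)
    (fun e => hb (by simpa using (congrFun e i).symm)) fun e => hb (congrFun e i).symm
  have k4 := h k1 (fun _ => a) (Function.update (fun _ => a) i b)
  have k5 := agree_update (fun _ : ι => a) (fun _ => a) i b
  rw [← k4, k2, k3, agree_self] at k5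
  have := Fintype.one_lt_card (α := ι)
  simp [agree, hb.symm] at k5
  omega

theorem sign_sl (i : ι) (σ : Perm M) :
    sign (sl i σ) = sign σ ^ Fintype.card M ^ (Fintype.card ι - 1) := by
  rw [← tr_kl, show tr i (kl σ) = (Equiv.funSplitAt i M).symm.permCongr (kl σ) from rfl,
    sign_permCongr, kl_eq_fib, show fib (fun _ => σ) = Equiv.prodCongrLeft fun _ => σ from rfl,
    sign_prodCongrLeft]
  simp

theorem sign_wr_swap {i j : ι} (h : i ≠ j) : sign (wr (swap i j) (1 : ι → Perm M)) =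
    (-1) ^ ((Fintype.card M ^ Fintype.card ι - Fintype.card M ^ (Fintype.card ι - 1)) / 2) := by
  rw [sign_of_pow_two_eq_one (Equiv.ext fun f => funext fun l => by simp [sq]), Fintype.card_fun]
  congr 3
  have : Fintype.card ι - 1 = Fintype.card {l // l ≠ j} := by simp
  rw [this, ← Fintype.card_fun]
  refine Fintype.card_of_bijective (f := fun f l => f.1 l.1) ⟨fun f g e => Subtype.ext (funext
    fun l => ?_), fun g => ⟨⟨fun l => if k : l = j then g ⟨i, h⟩ else g ⟨l, k⟩, funext fun l => ?_⟩,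
      funext fun l => by simp [l.2]⟩⟩
  · by_cases k : l = j
    · have k1 := congrFun f.2 j
      have k2 := congrFun g.2 j
      simp only [wr_apply, symm_swap, swap_apply_right, Pi.one_apply, one_apply] at k1 k2
      rw [k, ← k1, ← k2]
      exact congrFun e ⟨i, h⟩
    · exact congrFun e ⟨l, k⟩
  · by_cases k : l = j
    · simp [k, h]
    by_cases k' : l = i
    · simp [k', h]
    · simp [swap_apply_of_ne_of_ne k' k]

theorem hy_Ham (h5 : 5 ≤ Fintype.card M) : Hy (Ham ι M) :=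
  ⟨h5, fun i σ _ => sl_mem_Ham i σ, fun _ _ _ => ⟨1, wr_mem _ _⟩⟩

theorem hy_Ham_alt (h5 : 5 ≤ Fintype.card M)
    (h : ¬ (Fintype.card ι = 2 ∧ Fintype.card M % 4 = 2)) : Hy (Ham ι M ⊓ alternatingGroup _) := by
  refine ⟨h5, fun i σ hσ => ⟨sl_mem_Ham i σ, sl_mem_alt i hσ⟩, fun i j hij => ?_⟩
  rcases Int.units_eq_one_or (sign (wr (swap i j) (1 : ι → Perm M))) with k | k
  · exact ⟨1, wr_mem _ _, k⟩
  obtain ⟨a⟩ : Nonempty M := Fintype.card_pos_iff.1 (by omega)
  obtain ⟨b, hb, -⟩ := ex4 h5 a a a a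
  have h2 : 2 ≤ Fintype.card ι := Fintype.one_lt_card_iff.2 ⟨i, j, hij⟩
  rcases Nat.even_or_odd (Fintype.card M) with ⟨r, hr⟩ | hm
  · exfalso
    rw [sign_wr_swap hij, Even.neg_one_pow] at k
    · exact absurd k (by decide)
    obtain ⟨n, hn⟩ := Nat.exists_eq_add_of_le' h2
    have k1 : 4 ∣ Fintype.card M ^ (n + 1) := by
      rcases n with _ | n
      · rw [zero_add, pow_one]; omega
      · exact ⟨r * r * Fintype.card M ^ n, by rw [hr]; ring⟩
    have k2 : 4 ∣ Fintype.card M ^ (n + 2) := k1.trans (pow_dvd_pow _ (by omega))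
    rw [hn, show n + 2 - 1 = n + 1 from rfl, Nat.even_iff]
    omega
  · refine ⟨Pi.mulSingle i (swap a b), wr_mem _ _, ?_⟩
    rw [show wr (swap i j) (Pi.mulSingle i (swap a b)) = sl i (swap a b) * wr (swap i j) 1 from rfl]
    change sign _ = 1
    rw [map_mul, k, sign_sl, sign_swap hb.symm, (hm.pow).neg_one_pow]
    simp

theorem coatom_alt (h5 : 5 ≤ Fintype.card M) [Nontrivial ι]
    (h : ¬ (Fintype.card ι = 2 ∧ Fintype.card M % 4 = 2)) :
    IsCoatom ((Ham ι M).subgroupOf (alternatingGroup _)) := by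
  refine ⟨fun e => not_alt_le h5 (Subgroup.subgroupOf_eq_top.1 e), fun Y hY => ?_⟩
  rcases main _ ι rfl (Y.map (alternatingGroup _).subtype) ((hy_Ham_alt h5 h).mono
    fun x hx => ⟨⟨x, hx.2⟩, hY.le hx.1, rfl⟩) with k | k
  · exact absurd (fun y hy => k ⟨y, hy, rfl⟩) hY.not_ge
  · refine eq_top_iff.2 fun y _ => ?_
    obtain ⟨z, hz, e⟩ := k y.2
    rwa [← show z = y from Subtype.ext e]

theorem coatom_perm (h5 : 5 ≤ Fintype.card M) [Nontrivial ι] {σ : Perm (ι → M)}
    (h1 : sign σ = -1) (h2 : σ ∈ Ham ι M) : IsCoatom (Ham ι M) := by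
  refine ⟨fun e => not_alt_le (ι := ι) h5 (e ▸ le_top), fun Y hY => ?_⟩
  rcases main _ ι rfl Y ((hy_Ham h5).mono hY.le) with k | k
  · exact absurd k hY.not_ge
  refine eq_top_iff.2 fun y _ => ?_
  rcases Int.units_eq_one_or (sign y) with e | e
  · exact k e
  · simpa using Y.mul_mem (k (show sign (y * σ⁻¹) = 1 by simp [e, h1])) (hY.le h2)

end Cfsg.Agent.H9.PW
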