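import Cfsg.Agent.H9.Psl2B
import Cfsg.Agent.H9.Binary

/-! Binary actions of `PSL₂(q)`. -/

set_option autoImplicit false
set_option linter.unusedSectionVars false
set_option linter.unusedSimpArgs false

namespace Cfsg.Agent.H9.P2

open Matrix MulAction
open scoped MatrixGroups Pointwise

variable {F : Type*} [Field F] [Finite F] {Ω : Type*} [MulAction PSL(2, F) Ω]

/-- the preimage of a point stabiliser -/
def St (x : Ω) : Subgroup SL(2, F) := (stabilizer PSL(2, F) x).comap pr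

theorem mem_St {x : Ω} {X : SL(2, F)} : X ∈ St x ↔ pr X • x = x := Iff.rfl

theorem mem_St_smul {x : Ω} {c X : SL(2, F)} : X ∈ St (pr c • x) ↔ c⁻¹ * X * c ∈ St x := by
  rw [mem_St, mem_St, map_mul, map_mul, map_inv, mul_smul, mul_smul, inv_smul_eq_iff]

theorem conj_mem_St {x : Ω} (c : SL(2, F)) {X : SL(2, F)} (h : X ∈ St x) : c * X * c⁻¹ ∈ St (pr c • x) :=
  mem_St_smul.2 (by simpa [mul_assoc] using h)

theorem neg_mem_St {x : Ω} {X : SL(2, F)} (h : X ∈ St x) : -X ∈ St x := by rwa [mem_St, pr_neg]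

theorem triple' (hb : Bin PSL(2, F) Ω) {x y z : Ω} {a b : SL(2, F)} (ha : a ∈ St x) (hb' : b ∈ St y)
    (hz : b⁻¹ * a ∈ St z) : ∃ g, g ∈ St x ∧ g ∈ St y ∧ a⁻¹ * g ∈ St z := by
  rw [mem_St, map_mul, map_inv, mul_smul, inv_smul_eq_iff] at hz
  obtain ⟨g, g1, g2, g3⟩ := hb.triple ha hb' hz
  obtain ⟨g, rfl⟩ := pr_surj g
  exact ⟨g, g1, g2, by rw [mem_St, map_mul, map_inv, mul_smul, g3, inv_smul_smul]⟩

/-! ### stabilisers of odd order -/

section odd
variable (hb : Bin PSL(2, F) Ω) (hno : ∀ (x : Ω), ∀ X ∈ (St x : Subgroup SL(2, F)), tr X = 0 → X = 1)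
include hb hno

theorem central_of_tr {x : Ω} {X : SL(2, F)} (hX : X ∈ St x) (h : tr X ^ 2 = 4) : X = 1 ∨ X = -1 := by
  by_cases h2 : (2 : F) = 0
  · exact Or.inl (hno x X hX (sq_eq_zero_iff.1 (by linear_combination h + 2 * h2)))
  have key : ∀ X ∈ (St x : Subgroup SL(2, F)), tr X = 2 → X = 1 := fun X hX h => by
    by_contra h1
    obtain ⟨c, s, hs, rfl⟩ := exists_conj_u' h h1
    have ha : u s ∈ St (pr c⁻¹ • x) := by rwa [mem_St_smul, inv_inv]
    generalize pr c⁻¹ • x = y at ha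
    have ha' : u (-s) ∈ St y := by
      convert inv_mem ha using 1
      simp only [ents]; simp
    let n : SL(2, F) := m2 0 (-(s / 2)) (2 / s) 0 (by field_simp; ring)
    have hb' : l (4 / s) ∈ St (pr n • y) := by
      convert conj_mem_St n ha' using 1
      simp only [n, ents]
      refine ⟨?_, ?_, ?_, ?_⟩ <;> field_simp <;> ring
    obtain ⟨d, hd⟩ := exists_conj_u (X := -((l (4 / s))⁻¹ * u s)) (by simp only [ents]; field_simp; ring)
      (by simp only [ents]; simpa using hs)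
    have hz : (l (4 / s))⁻¹ * u s ∈ St (pr d • y) := by
      rw [← neg_neg (_ * _), hd]
      refine neg_mem_St (conj_mem_St d ?_)
      convert ha' using 2
      simp only [ents]; ring
    obtain ⟨g, g1, g2, g3⟩ := triple' hb ha hb' hz
    have k1 := dc_of_noInv (hno _) ha g1
    have k2 := dc_of_noInv (hno _) hb' g2
    have k3 := dc_of_noInv (hno _) hz g3
    have k4 := det_eq g
    rw [dc_eq] at k1 k2 k3
    simp only [ents] at k1 k2 k3
    have k5 : g 1 0 = 0 := (mul_eq_zero.1 (sq_eq_zero_iff.1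
      (show (s * g 1 0) ^ 2 = 0 by linear_combination -k1))).resolve_left hs
    have k6 : g 0 1 = 0 := (mul_eq_zero.1 (sq_eq_zero_iff.1
      (show (4 / s * g 0 1) ^ 2 = 0 by linear_combination -k2))).resolve_left (div_ne_zero (four_ne_zero' h2) hs)
    have k7 : tr g = 0 := by
      have : (4 * tr g ^ 2) = 0 := by
        rw [k5, k6] at k3
        field_simp at k3
        simp only [ents]
        apply mul_left_cancel₀ (pow_ne_zero 2 hs)
        linear_combination -k3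
      exact sq_eq_zero_iff.1 ((mul_eq_zero.1 this).resolve_left (four_ne_zero' h2))
    rw [hno _ g g1 k7, tr_one] at k7
    exact h2 k7
  rcases mul_self_eq_mul_self_iff.1 (show tr X * tr X = 2 * 2 by linear_combination h) with h | h
  · exact Or.inl (key X hX h)
  · exact Or.inr (neg_eq_iff_eq_neg.1 (key _ (neg_mem_St hX) (by rw [tr_neg, h, neg_neg])))

theorem comm_of_mem {x : Ω} {X Y : SL(2, F)} (hX : X ∈ St x) (hY : Y ∈ St x) : X * Y = Y * X := by
  have h1 := tr_comm X Y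
  rw [dc_of_noInv (hno x) hX hY, sub_zero] at h1
  have h2 : X * Y * X⁻¹ * Y⁻¹ = 1 := by
    rcases central_of_tr hb hno (mul_mem (mul_mem (mul_mem hX hY) (inv_mem hX)) (inv_mem hY))
      (by rw [h1]; norm_num) with h | h
    · exact h
    · rw [h, tr_neg, tr_one] at h1
      by_cases h2 : (2 : F) = 0
      · rw [h, neg_eq_self h2]
      · exact absurd (by linear_combination -h1) (four_ne_zero' h2)
  rwa [mul_inv_eq_one, mul_inv_eq_iff_eq_mul] at h2

theorem comm_of_triple' {x y z : Ω} {a b : SL(2, F)} (ha : a ∈ St x) (hb' : b ∈ St y) (hz : b⁻¹ * a ∈ St z) :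
    a * b = b * a := by
  obtain ⟨g, g1, g2, g3⟩ := triple' hb ha hb' hz
  by_cases hg : g = 1 ∨ g = -1
  · have h1 : a ∈ St z := by
      rcases hg with rfl | rfl
      · simpa using g3
      · simpa using neg_mem_St g3
    exact comm_of_mem hb hno h1 (by simpa using mul_mem h1 (inv_mem hz))
  · exact comm_trans hg (comm_of_mem hb hno ha g1) (comm_of_mem hb hno hb' g2)

omit hb hno in
theorem exists_mem_St {x : Ω} {X Y : SL(2, F)} (hX : X ∈ St x) (h : tr X ^ 2 ≠ 4) (h' : tr Y = tr X) :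
    ∃ y : Ω, Y ∈ St y := by
  obtain ⟨c, rfl⟩ := exists_conj_of_tr (Or.inl h) (Or.inl (h' ▸ h)) h'.symm
  exact ⟨_, conj_mem_St c hX⟩

theorem tr_eq_neg_one {x : Ω} {X : SL(2, F)} (hX : X ∈ St x) (h : ¬ (X = 1 ∨ X = -1)) : tr X = -1 := by
  have h4 : tr X ^ 2 ≠ 4 := fun h' => h (central_of_tr hb hno hX h')
  obtain ⟨Y, h1, h2⟩ := exists_triple h4
  obtain ⟨x', hx⟩ := exists_mem_St hX h4 (tr_cmp _)
  obtain ⟨y, hy⟩ := exists_mem_St hX h4 ((tr_inv Y).trans h1)
  obtain ⟨z, hz⟩ := exists_mem_St hX h4 h2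
  have h3 := comm_of_triple' hb hno hx hy (by rwa [inv_inv])
  have h5 := dc_of_comm (show Y * cmp (tr X) = cmp (tr X) * Y from (Commute.inv_right_iff.1 h3).symm)
  rw [dc_tr, h1, h2, tr_cmp] at h5
  have h6 : (tr X - 2) ^ 2 * (tr X + 1) = 0 := by linear_combination h5
  rcases mul_eq_zero.1 h6 with h6 | h6
  · exact absurd (by rw [sub_eq_zero.1 (sq_eq_zero_iff.1 h6)]; norm_num) h4
  · exact eq_neg_of_add_eq_zero_left h6

theorem odd_case {x : Ω} (h : stabilizer PSL(2, F) x ≠ ⊥) :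
    (2 : F) = 0 ∧ (∀ w : F, w * w + w + 1 ≠ 0) ∧ Nat.card (stabilizer PSL(2, F) x) = 3 := by
  obtain ⟨⟨X, hX⟩, hX1⟩ := Subgroup.ne_bot_iff_exists_ne_one.1 h
  obtain ⟨X, rfl⟩ := pr_surj X
  have h1 : ¬ (X = 1 ∨ X = -1) := fun h => hX1 (Subtype.ext (pr_eq_one.2 h))
  have h3 := tr_eq_neg_one hb hno hX h1
  have h2 : (2 : F) = 0 := by
    have := tr_eq_neg_one hb hno (neg_mem_St hX) (by rwa [neg_eq_iff_eq_neg, neg_inj, or_comm])
    rw [tr_neg, h3] at this
    linear_combination this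
  have h5 : ∀ Y ∈ (St x : Subgroup SL(2, F)), Y = 1 ∨ tr Y = -1 := fun Y hY =>
    (eq_or_ne Y 1).imp_right fun h => tr_eq_neg_one hb hno hY (by rw [neg_eq_self h2]; simpa using h)
  refine ⟨h2, fun w hw => ?_, ?_⟩
  · have h4 : tr X ^ 2 ≠ 4 := fun h' => h1 (central_of_tr hb hno hX h')
    have hd : w * (w * w) - 0 * 0 = 1 := by grind
    have hd' : w * w * w - 1 * 0 = 1 := by grind
    obtain ⟨x', hx⟩ := exists_mem_St (Y := m2 _ _ _ _ hd) hX h4 (by rw [h3]; simp only [ents]; grind)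
    obtain ⟨y, hy⟩ := exists_mem_St (Y := m2 _ _ _ _ hd') hX h4 (by rw [h3]; simp only [ents]; grind)
    obtain ⟨z, hz⟩ := exists_mem_St (Y := (m2 _ _ _ _ hd')⁻¹ * m2 _ _ _ _ hd) hX h4
      (by rw [h3]; simp only [ents]; grind)
    have := comm_of_triple' hb hno hx hy hz
    simp only [ents] at this
    grind
  · have h6 : X ≠ X⁻¹ := fun h => by
      have := tr_mul_add X X
      nth_rw 2 [h] at this
      rw [mul_inv_cancel, tr_one, h3] at this
      exact one_ne_zero (α := F) (by linear_combination -this + 2 * h2)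
    refine Set.ncard_eq_three.2 ⟨1, pr X, pr X⁻¹, fun h => h1 (pr_eq_one.1 h.symm), fun h => h1 ?_,
      fun h => h6 (pr_inj h2 h), Set.Subset.antisymm (fun g hg => ?_) ?_⟩
    · rw [map_inv, eq_comm, inv_eq_one] at h
      exact pr_eq_one.1 h
    · obtain ⟨Y, rfl⟩ := pr_surj g
      have hY : Y ∈ St x := hg
      rcases h5 Y hY with rfl | k1
      · exact Or.inl (map_one _)
      rcases h5 _ (mul_mem hY hX) with k2 | k2
      · exact Or.inr (Or.inr (by rw [eq_inv_of_mul_eq_one_left k2]; rfl))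
      rcases h5 _ (mul_mem hY (inv_mem hX)) with k3 | k3
      · exact Or.inr (Or.inl (by rw [mul_inv_eq_one.1 k3]))
      have := tr_mul_add Y X
      rw [k1, k2, k3, h3] at this
      exact absurd (by linear_combination -this - h2) (one_ne_zero (α := F))
    · rintro _ (rfl | rfl | rfl)
      exacts [one_mem _, hX, map_inv pr X ▸ inv_mem hX]

end odd

/-! ### stabilisers of even order -/

theorem fix' [Finite Ω] (hb : Bin PSL(2, F) Ω) {s t : SL(2, F)} (hs : tr s = 0) (ht : tr t = 0) (ht1 : pr t ≠ 1)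
    (hst : pr s * pr t = pr t * pr s) {x : Ω} (hx : t ∈ St x) : s ∈ St x := by
  haveI : Finite SL(2, F) := Subtype.finite
  haveI : Finite PSL(2, F) := Finite.of_surjective _ pr_surj
  by_cases hs1 : pr s = 1
  · rw [mem_St, hs1, one_smul]
  · exact hb.fix one_class hs1 (pr_sq hs) ht1 (pr_sq ht) hst hx

theorem even_odd [Finite Ω] [IsPretransitive PSL(2, F) Ω] (hb : Bin PSL(2, F) Ω) (h2 : (2 : F) ≠ 0)
    (hq : 6 ≤ Nat.card F) {t : SL(2, F)} (ht : tr t = 0) {x : Ω} (hx : t ∈ St x) : stabilizer PSL(2, F) x = ⊤ := by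
  classical
  haveI : Finite SL(2, F) := Subtype.finite
  haveI : Finite PSL(2, F) := Finite.of_surjective _ pr_surj
  haveI := ProjectiveSpecialLinearGroup.rank_two_simple (F := F) (by omega)
  have h1 : ∀ s : SL(2, F), tr s = 0 → pr s ≠ 1 := fun s hs h => by
    rcases pr_eq_one.1 h with rfl | rfl
    · exact h2 (tr_one.symm.trans hs)
    · rw [tr_neg, tr_one, neg_eq_zero] at hs; exact h2 hs
  have h3 : ∀ s v : SL(2, F), tr s = 0 → tr v = 0 → tr (s * v) = 0 → pr s * pr v = pr v * pr s := fun s v a b c => by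
    rw [← map_mul, ← map_mul, ← pr_neg (v * s)]
    congr 1
    simp only [ents] at a b c ⊢
    grind
  let f : SL(2, F) → Set Ω := fun X => fixedBy Ω (pr X)
  let T := (Set.toFinite {X : SL(2, F) | tr X = 0}).toFinset
  have k1 := Finset.mul_card_image_le_card (f := f) T ((Nat.card F - 1) * (Nat.card F - 3) / 2 + 2) fun B hB => by
    obtain ⟨s, hs, rfl⟩ := Finset.mem_image.1 hB
    rw [Set.Finite.mem_toFinset] at hs
    have := card_closed h2 (Φ := ↑(T.filter fun X => f X = f s)) hs (by simpa [T] using hs)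
      (by simpa [T, f, pr_neg, tr_neg] using hs) fun v hv hv0 w hw0 hw => by
        simp only [Finset.coe_filter, Set.mem_ofPred_eq, T, Set.Finite.mem_toFinset] at hv ⊢
        refine ⟨hw0, Eq.trans ?_ hv.2⟩
        ext y
        exact ⟨fix' hb hv0 hw0 (h1 w hw0) (h3 v w hv0 hw0 hw), fix' hb hw0 hv0 (h1 v hv0) (h3 v w hv0 hw0 hw).symm⟩
    rw [Set.ncard_coe_finset] at this
    omega
  have k2 : T.card ≤ _ := (Set.ncard_eq_toFinset_card _).symm.le.trans card_tr_zero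
  have k3 : (T.image f).card ≤ 4 := by
    by_contra! h
    have k := (Nat.mul_le_mul_left _ h).trans (k1.trans k2)
    obtain ⟨n, hn⟩ := Nat.exists_eq_add_of_le hq
    rw [hn, show 6 + n - 1 = n + 5 by omega, show 6 + n - 3 = n + 3 by omega] at k
    have : (n + 5) * (n + 3) < ((n + 5) * (n + 3) / 2 + 1) * 2 := by omega
    nlinarith
  have k4 : stabilizer PSL(2, F) (f t) = ⊤ := by
    refine H2.Zass.eq_top_of_index_le ((commutator PSL(2, F)).normal_of_characteristic.eq_bot_or_eq_top.resolve_left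
      fun h => ?_) _ ?_
    · have := (commutator_eq_bot_iff _).1 h
      have h4 := pr_eq_one.1 (show pr (u 1 * l 1 * (u 1)⁻¹ * (l 1)⁻¹ : SL(2, F)) = 1 by
        simp only [map_mul, map_inv, mul_comm' (pr (u (1 : F)))]; group)
      simp only [ents] at h4
      grind
    · rw [index_stabilizer]
      refine (Set.ncard_le_ncard (t := ↑(T.image f)) ?_).trans (by rwa [Set.ncard_coe_finset])
      rintro _ ⟨g, rfl⟩
      obtain ⟨c, rfl⟩ := pr_surj g
      exact Finset.mem_coe.2 (Finset.mem_image.2 ⟨c * t * c⁻¹, by simpa [T, tr_conj] using ht, by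
        simp only [f, map_mul, map_inv, smul_fixedBy]⟩)
  have k5 : pr t ∈ (toPermHom PSL(2, F) Ω).ker := Equiv.ext fun y => by
    obtain ⟨g, rfl⟩ := exists_smul_eq PSL(2, F) x y
    have : g • f t = f t := (k4 ▸ Subgroup.mem_top g : g ∈ stabilizer PSL(2, F) (f t))
    exact (this ▸ Set.smul_mem_smul_set hx : g • x ∈ f t)
  rcases (inferInstance : (toPermHom PSL(2, F) Ω).ker.Normal).eq_bot_or_eq_top with h | h
  · exact absurd (Subgroup.mem_bot.1 (h ▸ k5)) (h1 t ht)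
  · exact (Subgroup.eq_top_iff' _).2 fun g => Equiv.ext_iff.1 (h ▸ Subgroup.mem_top g : g ∈ (toPermHom _ Ω).ker) x

theorem tr_of_pow (h2 : (2 : F) = 0) (k : ℕ) (X : SL(2, F)) : tr (X ^ 2 ^ k) = tr X ^ 2 ^ k := by
  induction k with
  | zero => simp
  | succ k ih =>
    have := tr_mul_add (X ^ 2 ^ k) (X ^ 2 ^ k)
    rw [mul_inv_cancel, tr_one, h2, add_zero] at this
    rw [pow_succ, pow_mul, pow_mul, sq, this, ih, sq]

theorem tr_of_isPGroup (h2 : (2 : F) = 0) {Q : Subgroup PSL(2, F)} (hQ : IsPGroup 2 Q) {X : SL(2, F)}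
    (hX : pr X ∈ Q) : tr X = 0 := by
  obtain ⟨k, hk⟩ := hQ ⟨_, hX⟩
  have h1 : X ^ 2 ^ k = 1 := pr_inj h2 (by rw [map_pow, map_one]; exact congrArg Subtype.val hk)
  have := tr_of_pow h2 k X
  rw [h1, tr_one, h2] at this
  exact pow_eq_zero_iff (by positivity) |>.1 this.symm

theorem isPGroup_of_tr {Q : Subgroup PSL(2, F)} (h : ∀ X : SL(2, F), pr X ∈ Q → tr X = 0) : IsPGroup 2 Q := by
  rintro ⟨g, hg⟩
  obtain ⟨X, rfl⟩ := pr_surj g
  exact ⟨1, Subtype.ext (by simpa [sq] using pr_sq (h X hg))⟩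

theorem eq_top_of_u {A : Subgroup SL(2, F)} (hu : ∀ b, u b ∈ A) {g : SL(2, F)} (hg : g ∈ A) (h : g 1 0 ≠ 0)
    (X : SL(2, F)) : X ∈ A := by
  have hl : ∀ c, l c ∈ A := fun c => by
    have hd := det_eq g
    have : l c = u (-(g 0 0 / g 1 0)) * (g * u (-(c / g 1 0 ^ 2)) * g⁻¹) * (u (-(g 0 0 / g 1 0)))⁻¹ := by
      simp only [ents]
      refine ⟨?_, ?_, ?_, ?_⟩ <;> field_simp <;> grind
    rw [this]
    exact mul_mem (mul_mem (hu _) (mul_mem (mul_mem hg (hu _)) (inv_mem hg))) (inv_mem (hu _))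
  have key : ∀ X : SL(2, F), X 1 0 ≠ 0 → X ∈ A := fun X hX => by
    have hd := det_eq X
    have : X = u ((X 0 0 - 1) / X 1 0) * l (X 1 0) * u ((X 1 1 - 1) / X 1 0) := by
      simp only [ents]
      refine ⟨?_, ?_, ?_, ?_⟩ <;> field_simp <;> grind
    rw [this]
    exact mul_mem (mul_mem (hu _) (hl _)) (hu _)
  by_cases hX : X 1 0 = 0
  · have hd := det_eq X
    exact (A.mul_mem_cancel_left (hl 1)).1 (key _ (by simp only [ents]; grind))
  · exact key X hX

theorem diag_eq_one (hb : Bin PSL(2, F) Ω) (h2 : (2 : F) = 0) {x : Ω} (hu : ∀ b : F, u b ∈ St x)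
    (hB : ∀ g ∈ (St x : Subgroup SL(2, F)), g 1 0 = 0) {g : SL(2, F)} (hg : g ∈ St x) : g 0 0 = 1 := by
  by_contra hk
  have hd := det_eq g
  have h0 := hB g hg
  have hk0 : g 0 0 ≠ 0 := by grind
  have hk1 : g 0 0 + 1 ≠ 0 := by grind
  have key : ∀ X : SL(2, F), X 1 0 = 0 → X 0 0 = 1 ∨ X 0 0 = g 0 0 ∨ X 0 0 = g 1 1 → X ∈ St x := by
    have h1 : ∀ X : SL(2, F), X 1 0 = 0 → X 0 0 = 1 → X ∈ St x := fun X a b => by
      have := det_eq X
      convert hu (X 0 1) using 1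
      simp only [ents]; grind
    rintro X a (b | b | b)
    · exact h1 X a b
    · exact (Subgroup.mul_mem_cancel_left _ (inv_mem hg)).1 (h1 _ (by simp only [ents]; grind)
        (by simp only [ents]; grind))
    · exact (Subgroup.mul_mem_cancel_left _ hg).1 (h1 _ (by simp only [ents]; grind) (by simp only [ents]; grind))
  generalize g 0 0 = k at *
  generalize g 1 1 = m at *
  have hkm : k * m = 1 := by grind
  obtain ⟨a, ha⟩ : ∃ a, (k + 1) * a = 1 := ⟨_, mul_inv_cancel₀ hk1⟩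
  have act : ∀ {X Y Z : SL(2, F)}, Z⁻¹ * (X * Y) ∈ St x → pr X • pr Y • x = pr Z • x := fun h => by
    rwa [mem_St, map_mul, map_mul, map_inv, mul_smul, mul_smul, inv_smul_eq_iff] at h
  obtain ⟨c, c1, c2, c3, c4⟩ := hb.quadruple (x := x) (y := pr (cmp (0 : F)) • x) (z := pr (u (1 : F) * cmp 0) • x)
    (w := pr (u a * cmp 0) • x) (a := pr (u (k * a + a)))
    (b := pr (cmp 0 * m2 m ((1 + m) * (k + 1)) 0 k (by grind) * (cmp 0)⁻¹))
    (c := pr (u 1 * cmp 0 * m2 k (k + m) 0 m (by grind) * (u 1 * cmp 0)⁻¹)) (hu _)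
    (conj_mem_St _ (key _ rfl (Or.inr (Or.inr rfl)))) (conj_mem_St _ (key _ rfl (Or.inr (Or.inl rfl))))
    (by
      rw [← mul_smul (pr (u _)), ← map_mul]
      exact act (key _ (by simp only [ents]; grind) (Or.inl (by simp only [ents]; grind))))
    (by
      rw [← mul_smul (pr (u _)), ← map_mul]
      exact act (key _ (by simp only [ents]; grind) (Or.inl (by simp only [ents]; grind))))
  obtain ⟨c, rfl⟩ := pr_surj c
  have d1 := hB c c1
  have d2 := hB _ (mem_St_smul.1 c2)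
  have d3 := hB _ (mem_St_smul.1 c3)
  have d4 := det_eq c
  have d5 : c = 1 := by
    simp only [ents] at d2 d3 ⊢
    have : (c 0 0 - 1) ^ 2 = 0 := by grind
    rw [sq_eq_zero_iff] at this
    grind
  rw [d5, map_one, one_smul] at c4
  have d6 := hB _ (mem_St_smul.1 c4.symm)
  simp only [ents] at d6
  grind

theorem even_even [Finite Ω] (hb : Bin PSL(2, F) Ω) (h2 : (2 : F) = 0) {t : SL(2, F)} (ht : tr t = 0) (ht1 : t ≠ 1)
    {x : Ω} (hx : t ∈ St x) (h : stabilizer PSL(2, F) x ≠ ⊤) :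
    ∃ P : Sylow 2 PSL(2, F), stabilizer PSL(2, F) x = P := by
  obtain ⟨c, s, hs, rfl⟩ := exists_conj_u' (ht.trans h2.symm) ht1
  obtain ⟨y, rfl⟩ : ∃ y, x = pr c • y := ⟨(pr c)⁻¹ • x, by simp⟩
  have hy : u s ∈ St y := by simpa [mem_St_smul, mul_assoc] using hx
  have hu : ∀ b : F, u b ∈ St y := fun b => fix' hb (by simp only [ents]; grind) (by simp only [ents]; grind)
    (fun h => hs (by have := pr_inj h2 (h.trans (map_one _).symm); simp only [ents] at this; exact this.2.1))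
    (by rw [← map_mul, ← map_mul]; congr 1; simp only [ents]; grind) hy
  have hB : ∀ g ∈ (St y : Subgroup SL(2, F)), g 1 0 = 0 := fun g hg => by
    by_contra h0
    refine h ((Subgroup.eq_top_iff' _).2 fun X => ?_)
    obtain ⟨X, rfl⟩ := pr_surj X
    exact mem_St_smul.2 (eq_top_of_u hu hg h0 _)
  refine ⟨MulAut.conj (pr c) • (⟨stabilizer _ y, isPGroup_of_tr fun X hX => ?_, fun {Q} hQ hle => ?_⟩ : Sylow 2 _),
    ?_⟩
  · have h1 := det_eq X
    have h3 := diag_eq_one hb h2 hu hB hX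
    have h4 := hB X hX
    simp only [ents]
    grind
  · refine le_antisymm (fun X hX => ?_) hle
    obtain ⟨X, rfl⟩ := pr_surj X
    have h1 := tr_of_isPGroup h2 hQ hX
    have h3 := tr_of_isPGroup h2 hQ (X := X * u 1) (by rw [map_mul]; exact mul_mem hX (hle (hu 1)))
    have h4 := det_eq X
    have h5 : X = u (X 0 1) := by
      simp only [ents] at h1 h3 ⊢
      have : (X 0 0 - 1) ^ 2 = 0 := by grind
      rw [sq_eq_zero_iff] at this
      grind
    exact h5 ▸ hu _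
  · rw [stabilizer_smul_eq_stabilizer_map_conj]
    rfl

theorem stabilizer_of_bin [Finite Ω] [IsPretransitive PSL(2, F) Ω] (hb : Bin PSL(2, F) Ω) (h4 : 4 ≤ Nat.card F)
    (h5 : Nat.card F ≠ 5) {x : Ω} (h : stabilizer PSL(2, F) x ≠ ⊤) : stabilizer PSL(2, F) x = ⊥ ∨
      ((2 : F) = 0 ∧ ∃ P : Sylow 2 PSL(2, F), stabilizer PSL(2, F) x = P) ∨
      ((2 : F) = 0 ∧ (∀ w : F, w * w + w + 1 ≠ 0) ∧ Nat.card (stabilizer PSL(2, F) x) = 3) := by
  by_cases hno : ∀ (x : Ω), ∀ X ∈ (St x : Subgroup SL(2, F)), tr X = 0 → X = 1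
  · exact (eq_or_ne _ _).imp_right fun h => Or.inr (odd_case hb hno h)
  push Not at hno
  obtain ⟨y, t, hy, ht, ht1⟩ := hno
  obtain ⟨c, rfl⟩ := exists_smul_eq PSL(2, F) y x
  obtain ⟨c, rfl⟩ := pr_surj c
  have ht' := (tr_conj c t).trans ht
  by_cases h2 : (2 : F) = 0
  · exact Or.inr (Or.inl ⟨h2, even_even hb h2 ht' (by simpa using ht1) (conj_mem_St c hy) h⟩)
  · refine absurd (even_odd hb h2 ?_ ht' (conj_mem_St c hy)) h
    haveI := Fintype.ofFinite F
    have := Asch.odd_card_iff.2 h2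
    rw [← Nat.card_eq_fintype_card, Nat.odd_iff] at this
    omega

theorem bin_of_sylow (h2 : (2 : F) = 0) (h : ∀ x : Ω, ∃ P : Sylow 2 PSL(2, F), stabilizer PSL(2, F) x = P) :
    Bin PSL(2, F) Ω := by
  have h1 : ∀ (x : Ω), ∀ X ∈ (St x : Subgroup SL(2, F)), X * X = 1 := fun x X hX => by
    obtain ⟨P, hP⟩ := h x
    rw [sq_of_tr (tr_of_isPGroup h2 P.isPGroup' (hP ▸ hX)), neg_eq_self h2]
  have h3 : ∀ {X Y : SL(2, F)}, X * X = 1 → Y * Y = 1 → X * Y * (X * Y) = 1 → X * Y = Y * X := fun a b c => by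
    rw [eq_inv_of_mul_eq_one_left c, _root_.mul_inv_rev, ← eq_inv_of_mul_eq_one_left a, ← eq_inv_of_mul_eq_one_left b]
  have h4 : ∀ (x : Ω), ∀ X ∈ (St x : Subgroup SL(2, F)), X ≠ 1 → ∀ Y, Y ∈ St x ↔ Y * X = X * Y := by
    intro x X hX hX1 Y
    refine ⟨fun hY => h3 (h1 x Y hY) (h1 x X hX) (h1 x _ (mul_mem hY hX)), fun hY => ?_⟩
    obtain ⟨P, hP⟩ := h x
    have := P.is_maximal' (Q := Subgroup.centralizer {pr X}) (isPGroup_of_tr fun Z hZ => ?_) fun Z hZ => ?_
    · rw [mem_St, ← mem_stabilizer_iff, hP, ← this, Subgroup.mem_centralizer_singleton_iff, ← map_mul, hY, map_mul]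
    · rw [Subgroup.mem_centralizer_singleton_iff, ← map_mul, ← map_mul] at hZ
      have k1 := pr_inj h2 hZ
      have k2 := tr_of_isPGroup h2 P.isPGroup' (X := X) (hP ▸ hX)
      by_contra k3
      refine hX1 ((central_of ?_ ?_ ?_).elim id fun h => by rw [h, neg_eq_self h2])
      all_goals
        apply mul_left_cancel₀ k3
        have := det_eq X
        have := det_eq Z
        simp only [ents] at k1 k2 ⊢
        grind
    · obtain ⟨Z, rfl⟩ := pr_surj Z
      have hZ' : Z ∈ St x := by rw [mem_St, ← mem_stabilizer_iff, hP]; exact hZ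
      rw [Subgroup.mem_centralizer_singleton_iff, ← map_mul, ← map_mul,
        h3 (h1 x Z hZ') (h1 x X hX) (h1 x _ (mul_mem hZ' hX))]
  refine bin_of_stabilizers fun x y z a b ha hb hz => ?_
  obtain ⟨a, rfl⟩ := pr_surj a
  obtain ⟨b, rfl⟩ := pr_surj b
  by_cases ha1 : a = 1
  · simp [ha1]
  by_cases hb1 : b = 1
  · simpa [hb1] using Or.inr hz
  have h5 : a * b = b * a := (h3 (h1 y b hb) (h1 x a ha) (h1 z _ (by
    rw [mem_St, map_mul, mul_smul, hz, ← mul_smul, ← map_mul, h1 y b hb, map_one, one_smul]))).symm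
  refine Or.inl (Subgroup.ext fun g => ?_)
  obtain ⟨g, rfl⟩ := pr_surj g
  refine (h4 x a ha ha1 g).trans (Iff.trans ?_ (h4 y b hb hb1 g).symm)
  exact ⟨fun h => comm_trans (by rw [neg_eq_self h2]; simpa using ha1) h h5.symm,
    fun h => comm_trans (by rw [neg_eq_self h2]; simpa using hb1) h h5⟩

theorem bin_of_three (h2 : (2 : F) = 0) (hw : ∀ w : F, w * w + w + 1 ≠ 0)
    (h : ∀ x : Ω, Nat.card (stabilizer PSL(2, F) x) = 3) : Bin PSL(2, F) Ω := by
  haveI : Fact (Nat.Prime 3) := ⟨Nat.prime_three⟩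
  have h1 : ∀ (x : Ω), ∀ X ∈ (St x : Subgroup SL(2, F)), X ≠ 1 → tr X = 1 ∧
      stabilizer PSL(2, F) x = Subgroup.zpowers (pr X) := fun x X hX hX1 => by
    have k1 : pr X ^ 3 = 1 := congrArg Subtype.val (h x ▸ pow_card_eq_one' (x := (⟨pr X, hX⟩ : stabilizer _ x)))
    have k2 : X * X * X = 1 := pr_inj h2 (by rw [← pow_three', map_pow, k1, map_one])
    haveI : Finite (stabilizer PSL(2, F) x) := Nat.finite_of_card_ne_zero (by rw [h]; norm_num)
    refine ⟨?_, (Subgroup.eq_of_le_of_card_ge ((Subgroup.zpowers_le (g := pr X)).2 hX) ?_).symm⟩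
    · by_contra k3
      refine hX1 ((central_of ?_ ?_ ?_).elim id fun h => by rw [h, neg_eq_self h2])
      all_goals
        apply mul_left_cancel₀ (pow_ne_zero 2 (sub_ne_zero.2 k3))
        have := det_eq X
        simp only [ents] at k2 ⊢
        grind
    · rw [h, Nat.card_zpowers, orderOf_eq_prime k1 fun h => hX1 (pr_inj h2 (h.trans (map_one _).symm))]
  refine bin_of_stabilizers fun x y z a b ha hb hz => ?_
  obtain ⟨a, rfl⟩ := pr_surj a
  obtain ⟨b, rfl⟩ := pr_surj b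
  by_cases ha1 : a = 1
  · simp [ha1]
  by_cases hb1 : b = 1
  · simpa [hb1] using Or.inr hz
  left
  by_cases hab : b⁻¹ * a = 1
  · rw [inv_mul_eq_one] at hab
    rw [(h1 x a ha ha1).2, (h1 y b hb hb1).2, hab]
  have k1 := (h1 x a ha ha1).1
  have k2 := (tr_inv b).trans (h1 y b hb hb1).1
  have k3 := (h1 z _ (by rw [mem_St, map_mul, map_inv, mul_smul, hz, inv_smul_smul]) hab).1
  suffices a = b⁻¹ by rw [(h1 x a ha ha1).2, (h1 y b⁻¹ (inv_mem hb) (by simpa using hb1)).2, this]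
  obtain ⟨c, hc⟩ := exists_conj_cmp (Or.inr ⟨h2, ha1⟩)
  obtain ⟨Y, hY⟩ : ∃ Y, b⁻¹ = c * Y * c⁻¹ := ⟨c⁻¹ * b⁻¹ * c, by group⟩
  rw [k1] at hc
  rw [hY, tr_conj] at k2
  rw [hY, hc, show c * Y * c⁻¹ * (c * cmp 1 * c⁻¹) = c * (Y * cmp 1) * c⁻¹ by group, tr_conj] at k3
  rw [hY, hc]
  congr 2
  have k4 := det_eq Y
  have k5 : Y 0 1 + 1 = 0 := by
    by_contra k5
    refine hw (Y 0 0 / (Y 0 1 + 1)) ?_
    field_simp
    simp only [ents] at k2 k3
    grind
  have k6 : Y 0 0 ^ 2 = 0 := by simp only [ents] at k2 k3; grind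
  rw [sq_eq_zero_iff] at k6
  simp only [ents] at k2 k3 ⊢
  grind

end Cfsg.Agent.H9.P2
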