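import Cfsg.Agent.H9.SzTori
import Cfsg.Agent.H9.Binary

/-!
Binary actions of a model of the Suzuki group.
-/

set_option autoImplicit false
set_option linter.unusedSectionVars false
set_option linter.unusedSimpArgs false

namespace Cfsg.Agent.H9.Suz
open Matrix MulAction

variable {K : Type*} [Field K] [Tw2 K] [CharP K 2] {G : Type*} [Group G]

local notation "σ" => Tw2.s (K := K)

theorem s_eq_one {k : K} (h : σ k = 1) : k = 1 := (σ).injective (by rw [h, map_one])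

theorem units_eq_one {k : Kˣ} (h : σ k + 1 = 0) : k = 1 := Units.ext (s_eq_one (by grobner))

theorem exists_unit_of_inj [Finite K] (f : K → K) (h1 : f 1 = 1) (hm : ∀ x y, f (x * y) = f x * f y)
    (hi : ∀ k, k ≠ 0 → f k = 1 → k = 1) {c : K} (hc : c ≠ 0) : ∃ k : Kˣ, f k = c := by
  let φ : K →* K := { toFun := f, map_one' := h1, map_mul' := hm }
  have : Function.Injective (Units.map φ) := by
    rw [injective_iff_map_eq_one]
    intro k hk
    exact Units.ext (hi k k.ne_zero (congrArg Units.val hk))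
  obtain ⟨k, hk⟩ := Finite.injective_iff_surjective.mp this (Units.mk0 c hc)
  exact ⟨k, congrArg Units.val hk⟩

theorem exists_sq_mul_s [Finite K] {c : K} (hc : c ≠ 0) : ∃ k : Kˣ, (k : K) ^ 2 * σ k = c :=
  exists_unit_of_inj (fun k => k ^ 2 * σ k) (by simp) (fun x y => by rw [map_mul]; ring)
    (fun _ hk h => eq_one_of_sq_mul_s hk h) hc

theorem exists_s [Finite K] {c : K} (hc : c ≠ 0) : ∃ k : Kˣ, σ k = c :=
  exists_unit_of_inj σ (by simp) (fun x y => by rw [map_mul]) (fun _ _ h => s_eq_one h) hc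

theorem exists_mul_s_pow [Finite K] {c : K} (hc : c ≠ 0) : ∃ k : Kˣ, ((k : K) * σ k) ^ 4 = c :=
  exists_unit_of_inj (fun k => (k * σ k) ^ 4) (by simp) (fun x y => by rw [map_mul]; ring) (fun k hk h => by
    have h1 : (k * σ k + 1) ^ 4 = 0 := by grobner
    have h2 := pow_eq_zero_iff (by norm_num) |>.mp h1
    have h3 := congrArg σ h2
    rw [map_add, map_mul, Tw2.ss, map_one, map_zero] at h3
    exact eq_one_of_sq_mul_s hk (by grobner)) hc

/-- The norm of a point. -/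
def nrm (a b : K) : K := a * b + a ^ 2 * σ a + σ b

theorem nrm_scale (k a b : K) : nrm (σ k * a) (k ^ 2 * σ k * b) = (k * σ k) ^ 2 * nrm a b := by
  simp only [nrm, map_mul, map_pow, Tw2.ss]
  ring

theorem trace4 (a00 a01 a02 a03 a10 a11 a12 a13 a20 a21 a22 a23 a30 a31 a32 a33 : K) :
    trace !![a00, a01, a02, a03; a10, a11, a12, a13; a20, a21, a22, a23; a30, a31, a32, a33] =
      a00 + a11 + a22 + a33 := by
  simp [trace, Fin.sum_univ_four]

namespace Model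

variable (M : Model K G)

/-- The standard involution at the second point. -/
noncomputable def y : G := M.n * M.x 0 1 * M.n

theorem y_eq : M.y = M.n * M.x 0 1 * M.n⁻¹ := by rw [n_inv, y]

theorem y_sq : M.y * M.y = 1 := by
  rw [y_eq, conj_mul, M.Z_sq (M.z_mem 1)]; simp

theorem y_ne_one : M.y ≠ 1 := by
  rw [y_eq]
  exact cj_ne_one _ (by simp [x_eq_one])

theorem ρ_y : M.ρ M.y = !![1, 0, 0, 0; 0, 1, 0, 0; 1, 0, 1, 0; 1, 1, 0, 1] := by
  rw [y, map_mul, map_mul, ρ_n, ρ_x, Jm, Xm, mul4, mul4]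
  apply mat4_congr <;> simp

theorem trace_conj (c g : G) : trace (M.ρ (c * g * c⁻¹)) = trace (M.ρ g) := by
  rw [map_mul, trace_mul_comm, ← map_mul, ← mul_assoc, inv_mul_cancel, one_mul]

theorem trace_z_y (b : K) : trace (M.ρ (M.x 0 b * M.y)) = σ b := by
  rw [map_mul, ρ_y, ρ_x, Xm, mul4, trace4]
  grobner

theorem trace_y_y (a b : K) : trace (M.ρ (M.y * (M.x a b * M.y * (M.x a b)⁻¹))) = nrm a b ^ 2 := by
  rw [x_inv, map_mul, map_mul, map_mul, ρ_y, ρ_x, ρ_x, Xm, Xm, mul4, mul4, mul4, trace4, nrm]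
  simp only [map_add, map_mul, Tw2.ss]
  grobner

theorem sz_two : M.x 1 1 = M.n * M.x 1 0 * M.n * M.x 1 0 * M.n * M.x 1 0 * M.n := by
  apply M.inj
  simp only [map_mul, ρ_x, ρ_n]
  rw [Xm, Xm, Jm, mul4, mul4, mul4, mul4, mul4, mul4]
  simp only [map_one, map_zero]
  apply mat4_congr <;> grobner

theorem not_mem_B (d : K) : M.n * M.x 0 d * M.y ∉ M.B := by
  rw [mem_B_iff_ρ, map_mul, map_mul, ρ_y, ρ_x, ρ_n, Xm, Jm, mul4, mul4]
  intro h
  have h1 : 1 + d + σ d = 0 := by simpa using h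
  have h2 := congrArg σ h1
  rw [map_add, map_add, map_one, Tw2.ss, map_zero] at h2
  have h3 : d * (d + 1) = 0 := by grobner
  rcases mul_eq_zero.mp h3 with h4 | h4
  · simp [h4] at h1
  · have h5 : d = 1 := by grobner
    rw [h5, map_one] at h1
    grobner

variable [Finite K]

theorem mem_Z_of_mem_B {g : G} (hg : g ∈ M.B) (h : g * g = 1) : g ∈ M.Z := by
  have := M.finite
  exact M.mem_Z_of_sq (M.R.mem_U_of_mem_B M.isPGroup_U M.U_ne_bot M.not_two_dvd_card_H hg (k := 1)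
    (by rw [pow_one, pow_two, h])) h

theorem mem_B_of_conj_U {u c : G} (hu : u ∈ M.U) (hu1 : u ≠ 1) (h : c * u * c⁻¹ ∈ M.U) : c ∈ M.B := by
  have h1 := M.R.U_smul_inf h
  rw [mul_smul, mul_smul, ← eq_inv_smul_iff] at h1
  exact inv_mem_iff.mp (M.R.smul_inf_eq_iff.mp (M.R.U_fix hu hu1 h1))

include M in
theorem one_class (s t : G) (hs1 : s ≠ 1) (hs : s * s = 1) (ht1 : t ≠ 1) (ht : t * t = 1) : ∃ c, c * s * c⁻¹ = t := by
  obtain ⟨c, b, hc⟩ := M.exists_conj_mem_Z hs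
  obtain ⟨d, b', hd⟩ := M.exists_conj_mem_Z ht
  have hb : b ≠ 0 := by rintro rfl; exact cj_ne_one' c hs1 (hc.trans M.x_zero)
  have hb' : b' ≠ 0 := by rintro rfl; exact cj_ne_one' d ht1 (hd.trans M.x_zero)
  obtain ⟨k, hk⟩ := exists_sq_mul_s (mul_ne_zero hb' (inv_ne_zero hb))
  refine ⟨d * M.h k * c⁻¹, ?_⟩
  have h1 := M.h_conj_x k 0 b
  rw [hk, mul_zero, inv_mul_cancel_right₀ hb, ← hc, ← hd] at h1
  calc _ = d * (M.h k * (c⁻¹ * s * c) * (M.h k)⁻¹) * d⁻¹ := by simp [mul_assoc]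
    _ = _ := by rw [h1]; simp [mul_assoc]

/-- Normal form of a pair of non-commuting involutions. -/
theorem pair_conj {s t : G} (hs : s * s = 1) (ht : t * t = 1) (h : s * t ≠ t * s) :
    ∃ c b, s = c * M.x 0 b * c⁻¹ ∧ t = c * M.y * c⁻¹ := by
  obtain ⟨c, hc⟩ := M.exists_conj_mem_Z hs
  obtain ⟨d, hd⟩ := M.exists_conj_mem_Z ht
  have key : ∀ {s c g : G} , s * s = 1 → c⁻¹ * s * c ∈ M.Z → g • M.R.inf = c • M.R.inf → g⁻¹ * s * g ∈ M.Z := by
    intro s c g hs hc hg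
    refine M.mem_Z_of_mem_B (M.R.smul_inf_eq_iff.mp ?_) ?_
    · have := M.R.U_smul_inf (M.Z_le_U hc)
      rw [mul_smul, mul_smul, inv_smul_eq_iff] at this ⊢
      rw [hg, this]
    · calc g⁻¹ * s * g * (g⁻¹ * s * g) = g⁻¹ * (s * s) * g := by simp [mul_assoc]
        _ = 1 := by rw [hs]; simp
  have hne : c • M.R.inf ≠ d • M.R.inf := by
    intro e
    obtain ⟨b, hb⟩ := hc
    obtain ⟨b', hb'⟩ := key ht hd e
    apply h
    have h1 : c⁻¹ * s * c * (c⁻¹ * t * c) = c⁻¹ * t * c * (c⁻¹ * s * c) := by rw [hb, hb', x_conj_z]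
    simpa [mul_assoc] using cj_comm c h1
  obtain ⟨g, g1, g2⟩ := M.R.two_trans hne
  obtain ⟨b, hb⟩ := key hs hc g1
  obtain ⟨b', hb'⟩ := key ht hd (g := g * M.n) (by rw [mul_smul, ← g2]; exact congrArg _ M.R.n_smul_inf)
  have hb0 : b' ≠ 0 := by
    rintro rfl
    rw [x_zero] at hb'
    have : t = 1 := by by_contra h1; exact cj_ne_one' _ h1 hb'
    exact h (by simp [this])
  obtain ⟨k, hk⟩ := exists_sq_mul_s hb0
  refine ⟨g * (M.h k)⁻¹, (k : K) ^ 2 * σ k * b, ?_, ?_⟩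
  · have h1 := M.h_conj_x k 0 b
    rw [mul_zero] at h1
    rw [← h1, ← hb]; simp [mul_assoc]
  · have h1 := M.h_conj_x k 0 1
    rw [mul_zero, mul_one, hk, ← hb'] at h1
    have h2 : M.n * M.h k = (M.h k)⁻¹ * M.n := M.R.n_mul_H (M.h_mem k)
    calc t = g * M.n * ((g * M.n)⁻¹ * t * (g * M.n)) * (g * M.n)⁻¹ := by simp [mul_assoc]
      _ = g * (M.n * M.h k) * M.x 0 1 * (g * (M.n * M.h k))⁻¹ := by rw [← h1]; simp [mul_assoc]
      _ = _ := by rw [h2, y]; simp [mul_assoc, n_inv]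

theorem eq_top_of {L : Subgroup G} (hZ : M.Z ≤ L) (hH : M.H ≤ L) (hn : M.n ∈ L) {a b : K} (ha : a ≠ 0)
    (hx : M.x a b ∈ L) : L = ⊤ := by
  have hU : M.U ≤ L := by
    rintro _ ⟨c, d, rfl⟩
    by_cases hc : c = 0
    · exact hZ (hc ▸ M.z_mem d)
    obtain ⟨k, hk⟩ := exists_s (mul_ne_zero hc (inv_ne_zero ha))
    have h1 := mul_mem (mul_mem (hH (M.h_mem k)) hx) (inv_mem (hH (M.h_mem k)))
    rw [h_conj_x, hk, inv_mul_cancel_right₀ ha] at h1
    generalize _ * b = e at h1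
    have h2 := mul_mem h1 (hZ (M.z_mem (d + e)))
    rw [x_mul] at h2
    convert h2 using 2
    · simp
    · rw [map_zero]; grobner
  have hB : ∀ g ∈ M.B, g ∈ L := by
    rintro _ ⟨a, b, k, rfl⟩
    exact mul_mem (hU (M.x_mem ..)) (hH (M.h_mem k))
  rw [eq_top_iff]
  intro g _
  rcases M.R.bruhat g with h | ⟨u, hu, b, hb, rfl⟩
  · exact hB g h
  · exact mul_mem (mul_mem (hU hu) hn) (hB b hb)

/-- A subgroup containing `Z` contains all the elements exchanging two points of its orbit. -/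
theorem swap_mem {L : Subgroup G} (hZ : M.Z ≤ L) {g u h : G} (hg : g ∈ L) (hu : u ∈ M.U)
    (e : g • M.R.inf = u • M.R.zero) (hh : h ∈ M.H) : u * (M.n * h) * u⁻¹ ∈ L := by
  classical
  have := M.finite
  let O : Set M.R.Pt := {p | p ≠ M.R.inf ∧ ∃ g ∈ L, g • M.R.inf = p}
  have hO : ∀ p : O, ∃ g ∈ L, g • M.R.inf = p := fun p => p.2.2
  choose γ hγ hγ' using hO
  let s : O × sharp M.Z → G := fun p => γ p.1 * p.2 * (γ p.1)⁻¹
  have s1 : ∀ p, s p ∈ L := fun p => mul_mem (mul_mem (hγ _) (hZ p.2.2.1)) (inv_mem (hγ _))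
  have s2 : ∀ p, s p * s p = 1 := fun p => by rw [conj_mul, M.Z_sq p.2.2.1]; simp
  have s3 : ∀ p (x : M.R.Pt), s p • x = x → x = p.1 := by
    intro p x hx
    rw [mul_smul, mul_smul, ← eq_inv_smul_iff] at hx
    rw [← hγ', ← M.R.U_fix (M.Z_le_U p.2.2.1) p.2.2.2 hx, smul_inv_smul]
  have s4 : ∀ p, s p • p.1.1 = p.1.1 := by
    intro p
    rw [mul_smul, mul_smul, ← hγ', inv_smul_smul, M.R.U_smul_inf (M.Z_le_U p.2.2.1)]
  have s5 : ∀ p, s p • M.R.inf ≠ M.R.inf := fun p h => p.1.2.1 (s3 p _ h).symm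
  have hυ : ∀ p : O, ∃ u ∈ M.U, u • M.R.zero = p := fun p => M.R.exists_U p.2.1
  choose υ hυ hυ' using hυ
  let π : O × sharp M.Z → O := fun p => ⟨s p • M.R.inf, s5 p, _, s1 p, rfl⟩
  have s6 : ∀ p, M.n * ((υ (π p))⁻¹ * s p * υ (π p)) ∈ M.H := by
    intro p
    refine M.R.swap_iff.mp ⟨?_, ?_⟩
    · rw [mul_smul, mul_smul, M.R.U_smul_inf (hυ _), inv_smul_eq_iff, hυ']
    · rw [mul_smul, mul_smul, hυ', ← mul_smul (s p), s2, one_smul, M.R.U_smul_inf (inv_mem (hυ _))]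
  let f : O × sharp M.Z → O × M.H := fun p => (π p, ⟨_, s6 p⟩)
  have hf : Function.Injective f := by
    intro p p' e
    have e1 : π p = π p' := congrArg Prod.fst e
    have e2 : M.n * ((υ (π p))⁻¹ * s p * υ (π p)) = M.n * ((υ (π p'))⁻¹ * s p' * υ (π p')) :=
      congrArg (fun w => (w.2 : G)) e
    rw [e1] at e2
    have e3 : s p = s p' := by simpa using e2
    have e4 : p.1 = p'.1 := Subtype.ext (s3 p' _ (e3 ▸ s4 p))
    refine Prod.ext e4 (Subtype.ext ?_)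
    simp only [s, e4] at e3
    simpa using e3
  have hf' := (Nat.bijective_iff_injective_and_card f).mpr ⟨hf, by
    rw [Nat.card_prod, Nat.card_prod, Nat.card_coe_set_eq (sharp M.Z), ncard_sharp, card_Z, card_H]⟩
  obtain ⟨p, hp⟩ := hf'.2 (⟨u • M.R.zero, M.R.U_smul_zero_ne_inf hu, g, hg, e⟩, ⟨h, hh⟩)
  have e1 := congrArg Prod.fst hp
  have e2 : M.n * ((υ (π p))⁻¹ * s p * υ (π p)) = h := congrArg (fun w => (w.2 : G)) hp
  have e3 : υ (π p) = u := M.R.U_smul_zero_inj (hυ _) hu ((hυ' _).trans (congrArg Subtype.val e1))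
  rw [← e2, e3, ← mul_assoc M.n, n_sq]
  simpa [mul_assoc] using s1 p

theorem le_B_or_eq_top (hq : 2 < Nat.card K) {L : Subgroup G} (hZ : M.Z ≤ L) : L ≤ M.B ∨ L = ⊤ := by
  by_cases hL : L ≤ M.B
  · exact Or.inl hL
  right
  obtain ⟨g, hg, hgB⟩ := SetLike.not_le_iff_exists.mp hL
  obtain ⟨v, hv, e⟩ := M.R.exists_U (x := g • M.R.inf) (by rwa [Ne, M.R.smul_inf_eq_iff])
  let L' : Subgroup G := L.comap (MulAut.conj v).toMonoidHom
  have hL' : ∀ x, x ∈ L' ↔ v * x * v⁻¹ ∈ L := fun x => Iff.rfl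
  suffices h : L' = ⊤ by
    rw [eq_top_iff]
    intro x _
    have : v⁻¹ * x * v ∈ L' := h ▸ Subgroup.mem_top _
    simpa [hL', mul_assoc] using this
  have hZ' : M.Z ≤ L' := fun z hz => hZ (M.conj_mem_Z (M.R.U_le_B hv) hz)
  have hn : M.n ∈ L' := by simpa [hL'] using M.swap_mem hZ hg hv e.symm (one_mem _)
  have hH : M.H ≤ L' := fun h hh =>
    (Subgroup.mul_mem_cancel_left L' hn).mp (M.swap_mem hZ hg hv e.symm hh)
  have hy : M.y ∈ L' := mul_mem (mul_mem hn (hZ' (M.z_mem 1))) hn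
  obtain ⟨_, ⟨a, d, rfl⟩, e'⟩ := M.R.exists_U (x := M.y • M.R.inf) (by
    rw [Ne, M.R.smul_inf_eq_iff]
    intro h
    simpa [x_eq_one] using M.R.ti _ (M.x_mem 0 1) h)
  have ha : a ≠ 0 := by
    rintro rfl
    apply M.not_mem_B d
    rw [← R_B, ← M.R.smul_inf_eq_iff, mul_smul, mul_smul, ← e', ← mul_smul (M.x 0 d), M.Z_sq (M.z_mem d), one_smul]
    exact M.R.n_smul_zero
  obtain ⟨k, hk⟩ := exists_ne_one hq
  have h1 := mul_mem (inv_mem (M.swap_mem hZ' hy (M.x_mem a d) e'.symm (one_mem _)))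
    (M.swap_mem hZ' hy (M.x_mem a d) e'.symm (M.h_mem k))
  have h2 : M.x a d * (M.h k * (M.x a d)⁻¹ * (M.h k)⁻¹) ∈ L' := by
    simpa [mul_assoc] using mul_mem h1 (inv_mem (hH (M.h_mem k)))
  rw [x_inv, h_conj_x, x_mul] at h2
  refine M.eq_top_of hZ' hH hn (fun h => hk (units_eq_one ?_)) h2
  exact (mul_eq_zero.mp (show (σ k + 1) * a = 0 by linear_combination h)).resolve_right ha

section action

variable {Ω : Type*} [MulAction G Ω]

theorem cj_fix {g c : G} {x : Ω} (h : g • x = x) : (c * g * c⁻¹) • c • x = c • x := by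
  rw [mul_smul, mul_smul, inv_smul_smul, h]

theorem cj_fix' {g c : G} {x : Ω} (h : g • c • x = c • x) : (c⁻¹ * g * c) • x = x := by
  rw [mul_smul, mul_smul, h, inv_smul_smul]

theorem not_bin_of_four (hb : Bin G Ω) {x : Ω} (hZ : M.Z ≤ stabilizer G x) (hB : stabilizer G x ≤ M.B) {a d : K}
    (hx : M.x a d • x = x) : a = 0 := by
  by_contra ha
  obtain ⟨k, hk⟩ := exists_s (inv_ne_zero ha)
  have hB' : ∀ g : G, g • M.h k • x = M.h k • x → g ∈ M.B := fun g hg => by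
    have h1 := hB (cj_fix' hg)
    have h2 := M.R.H_le_B (M.h_mem k)
    simpa [mul_assoc] using mul_mem (mul_mem h2 h1) (inv_mem h2)
  have hZ' : ∀ b, M.x 0 b • M.h k • x = M.h k • x := fun b => by
    have h1 := hZ (M.conj_mem_Z (inv_mem (M.R.H_le_B (M.h_mem k))) (M.z_mem b))
    rw [mem_stabilizer_iff, inv_inv, mul_smul, mul_smul, inv_smul_eq_iff] at h1
    exact h1
  have h10 : M.x 1 0 • M.h k • x = M.h k • x := by
    have h1 := cj_fix (c := M.h k) hx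
    rw [h_conj_x, hk, inv_mul_cancel₀ ha] at h1
    generalize _ * d = e at h1
    have h2 : M.x 1 0 = M.x 1 e * M.x 0 e := by rw [x_mul]; congr 1 <;> simp [CharTwo.add_self_eq_zero]
    rw [h2, mul_smul, hZ', h1]
  generalize M.h k • x = z at *
  obtain ⟨g, g1, g2, g3⟩ := hb.triple (x := z) (y := M.n • z) (z := (M.x 1 0 * M.n) • z) (a := M.x 0 1)
    (b := M.n * M.x 1 0 * M.n⁻¹) (hZ' 1) (cj_fix h10) (by
      have h1 : M.x 0 1 * (M.x 1 0 * M.n) = M.n * M.x 1 0 * M.n⁻¹ * (M.x 1 0 * M.n) * M.x 1 0 := by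
        have h2 : M.x 0 1 * M.x 1 0 = M.x 1 1 := by rw [x_mul]; simp
        rw [← mul_assoc, h2, sz_two, n_inv, mul_assoc _ M.n M.n, n_sq, mul_one]
        simp only [mul_assoc]
      rw [← mul_smul, h1, mul_smul, h10, mul_smul])
  obtain ⟨l, rfl⟩ : g ∈ M.H := M.R.mem_H_iff.mpr ⟨M.R.smul_inf_eq_iff.mpr (hB' g g1),
    M.R.smul_zero_eq_iff.mpr (hB' _ (by simpa [n_inv] using cj_fix' g2))⟩
  rw [← mul_smul, ← mul_smul, ← inv_smul_eq_iff, ← mul_smul] at g3
  have h3 := M.R.smul_inf_eq_iff.mpr (hB' _ g3)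
  rw [mul_smul, inv_smul_eq_iff, ← mul_assoc, ← mul_assoc, h_mul_x, x_mul] at h3
  simp only [mul_smul] at h3
  have h4 : M.n • M.R.inf = M.R.zero := M.R.n_smul_inf
  rw [h4, M.R.H_smul_zero (M.h_mem l)] at h3
  have h5 := (M.x_inj (M.R.U_smul_zero_inj (M.x_mem ..) (M.x_mem ..) h3)).2
  simp at h5

theorem not_bin_of_torus (hb : Bin G Ω) {x : Ω} (hZ : M.Z ≤ stabilizer G x) (hB : stabilizer G x ≤ M.B) {k : Kˣ}
    (hx : M.h k • x = x) : k = 1 := by
  have := M.finite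
  by_contra hk
  have hk' : σ k + 1 ≠ 0 := fun h => hk (units_eq_one h)
  have key : ∀ a d l, (M.x a d * M.h l) • x = x → a = 0 := by
    intro a d l h
    have h1 : M.h k * (M.x a d * M.h l) * (M.h k)⁻¹ * (M.x a d * M.h l)⁻¹ ∈ stabilizer G x :=
      mul_mem (mul_mem (mul_mem hx h) (inv_mem hx)) (inv_mem h)
    have h2 : M.h k * (M.x a d * M.h l) * (M.h k)⁻¹ * (M.x a d * M.h l)⁻¹ =
        M.h k * M.x a d * (M.h k)⁻¹ * (M.x a d)⁻¹ := by
      have h3 : M.h l * (M.h k)⁻¹ = (M.h k)⁻¹ * M.h l := M.R.H_comm (M.h_mem l) (inv_mem (M.h_mem k))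
      rw [mul_assoc (M.h k), mul_assoc (M.x a d), h3]; simp [mul_assoc]
    rw [h2, h_conj_x, x_inv, x_mul] at h1
    have h3 := M.not_bin_of_four hb hZ hB h1
    exact (mul_eq_zero.mp (show (σ k + 1) * a = 0 by linear_combination h3)).resolve_left hk'
  have hcj : ∀ (a d : K) (l : Kˣ), ∃ e, (M.x a d)⁻¹ * M.h l * M.x a d = M.x (a + σ l * a) e * M.h l := by
    intro a d l
    exact ⟨_, by rw [mul_assoc, h_mul_x, ← mul_assoc, x_inv, x_mul]⟩
  have h2 : M.h (k * k) ≠ 1 := by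
    rw [map_mul]
    exact fun h => hk (M.h_inj ((M.H_sq (M.h_mem k) h).trans (map_one _).symm))
  obtain ⟨_, ⟨a, d, rfl⟩, hv⟩ := M.R.exists_conj_eq M.hH (M.h_mem (k * k)) h2
    (mul_mem (M.x_mem 1 0) (M.R.conj_mem _ (M.h_mem k) _ (inv_mem (M.x_mem 1 0))))
  have hx2 : M.h (k * k) • x = x := by rw [map_mul, mul_smul, hx, hx]
  obtain ⟨g, g1, g2, g3⟩ := hb.triple (x := x) (y := M.x 1 0 • x) (z := M.x a d • x) (a := M.h k)
    (b := M.x 1 0 * (M.h k)⁻¹ * (M.x 1 0)⁻¹) hx (cj_fix (by rw [inv_smul_eq_iff, hx])) (by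
      rw [← inv_smul_eq_iff, ← mul_smul]
      have h3 := cj_fix (c := M.x a d) hx2
      rw [← hv, map_mul] at h3
      simpa [mul_assoc] using h3)
  obtain ⟨a', d', l, rfl⟩ := hB g1
  obtain rfl := key _ _ _ g1
  have h4 := cj_fix' g2
  obtain ⟨e, he⟩ := hcj 1 0 l
  rw [← mul_assoc, ← (Commute.inv_right (M.x_conj_z 1 0 d').symm).eq, mul_assoc, mul_assoc, ← mul_assoc _ (M.h l), he,
    ← mul_assoc, x_mul] at h4
  obtain rfl : l = 1 := units_eq_one (by linear_combination key _ _ _ h4)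
  rw [map_one, mul_one, ← mul_smul, ← x_conj_z, mul_smul, hZ (M.z_mem d')] at g3
  have h5 := cj_fix' g3.symm
  obtain ⟨e', he'⟩ := hcj a d k
  rw [he'] at h5
  obtain rfl : a = 0 := (mul_eq_zero.mp (show (σ k + 1) * a = 0 by linear_combination key _ _ _ h5)).resolve_left hk'
  have h6 := cj_fix (c := M.x 0 d) hx2
  rw [← hv, hZ (M.z_mem d), x_inv, h_conj_x, x_mul] at h6
  exact hk' (by linear_combination key _ _ _ h6)

theorem eq_Z_of_bin (hb : Bin G Ω) {x : Ω} (hZ : M.Z ≤ stabilizer G x) (hB : stabilizer G x ≤ M.B) :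
    stabilizer G x = M.Z := by
  have := M.finite
  refine le_antisymm (fun g hg => ?_) hZ
  obtain ⟨a, d, k, rfl⟩ := hB hg
  by_cases hk : k = 1
  · rw [hk, map_one, mul_one] at hg ⊢
    rw [M.not_bin_of_four hb hZ hB hg]
    exact M.z_mem d
  exfalso
  obtain ⟨v, hv, e⟩ := M.R.exists_conj_eq M.hH (M.h_mem k) (fun h => hk (M.h_inj (h.trans (map_one _).symm)))
    (M.x_mem a d)
  have hv' := M.R.U_le_B hv
  refine hk (M.not_bin_of_torus hb (x := v⁻¹ • x) (fun z hz => ?_) (fun g hg => ?_) ?_)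
  · simpa [mul_assoc] using cj_fix (c := v⁻¹) (hZ (M.conj_mem_Z hv' hz))
  · simpa [mul_assoc] using mul_mem (mul_mem (inv_mem hv') (hB (cj_fix' hg))) hv'
  · rw [e] at hg
    simpa [mul_assoc] using cj_fix (c := v⁻¹) hg

theorem card_nrm_fibre (hq : 3 < Nat.card K) {c : K} (hc : c ≠ 0) : 4 < {p : K × K | nrm p.1 p.2 ^ 2 = c}.ncard := by
  by_contra h
  let f : Option ({p : K × K | nrm p.1 p.2 ^ 2 = c} × Kˣ) → K × K := fun o =>
    o.elim 0 fun p => (σ p.2 * p.1.1.1, (p.2 : K) ^ 2 * σ p.2 * p.1.1.2)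
  have hf : Function.Surjective f := by
    rintro ⟨a, d⟩
    by_cases h0 : nrm a d = 0
    · obtain ⟨rfl, rfl⟩ := norm_eq_zero h0
      exact ⟨none, rfl⟩
    obtain ⟨k, hk⟩ := exists_mul_s_pow (mul_ne_zero hc (inv_ne_zero (pow_ne_zero 2 h0)))
    refine ⟨some (⟨(σ k * a, (k : K) ^ 2 * σ k * d), ?_⟩, k⁻¹), ?_⟩
    · show nrm _ _ ^ 2 = c
      rw [nrm_scale, mul_pow, ← pow_mul, hk, inv_mul_cancel_right₀ (pow_ne_zero 2 h0)]
    · have := s_ne_zero k.ne_zero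
      have := k.ne_zero
      simp only [f, Option.elim, Units.val_inv_eq_inv_val, map_inv₀]
      congr 1 <;> field_simp
  have h1 := Nat.card_le_card_of_surjective f hf
  rw [Finite.card_option, Nat.card_prod, Nat.card_prod, Nat.card_units, Nat.card_coe_set_eq] at h1
  obtain ⟨s, hs⟩ : ∃ s, Nat.card K = s + 1 := ⟨Nat.card K - 1, by omega⟩
  rw [hs, Nat.add_sub_cancel] at h1
  have := Nat.mul_le_mul_right s (not_lt.mp h)
  nlinarith

include M in
theorem eq_bot_of_odd [IsPretransitive G Ω] (hb : Bin G Ω) (hq : 3 < Nat.card K) (h3 : Nat.card K % 3 = 2) {x : Ω}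
    (hodd : Odd (Nat.card (stabilizer G x))) : stabilizer G x = ⊥ := by
  have := M.finite
  by_contra h0
  have hodd' : ∀ (z : Ω) (g : G), g • z = z → Odd (orderOf g) := by
    intro z g hg
    obtain ⟨c, rfl⟩ := exists_smul_eq G x z
    rw [← orderOf_cj' c]
    exact hodd.of_dvd_nat (orderOf_dvd_of_pow_eq_one (pow_card_of_mem' (cj_fix' hg)))
  have hdvd : ∀ p : ℕ, p.Prime → ∀ g : G, orderOf g = p → Odd p → p ∣ (Nat.card K - 1) * (Nat.card K ^ 2 + 1) := by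
    intro p hp g hg ho
    have h1 := hg ▸ orderOf_dvd_natCard g
    rw [M.card_G, Nat.Prime.dvd_mul hp, Nat.Prime.dvd_mul hp] at h1
    rcases h1 with h | h | h
    · exact h.mul_left _
    · rw [eq_two_of_dvd_card hp (hp.dvd_of_dvd_pow h)] at ho
      exact absurd ho (by decide)
    · exact h.mul_right _
  have htor : ∀ z : Ω, stabilizer G z ≠ ⊥ → ∃ T, IsTorus ((Nat.card K - 1) * (Nat.card K ^ 2 + 1)) 4 T ∧
      stabilizer G z ≤ T := by
    intro z hz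
    obtain ⟨T, hT, hle⟩ := M.toriHyp.exists_le_normalizer hz (fun p hp hd => by
      have : Fact p.Prime := ⟨hp⟩
      obtain ⟨g, hg⟩ := exists_prime_orderOf_dvd_card' p hd
      rw [← Subgroup.orderOf_coe] at hg
      exact hdvd p hp g hg (hg ▸ hodd' z g g.2))
    refine ⟨T, hT, fun g hg => ?_⟩
    obtain ⟨w, w1, w2, w3⟩ := hT.wt
    have w4 : w ≠ 3 := by
      rintro rfl
      exact M.not_three_dvd h3 ((Dvd.intro _ w3.symm).trans (Subgroup.card_subgroup_dvd_card _))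
    refine mem_of_pow_mem_coprime (pow_mem_of_card_normalizer w3 (hle hg)) ?_
    have h1 := Nat.coprime_two_left.mpr (hodd' z g hg)
    have h2 : w = 1 ∨ w = 2 ∨ w = 4 := by omega
    rcases h2 with rfl | rfl | rfl
    · simp
    · exact h1
    · exact Nat.Coprime.pow_left 2 h1
  have hcomm : ∀ {x y z : Ω} {a b : G}, a • x = x → b • y = y → (b⁻¹ * a) • z = z → a * b = b * a := by
    intro x y z a b
    refine hb.comm_of_triple (fun x y a b g ha hb' g1 g2 hg => ?_) fun x a b ha hb' => ?_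
    · obtain ⟨T, hT, h1⟩ := htor x fun h => hg (Subgroup.mem_bot.mp (h ▸ (g1 : g ∈ stabilizer G x)))
      obtain ⟨T', hT', h2⟩ := htor y fun h => hg (Subgroup.mem_bot.mp (h ▸ (g2 : g ∈ stabilizer G y)))
      have : T' = T := (hT'.cent g (h2 g2) hg).symm.trans (hT.cent g (h1 g1) hg)
      exact comm_of_isCyclic hT.cyc (h1 ha) (this ▸ h2 hb')
    · by_cases h : a = 1
      · simp [h]
      obtain ⟨T, hT, h1⟩ := htor x fun e => h (Subgroup.mem_bot.mp (e ▸ (ha : a ∈ stabilizer G x)))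
      exact comm_of_isCyclic hT.cyc (h1 ha) (h1 hb')
  obtain ⟨h, hh, p, hp, ho⟩ := exists_prime_order_mem h0
  have hpo : Odd p := ho ▸ hodd' x h hh
  have hh2 : h * h ≠ 1 := by
    intro e
    have h1 : p ∣ 2 := ho ▸ orderOf_dvd_of_pow_eq_one (by rw [pow_two, e])
    rw [(Nat.prime_dvd_prime_iff_eq hp Nat.prime_two).mp h1] at hpo
    exact absurd hpo (by decide)
  obtain ⟨s, -, hs, hs'⟩ := M.real (by omega) h3 (hodd' x h hh)
  obtain ⟨c, b, e1, e2⟩ := M.pair_conj hs hs' (by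
    intro e
    apply hh2
    have h1 : s * h = h * s := mul_left_cancel (a := s) (by rw [e, mul_assoc])
    rwa [mul_assoc, ← mul_assoc h, ← h1, ← mul_assoc, ← mul_assoc, hs, one_mul] at hs')
  have e3 : c⁻¹ * h * c = M.x 0 b * M.y := by
    have : h = s * (s * h) := by rw [← mul_assoc, hs, one_mul]
    rw [this, e2, e1]; simp [mul_assoc]
  have hx' : (M.x 0 b * M.y) • c⁻¹ • x = c⁻¹ • x := by
    rw [← e3]; simpa using cj_fix (c := c⁻¹) hh
  have ho' : orderOf (M.x 0 b * M.y) = p := by rw [← e3, orderOf_cj', ho]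
  have hb0 : b ≠ 0 := by
    rintro rfl
    rw [x_zero, one_mul] at e3
    exact cj_ne_one' c hh2 (by simpa [← e3, mul_assoc] using M.y_sq)
  obtain ⟨-, hexp, h4⟩ := M.toriHyp p hp (hdvd p hp _ ho hpo) _ ho'
  refine absurd (card_nrm_fibre hq (s_ne_zero hb0)) (not_lt.mpr (le_trans ?_ h4))
  refine Set.ncard_le_ncard_of_injOn (fun w => M.x w.1 w.2 * (M.x 0 b * M.y) * (M.x w.1 w.2)⁻¹) ?_ ?_
  · rintro ⟨a, d⟩ (hw : nrm a d ^ 2 = σ b)
    refine ⟨?_, _, rfl⟩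
    have t2 : M.x a d * M.y * (M.x a d)⁻¹ * (M.x a d * M.y * (M.x a d)⁻¹) = 1 := by rw [conj_mul, y_sq]; simp
    have t3 := M.trace_y_y a d
    obtain ⟨c', b', f1, f2⟩ := M.pair_conj M.y_sq t2 (by
      intro e
      obtain ⟨c', b', f⟩ := M.exists_conj_mem_Z (g := M.y * (M.x a d * M.y * (M.x a d)⁻¹)) (by
        rw [mul_assoc, ← mul_assoc _ M.y, ← e, mul_assoc, t2, mul_one, y_sq])
      have f' : M.y * (M.x a d * M.y * (M.x a d)⁻¹) = c' * M.x 0 b' * c'⁻¹ := by rw [← f]; simp [mul_assoc]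
      rw [f', trace_conj, ρ_x, Xm, trace4, hw] at t3
      exact s_ne_zero hb0 (by rw [← t3]; grobner))
    have f3 : M.y * (M.x a d * M.y * (M.x a d)⁻¹) = c' * (M.x 0 b' * M.y) * c'⁻¹ := by
      rw [← conj_mul, ← f1, ← f2]
    rw [f3, trace_conj, trace_z_y, hw] at t3
    rw [(σ).injective t3] at f3
    refine hcomm (cj_fix hx') hx' (z := c' • c⁻¹ • x) ?_
    have f4 : (M.x 0 b * M.y)⁻¹ * (M.x a d * (M.x 0 b * M.y) * (M.x a d)⁻¹) = c' * (M.x 0 b * M.y) * c'⁻¹ := by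
      rw [← f3, ← mul_assoc (M.x a d), x_conj_z, _root_.mul_inv_rev, inv_eq_of_mul_eq_one_right M.y_sq]
      simp [mul_assoc]
    rw [f4]
    exact cj_fix hx'
  · rintro ⟨a, d⟩ - ⟨a', d'⟩ - e
    have h1 : (M.x a' d')⁻¹ * M.x a d * (M.x 0 b * M.y) = M.x 0 b * M.y * ((M.x a' d')⁻¹ * M.x a d) := by
      have e' : M.x a d * (M.x 0 b * M.y) * (M.x a d)⁻¹ = M.x a' d' * (M.x 0 b * M.y) * (M.x a' d')⁻¹ := e
      calc _ = (M.x a' d')⁻¹ * (M.x a d * (M.x 0 b * M.y) * (M.x a d)⁻¹) * M.x a d := by simp [mul_assoc]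
        _ = _ := by rw [e']; simp [mul_assoc]
    have h2 := hexp _ h1
    obtain ⟨a'', d'', h5⟩ := mul_mem (inv_mem (M.x_mem a' d')) (M.x_mem a d)
    have h6 : (M.x a' d')⁻¹ * M.x a d = 1 := by
      refine eq_one_of_coprime (Nat.Coprime.pow_left 2 (Nat.coprime_two_left.mpr ?_)) (h5 ▸ M.x_pow_four a'' d'') h2
      refine Odd.mul ?_ (odd_sq_add_one two_dvd_card)
      have := two_dvd_card (K := K)
      rw [Nat.odd_iff]; omega
    obtain ⟨rfl, rfl⟩ := M.x_inj (inv_mul_eq_one.mp h6)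
    rfl

theorem stabilizer_of_bin [IsPretransitive G Ω] (hb : Bin G Ω) (hq : 3 < Nat.card K) (h3 : Nat.card K % 3 = 2)
    (x : Ω) : stabilizer G x = ⊥ ∨ stabilizer G x = ⊤ ∨ ∃ c : G, stabilizer G (c • x) = M.Z := by
  have := M.finite
  have : Finite Ω := Finite.of_surjective (fun g : G => g • x) fun y => exists_smul_eq G x y
  rcases Nat.even_or_odd (Nat.card (stabilizer G x)) with h | h
  · right
    obtain ⟨s, hs⟩ := exists_prime_orderOf_dvd_card' (G := stabilizer G x) 2 (even_iff_two_dvd.mp h)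
    have hs1 : (s : G) ≠ 1 := by
      intro e; rw [← Subgroup.orderOf_coe, e] at hs; simp at hs
    have hs2 : (s : G) * s = 1 := by rw [← pow_two, ← hs, ← Subgroup.orderOf_coe, pow_orderOf_eq_one]
    obtain ⟨c, hc⟩ := M.exists_conj_mem_Z hs2
    have h1 : (c⁻¹ * s * c) • c⁻¹ • x = c⁻¹ • x := by simpa using cj_fix (c := c⁻¹) s.2
    have hZ : M.Z ≤ stabilizer G (c⁻¹ • x) := by
      intro z hz
      by_cases hz1 : z = 1
      · rw [hz1]; exact one_mem _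
      refine hb.fix M.one_class hz1 (M.Z_sq hz) (cj_ne_one' c hs1) (M.Z_sq hc) ?_ h1
      obtain ⟨b, rfl⟩ := hz
      obtain ⟨b', hb'⟩ := hc
      rw [hb', x_conj_z]
    rcases M.le_B_or_eq_top (by omega) hZ with h2 | h2
    · exact Or.inr ⟨c⁻¹, M.eq_Z_of_bin hb hZ h2⟩
    · left
      rw [eq_top_iff]
      intro g _
      have h4 : c⁻¹ * g * c ∈ stabilizer G (c⁻¹ • x) := h2 ▸ Subgroup.mem_top _
      simpa [mul_assoc] using cj_fix (c := c) h4
  · exact Or.inl (M.eq_bot_of_odd hb hq h3 h)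

theorem bin_of_Z [IsPretransitive G Ω] {x : Ω} (hx : stabilizer G x = M.Z) : Bin G Ω := by
  have key : ∀ (g c : G), g • c • x = c • x ↔ c⁻¹ * g * c ∈ M.Z := fun g c => by
    rw [← hx, mem_stabilizer_iff, mul_smul, mul_smul, inv_smul_eq_iff]
  have sq : ∀ (g c : G), g • c • x = c • x → g * g = 1 := fun g c h => by
    by_contra h1
    exact cj_ne_one' c h1 (by simpa [mul_assoc] using M.Z_sq ((key g c).mp h))
  refine bin_of_stabilizers fun x₁ x₂ x₃ a b ha hb hab => ?_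
  obtain ⟨c₁, rfl⟩ := exists_smul_eq G x x₁
  obtain ⟨c₂, rfl⟩ := exists_smul_eq G x x₂
  obtain ⟨c₃, rfl⟩ := exists_smul_eq G x x₃
  by_cases ha1 : a = 1
  · right; rw [ha1, one_smul]
  by_cases hb1 : b = 1
  · right; rw [hab, hb1, one_smul]
  left
  have h1 := sq (b⁻¹ * a) c₃ (by rw [mul_smul, hab, inv_smul_smul])
  have h2 : b * a = a * b := by
    rw [inv_eq_of_mul_eq_one_right (sq b c₂ hb)] at h1
    rw [eq_inv_of_mul_eq_one_left h1, _root_.mul_inv_rev, inv_eq_of_mul_eq_one_right (sq a c₁ ha),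
      inv_eq_of_mul_eq_one_right (sq b c₂ hb)]
  have h4 := M.R.mem_B_of_commute (M.Z_le_U ((key a c₁).mp ha)) (cj_ne_one' c₁ ha1) (cj_comm' c₁ h2)
  have h5 := M.mem_Z_of_mem_B h4 (by
    have := sq b c₂ hb
    calc c₁⁻¹ * b * c₁ * (c₁⁻¹ * b * c₁) = c₁⁻¹ * (b * b) * c₁ := by simp [mul_assoc]
      _ = 1 := by rw [this]; simp)
  have h6 : c₂⁻¹ * c₁ ∈ M.B := M.mem_B_of_conj_U (M.Z_le_U h5) (cj_ne_one' c₁ hb1)
    (by simpa [mul_assoc] using M.Z_le_U ((key b c₂).mp hb))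
  ext g
  rw [mem_stabilizer_iff, mem_stabilizer_iff, key, key]
  constructor
  · intro h
    simpa [mul_assoc] using M.conj_mem_Z h6 h
  · intro h
    simpa [mul_assoc] using M.conj_mem_Z (inv_mem h6) h

end action

theorem mem_Z_iff (hq : 2 < Nat.card K) {z : G} : z ∈ M.Z ↔ z ∈ M.U ∧ ∀ u ∈ M.U, u * z = z * u := by
  constructor
  · rintro ⟨b, rfl⟩
    refine ⟨M.x_mem .., ?_⟩
    rintro _ ⟨a, d, rfl⟩
    exact M.x_conj_z ..
  · rintro ⟨⟨a, b, rfl⟩, h⟩
    obtain ⟨k, hk⟩ := exists_ne_one hq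
    have h1 := h _ (M.x_mem (a * k) 0)
    rw [x_mul, x_mul, map_mul] at h1
    have h2 : a * σ a * (σ k + k) = 0 := by
      have := (M.x_inj h1).2
      grobner
    rcases mul_eq_zero.mp h2 with h4 | h4
    · rw [eq_zero_of_mul_s h4]; exact M.z_mem b
    · exfalso
      have h5 := congrArg σ h4
      rw [map_add, Tw2.ss, map_zero] at h5
      have h6 : (k : K) * (k + 1) = 0 := by grobner
      refine hk (Units.ext ?_)
      have := (mul_eq_zero.mp h6).resolve_left k.ne_zero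
      rw [Units.val_one]; grobner

theorem center_iff (hq : 2 < Nat.card K) (H : Subgroup G) :
    (∃ P : Sylow 2 G, H = (Subgroup.center (P : Subgroup G)).map (P : Subgroup G).subtype) ↔
      ∃ c : G, ∀ g, g ∈ H ↔ c⁻¹ * g * c ∈ M.Z := by
  have := M.finite
  obtain ⟨S, hS⟩ : ∃ S : Sylow 2 G, (S : Subgroup G) = M.U :=
    ⟨M.R.sylowU M.isPGroup_U M.U_ne_bot M.not_two_dvd_card_H, rfl⟩
  have h1 : ∀ c g : G, g ∈ ((c • S : Sylow 2 G) : Subgroup G) ↔ c⁻¹ * g * c ∈ M.U := by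
    intro c g
    rw [Sylow.coe_subgroup_smul, Subgroup.mem_pointwise_smul_iff_inv_smul_mem, hS]
    simp
  have h2 : ∀ c g : G, g ∈ (Subgroup.center ((c • S : Sylow 2 G) : Subgroup G)).map
      ((c • S : Sylow 2 G) : Subgroup G).subtype ↔ c⁻¹ * g * c ∈ M.Z := by
    intro c g
    rw [M.mem_Z_iff hq, ← h1]
    constructor
    · rintro ⟨⟨g, hg⟩, h, rfl⟩
      refine ⟨hg, fun u hu => ?_⟩
      have h4 := congrArg Subtype.val (Subgroup.mem_center_iff.mp h ⟨c * u * c⁻¹, (h1 c _).mpr (by simpa [mul_assoc])⟩)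
      simpa [mul_assoc] using cj_comm' c h4
    · rintro ⟨hg, h⟩
      refine ⟨⟨g, hg⟩, Subgroup.mem_center_iff.mpr fun u => Subtype.ext ?_, rfl⟩
      simpa [mul_assoc] using cj_comm c (h _ ((h1 c _).mp u.2))
  constructor
  · rintro ⟨P, rfl⟩
    obtain ⟨c, rfl⟩ := exists_smul_eq G S P
    exact ⟨c, h2 c⟩
  · rintro ⟨c, hc⟩
    exact ⟨c • S, by ext g; rw [hc, h2]⟩

include M in
theorem bin_iff (hq : 3 < Nat.card K) (h3 : Nat.card K % 3 = 2) (H : Subgroup G) (hH : H ≠ ⊤) :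
    Bin G (G ⧸ H) ↔ (H = ⊥ ∨ ∃ P : Sylow 2 G, H = (Subgroup.center (P : Subgroup G)).map (P : Subgroup G).subtype) := by
  rw [M.center_iff (by omega)]
  constructor
  · intro hb
    rcases M.stabilizer_of_bin hb hq h3 ((1 : G) : G ⧸ H) with h | h | ⟨c, h⟩
    · left; rwa [stabilizer_quotient] at h
    · rw [stabilizer_quotient] at h; exact absurd h hH
    · refine Or.inr ⟨c⁻¹, fun g => ?_⟩
      rw [← h, mem_stabilizer_iff, mul_smul, mul_smul, inv_smul_smul, inv_inv, smul_left_cancel_iff,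
        ← mem_stabilizer_iff, stabilizer_quotient]
  · rintro (rfl | ⟨c, hc⟩)
    · exact bin_bot
    · refine M.bin_of_Z (x := ((c⁻¹ : G) : G ⧸ H)) ?_
      ext g
      rw [mem_stabilizer_coe, hc]
      simp [mul_assoc]

end Model

end Cfsg.Agent.H9.Suz
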