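import Cfsg.Agent.H9.Tori

/-!
More on cyclic self-centralising Hall subgroups: subgroups contained in a torus; fixed-point-free tori in rank one.
-/

set_option autoImplicit false
set_option linter.unusedSectionVars false

namespace Cfsg.Agent.H9
open MulAction
open scoped commutatorElement

variable {G : Type*} [Group G]

theorem cj_ne_one {x : G} (c : G) (h : x ≠ 1) : c * x * c⁻¹ ≠ 1 := fun e => h (by simpa [mul_inv_eq_one] using e)

theorem cj_ne_one' {x : G} (c : G) (h : x ≠ 1) : c⁻¹ * x * c ≠ 1 := by simpa using cj_ne_one c⁻¹ h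

theorem cj_comm {x y : G} (c : G) (h : x * y = y * x) :
    (c * x * c⁻¹) * (c * y * c⁻¹) = (c * y * c⁻¹) * (c * x * c⁻¹) := by rw [conj_mul, conj_mul, h]

theorem cj_comm' {x y : G} (c : G) (h : x * y = y * x) :
    (c⁻¹ * x * c) * (c⁻¹ * y * c) = (c⁻¹ * y * c) * (c⁻¹ * x * c) := by simpa using cj_comm c⁻¹ h

theorem cj_pow' {c y : G} {k : ℕ} (h : (c⁻¹ * y * c) ^ k = 1) : y ^ k = 1 := by
  have : c⁻¹ * y * c = c⁻¹ * y * c⁻¹⁻¹ := by rw [inv_inv]
  rw [this, conj_pow] at h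
  by_contra h'
  exact cj_ne_one _ h' h

theorem orderOf_cj (c g : G) : orderOf (c * g * c⁻¹) = orderOf g := (MulAut.conj c).orderOf_eq g

theorem orderOf_cj' (c g : G) : orderOf (c⁻¹ * g * c) = orderOf g := by simpa using orderOf_cj c⁻¹ g

theorem eq_one_of_coprime {x : G} {a b : ℕ} (hab : Nat.Coprime a b) (ha : x ^ a = 1) (hb : x ^ b = 1) : x = 1 := by
  have := Nat.dvd_gcd (orderOf_dvd_of_pow_eq_one ha) (orderOf_dvd_of_pow_eq_one hb)
  rw [hab] at this
  simpa using this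

theorem isCyclic_of_cj_le {P A : Subgroup G} [IsCyclic A] {c : G} (h : ∀ x ∈ P, c⁻¹ * x * c ∈ A) : IsCyclic P := by
  let f : P →* A :=
    { toFun := fun x => ⟨c⁻¹ * x * c, h x x.2⟩
      map_one' := by ext; simp
      map_mul' := fun x y => by ext; simp [mul_assoc] }
  refine isCyclic_of_injective f fun x y e => Subtype.ext ?_
  have : c⁻¹ * x * c = c⁻¹ * y * c := congrArg Subtype.val e
  simpa using this

theorem conjSet_pow' {S : Set G} {k : ℕ} (h : ∀ s ∈ S, s ^ k = 1) {y : G} (hy : y ∈ conjSet S) : y ^ k = 1 := by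
  obtain ⟨g, s, hs, rfl⟩ := hy
  rw [conj_pow, h s hs]; simp

theorem conjSet_ne_one {T : Subgroup G} {y : G} (hy : y ∈ conjSet (sharp T)) : y ≠ 1 := by
  obtain ⟨g, s, hs, rfl⟩ := hy
  exact cj_ne_one g hs.2

theorem conjSet_of_cj {S : Set G} {y c : G} (h : c⁻¹ * y * c ∈ conjSet S) : y ∈ conjSet S := by
  obtain ⟨g, s, hs, e⟩ := h
  refine ⟨c * g, s, hs, ?_⟩
  calc y = c * (c⁻¹ * y * c) * c⁻¹ := by simp [mul_assoc]
    _ = _ := by rw [e]; simp [mul_assoc]

theorem ncard_sharp [Finite G] (T : Subgroup G) : (sharp T).ncard = Nat.card T - 1 := by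
  have : sharp T = (T : Set G) \ {1} := rfl
  rw [this, Set.ncard_sdiff_singleton_of_mem (one_mem T), ← Nat.card_coe_set_eq]
  rfl

variable [Finite G] {t W : ℕ}

theorem exists_prime_order_mem {A : Subgroup G} (h : A ≠ ⊥) : ∃ x ∈ A, ∃ p : ℕ, p.Prime ∧ orderOf x = p := by
  obtain ⟨⟨x, hx⟩, hx1⟩ := Subgroup.ne_bot_iff_exists_ne_one.mp h
  obtain ⟨l, hl, hld⟩ := Nat.exists_prime_and_dvd (n := orderOf x) (by simpa using hx1)
  obtain ⟨k, hk⟩ := exists_pow_orderOf_eq_prime hld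
  exact ⟨_, pow_mem hx k, l, hl, hk⟩

theorem ToriHyp.isZGroup (H : ToriHyp G t W) {S : Subgroup G} (hS : ∀ p : ℕ, p.Prime → p ∣ Nat.card S → p ∣ t) :
    IsZGroup S := by
  refine ⟨fun p hp P => ?_⟩
  have : Fact p.Prime := ⟨hp⟩
  rcases subsingleton_or_nontrivial (P : Subgroup S) with h | h
  · infer_instance
  have hc := P.isPGroup'.center_nontrivial
  have hd : p ∣ Nat.card (Subgroup.center (P : Subgroup S)) :=
    ((P.isPGroup'.to_subgroup _).card_eq_or_dvd).resolve_left Finite.one_lt_card.ne'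
  obtain ⟨z, hz⟩ := exists_prime_orderOf_dvd_card' p hd
  have hz' : orderOf (z.1.1.1 : G) = p := by rw [Subgroup.orderOf_coe, Subgroup.orderOf_coe, Subgroup.orderOf_coe, hz]
  have hpt : p ∣ t := hS p hp (by rw [← hz', Subgroup.orderOf_coe]; exact orderOf_dvd_natCard _)
  have := (H p hp hpt _ hz').1
  let f : (P : Subgroup S) →* Subgroup.centralizer {(z.1.1.1 : G)} :=
    (S.subtype.comp (P : Subgroup S).subtype).codRestrict _ fun x => by
      rw [Subgroup.mem_centralizer_singleton_iff]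
      exact congrArg (fun y : (P : Subgroup S) => (y.1.1 : G)) (Subgroup.mem_center_iff.mp z.2 x)
  exact isCyclic_of_injective f fun x y e => Subtype.ext (Subtype.ext (congrArg (fun w : Subgroup.centralizer {(z.1.1.1 : G)} => (w : G)) e))

/-- A subgroup whose order only involves primes dividing `t` normalises a torus. -/
theorem ToriHyp.exists_le_normalizer (H : ToriHyp G t W) {S : Subgroup G} (h0 : S ≠ ⊥)
    (hS : ∀ p : ℕ, p.Prime → p ∣ Nat.card S → p ∣ t) :
    ∃ T : Subgroup G, IsTorus t W T ∧ S ≤ Subgroup.normalizer (T : Set G) := by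
  have := H.isZGroup hS
  obtain ⟨A, hA0, hAS, hAc, hAn⟩ : ∃ A : Subgroup G, A ≠ ⊥ ∧ A ≤ S ∧ (∀ x ∈ A, ∀ y ∈ A, x * y = y * x) ∧
      S ≤ Subgroup.normalizer (A : Set G) := by
    by_cases h : commutator S = ⊥
    · refine ⟨S, h0, le_rfl, fun x hx y hy => ?_, Subgroup.le_normalizer⟩
      have h1 : ⁅(⟨x, hx⟩ : S), (⟨y, hy⟩ : S)⁆ ∈ commutator S :=
        Subgroup.commutator_mem_commutator (Subgroup.mem_top _) (Subgroup.mem_top _)
      rw [h, Subgroup.mem_bot, commutatorElement_eq_one_iff_mul_comm] at h1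
      exact congrArg Subtype.val h1
    · refine ⟨(commutator S).map S.subtype, fun e => h ((Subgroup.map_eq_bot_iff_of_injective _
        S.subtype_injective).mp e), Subgroup.map_subtype_le _, ?_, ?_⟩
      · rintro _ ⟨x, hx, rfl⟩ _ ⟨y, hy, rfl⟩
        exact congrArg Subtype.val (comm_of_isCyclic (IsZGroup.isCyclic_commutator S) hx hy)
      · intro g hg
        apply Subgroup.mem_normalizer_fintype
        rintro _ ⟨x, hx, rfl⟩
        exact ⟨_, (inferInstance : (commutator S).Normal).conj_mem x hx ⟨g, hg⟩, rfl⟩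
  obtain ⟨x, hx, p, hp, ho⟩ := exists_prime_order_mem hA0
  have hT := H.isTorus hp (hS p hp (ho ▸ orderOf_dvd_of_pow_eq_one (pow_card_of_mem' (hAS hx)))) ho
  refine ⟨_, hT, ?_⟩
  rw [← hT.normalizer_eq (A₀ := A) (fun y hy => Subgroup.mem_centralizer_singleton_iff.mpr (hAc y hy x hx)) hA0]
  exact hAn

theorem pow_mem_of_card_normalizer {T : Subgroup G} {w : ℕ}
    (h : Nat.card (Subgroup.normalizer (T : Set G)) = w * Nat.card T) {g : G}
    (hg : g ∈ Subgroup.normalizer (T : Set G)) : g ^ w ∈ T := by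
  have h1 : (T.subgroupOf (Subgroup.normalizer (T : Set G))).index = w := by
    have h2 := (T.subgroupOf (Subgroup.normalizer (T : Set G))).index_mul_card
    rw [h, Nat.card_congr (Subgroup.subgroupOfEquivOfLe Subgroup.le_normalizer).toEquiv] at h2
    exact Nat.eq_of_mul_eq_mul_right Nat.card_pos h2
  have h3 := Subgroup.pow_index_mem (H := T.subgroupOf (Subgroup.normalizer (T : Set G))) ⟨g, hg⟩
  rw [h1] at h3
  exact h3

theorem mem_of_pow_mem_coprime {T : Subgroup G} {g : G} {w : ℕ} (h : g ^ w ∈ T) (hc : Nat.Coprime w (orderOf g)) :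
    g ∈ T := by
  obtain ⟨m, hm⟩ := exists_pow_eq_self_of_coprime hc
  rw [← hm]
  exact pow_mem h m

/-- An involution normalising a torus of odd order inverts it. -/
theorem IsTorus.inverted {T : Subgroup G} (hT : IsTorus t W T) (ht : Odd t) {s : G} (hs1 : s ≠ 1) (hs : s * s = 1)
    (hn : s ∈ Subgroup.normalizer (T : Set G)) {x : G} (hx : x ∈ T) : s * x * (s * x) = 1 := by
  have hs' : s⁻¹ = s := inv_eq_of_mul_eq_one_right hs
  have h1 : s * x * s ∈ T := by simpa [hs'] using (Subgroup.mem_normalizer_iff.mp hn x).mp hx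
  by_contra h
  have h2 : s * x * (s * x) ∈ T := by rw [← mul_assoc]; exact mul_mem h1 hx
  have h3 : s ∈ T := by
    rw [← hT.cent _ h2 h, Subgroup.mem_centralizer_singleton_iff]
    have h4 := comm_of_isCyclic hT.cyc h1 hx
    calc s * (s * x * (s * x)) = (s * s) * (x * (s * x * s)) * s⁻¹ := by simp [mul_assoc]
      _ = s * x * s * x * s := by rw [hs, one_mul, ← h4, hs']
      _ = _ := by simp [mul_assoc]
  exact hs1 (eq_one_of_coprime ((Nat.coprime_two_left.mpr ht).coprime_dvd_right hT.dvd) (by rw [pow_two, hs])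
    (pow_card_of_mem' h3))

namespace RankOne

variable (R : RankOne G) (hH : ∀ h ∈ R.H, h ≠ 1 → ∀ u ∈ R.U, h * u = u * h → u = 1)
include hH

/-- A coset of `U` through a non-trivial element of the torus consists of conjugates. -/
theorem exists_conj_eq {h u : G} (hh : h ∈ R.H) (h1 : h ≠ 1) (hu : u ∈ R.U) : ∃ v ∈ R.U, u * h = v * h * v⁻¹ := by
  let f : R.U → R.U := fun v => ⟨v * (h * (v : G)⁻¹ * h⁻¹), mul_mem v.2 (R.conj_mem h hh _ (inv_mem v.2))⟩
  have hf : Function.Injective f := by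
    intro v w e
    have e' : (v : G) * (h * (v : G)⁻¹ * h⁻¹) = w * (h * (w : G)⁻¹ * h⁻¹) := congrArg Subtype.val e
    have h2 : h * ((w : G)⁻¹ * v) = ((w : G)⁻¹ * v) * h := by
      calc h * ((w : G)⁻¹ * v) = (w : G)⁻¹ * (w * (h * (w : G)⁻¹ * h⁻¹)) * h * v := by simp [mul_assoc]
        _ = _ := by rw [← e']; simp [mul_assoc]
    have := hH h hh h1 _ (mul_mem (inv_mem w.2) v.2) h2
    exact Subtype.ext (inv_mul_eq_one.mp this).symm
  obtain ⟨v, hv⟩ := Finite.injective_iff_surjective.mp hf ⟨u, hu⟩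
  have hv' : (v : G) * (h * (v : G)⁻¹ * h⁻¹) = u := congrArg Subtype.val hv
  exact ⟨v, v.2, by rw [← hv']; simp [mul_assoc]⟩

theorem H_fix {h : G} (hh : h ∈ R.H) (h1 : h ≠ 1) {x : R.Pt} (hx : h • x = x) : x = R.inf ∨ x = R.zero := by
  by_cases h0 : x = R.inf
  · exact Or.inl h0
  obtain ⟨u, hu, rfl⟩ := R.exists_U h0
  right
  rw [hH h hh h1 u hu ((R.H_fix_iff hh hu).mp hx), one_smul]

theorem mem_of_conj_mem {g h : G} (hh : h ∈ R.H) (h1 : h ≠ 1) (hg : g * h * g⁻¹ ∈ R.H) : g ∈ R.H ∨ R.n * g ∈ R.H := by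
  have key : ∀ x : R.Pt, h • x = x → g • x = R.inf ∨ g • x = R.zero := fun x hx =>
    R.H_fix hH hg (cj_ne_one g h1) (by rw [mul_smul, mul_smul, inv_smul_smul, hx])
  have hne : g • R.inf ≠ g • R.zero := fun e => R.zero_ne_inf (smul_left_cancel g e).symm
  rcases key _ (R.H_smul_inf hh) with a | a <;> rcases key _ (R.H_smul_zero hh) with b | b
  · exact absurd (a.trans b.symm) hne
  · exact Or.inl (R.mem_H_iff.mpr ⟨a, b⟩)
  · exact Or.inr (R.swap_iff.mp ⟨a, b⟩)
  · exact absurd (a.trans b.symm) hne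

omit hH in
theorem conj_of_mem {g h : G} (hh : h ∈ R.H) (hg : g ∈ R.H ∨ R.n * g ∈ R.H) :
    (g ∈ R.H ∧ g * h * g⁻¹ = h) ∨ g * h * g⁻¹ = h⁻¹ := by
  rcases hg with hg | hg
  · exact Or.inl ⟨hg, by rw [R.H_comm hg hh, mul_inv_cancel_right]⟩
  · right
    have h1 : R.n * g * h * (R.n * g)⁻¹ = h := by rw [R.H_comm hg hh, mul_inv_cancel_right]
    rw [← R.n_conj h hh]
    calc g * h * g⁻¹ = R.n⁻¹ * (R.n * g * h * (R.n * g)⁻¹) * R.n := by simp [mul_assoc]
      _ = _ := by rw [h1, R.n_inv]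

end RankOne

end Cfsg.Agent.H9
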