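import Cfsg.Agent.H9.SzApi
import Cfsg.Agent.H9.Tori2
import Cfsg.Agent.H9.PpdLin

/-!
The cyclic tori of a model of the Suzuki group.
-/

set_option autoImplicit false
set_option linter.unusedSectionVars false
set_option linter.unusedSimpArgs false

namespace Cfsg.Agent.H9.Suz
open Matrix MulAction

theorem coprime_sq_add_one {q : ℕ} (hq : 0 < q) (h2 : 2 ∣ q) : Nat.Coprime (q ^ 2 + 1) (q ^ 2 * (q - 1)) := by
  refine Nat.Coprime.mul_right (Nat.coprime_self_add_left.mpr (Nat.coprime_one_left _)) ?_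
  obtain ⟨s, rfl⟩ : ∃ s, q = s + 1 := ⟨q - 1, by omega⟩
  rw [Nat.add_sub_cancel, show (s + 1) ^ 2 + 1 = 2 + (s + 2) * s by ring, Nat.coprime_add_mul_right_left,
    Nat.coprime_two_left, Nat.odd_iff]
  omega

theorem odd_sq_add_one {q : ℕ} (h2 : 2 ∣ q) : Odd (q ^ 2 + 1) :=
  Even.add_one (even_iff_two_dvd.mpr (h2.trans (dvd_pow_self q two_ne_zero)))

theorem four_dvd_of_modEq {q p : ℕ} (h2 : 2 ∣ q) [hp : Fact p.Prime] (hpt : p ∣ q ^ 2 + 1) (a b : ℕ)
    (hab : b ≤ a) (h : q ^ a ≡ q ^ b [MOD p]) : 4 ∣ a - b := by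
  have h1 : ((q : ZMod p)) ^ 2 + 1 = 0 := by
    simpa using (ZMod.natCast_eq_zero_iff _ p).mpr hpt
  have h3 : (2 : ZMod p) ≠ 0 := by
    intro h
    have := (ZMod.natCast_eq_zero_iff 2 p).mp (by simpa using h)
    rw [Nat.prime_dvd_prime_iff_eq hp.out Nat.prime_two] at this
    exact (odd_sq_add_one h2).not_two_dvd_nat (this ▸ hpt)
  have h0 : (q : ZMod p) ≠ 0 := by
    intro h; rw [h] at h1; simp at h1
  have ho : orderOf (q : ZMod p) = 2 ^ (1 + 1) := by
    apply orderOf_eq_prime_pow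
    · intro h
      apply h3
      linear_combination h1 - h
    · linear_combination (q ^ 2 - 1) * h1
  rw [show 4 = 2 ^ (1 + 1) from rfl, ← ho, orderOf_dvd_iff_pow_eq_one]
  have h4 : (q : ZMod p) ^ a = (q : ZMod p) ^ b := by
    have := (ZMod.natCast_eq_natCast_iff _ _ _).mpr h
    simpa using this
  obtain ⟨c, rfl⟩ := Nat.exists_eq_add_of_le hab
  rw [Nat.add_sub_cancel_left]
  rw [pow_add] at h4
  exact mul_left_cancel₀ (pow_ne_zero b h0) (h4.trans (mul_one _).symm)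

variable {K : Type*} [Field K] [Tw2 K] [CharP K 2] {G : Type*} [Group G]

local notation "σ" => Tw2.s (K := K)

namespace Model

variable (M : Model K G) [Finite K]

theorem hH : ∀ h ∈ M.R.H, h ≠ 1 → ∀ u ∈ M.R.U, h * u = u * h → u = 1 := fun _ hh h1 _ hu e => M.comm_H_U hh h1 hu e

theorem card_B : Nat.card M.B = Nat.card K ^ 2 * (Nat.card K - 1) := by
  have := M.R.card_B
  rwa [R_B, R_U, R_H, card_U, card_H] at this

theorem H_sq {h : G} (hh : h ∈ M.H) (e : h * h = 1) : h = 1 := by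
  have := M.finite
  refine eq_one_of_coprime (a := 2) ?_ (by rw [pow_two, e]) (pow_card_of_mem' hh)
  exact (Nat.Prime.coprime_iff_not_dvd Nat.prime_two).mpr M.not_two_dvd_card_H

theorem mem_H_of_comm {g h : G} (hh : h ∈ M.H) (h1 : h ≠ 1) (e : g * h = h * g) : g ∈ M.H := by
  have := M.finite
  have h2 : g * h * g⁻¹ = h := by rw [e, mul_inv_cancel_right]
  rcases M.R.conj_of_mem hh (M.R.mem_of_conj_mem M.hH hh h1 (h2.symm ▸ hh)) with h3 | h3
  · exact h3.1
  · exact absurd (M.H_sq hh (by rw [h2, eq_inv_iff_mul_eq_one] at h3; exact h3)) h1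

theorem not_dvd_index_H {l : ℕ} (hl : l.Prime) (hd : l ∣ Nat.card K - 1) : ¬ l ∣ M.H.index := by
  have := M.finite
  have h := M.R.index_H
  rw [R_H, R_U, card_U] at h
  rw [h]
  intro h1
  have hc := coprime_sq_add_one (Nat.card_pos (α := K)) two_dvd_card
  rcases (Nat.Prime.dvd_mul hl).mp h1 with h2 | h2
  · exact hl.one_lt.ne' (Nat.eq_one_of_dvd_coprimes hc h2 (hd.mul_left _))
  · have h3 := hl.dvd_of_dvd_pow h2
    have h4 : l ∣ Nat.card K - (Nat.card K - 1) := Nat.dvd_sub h3 hd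
    have := Nat.card_pos (α := K)
    rw [show Nat.card K - (Nat.card K - 1) = 1 by omega] at h4
    exact hl.one_lt.ne' (Nat.dvd_one.mp h4)

omit [Tw2 K] in
theorem eq_two_of_dvd_card {l : ℕ} (hl : l.Prime) (hd : l ∣ Nat.card K) : l = 2 := by
  have := Fintype.ofFinite K
  obtain ⟨n, -, hn⟩ := FiniteField.card K 2
  rw [Nat.card_eq_fintype_card, hn] at hd
  exact (Nat.prime_dvd_prime_iff_eq hl Nat.prime_two).mp (hl.dvd_of_dvd_pow hd)

theorem exists_conj_B_of_comm {l : ℕ} (hl : l.Prime) (hd : l ∣ Nat.card K ^ 2 * (Nat.card K - 1)) {x g : G}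
    (hx : orderOf x = l) (e : g * x = x * g) : ∃ c : G, c⁻¹ * g * c ∈ M.B := by
  have := M.finite
  have : Fact l.Prime := ⟨hl⟩
  have hx1 : x ≠ 1 := by rintro rfl; exact hl.one_lt.ne (by simpa using hx)
  have hxl : x ^ l ^ 1 = 1 := by rw [pow_one, ← hx, pow_orderOf_eq_one]
  rcases (Nat.Prime.dvd_mul hl).mp hd with h | h
  · obtain rfl := eq_two_of_dvd_card hl (hl.dvd_of_dvd_pow h)
    obtain ⟨c, hc⟩ := exists_conj_mem_of_not_dvd_index hxl
      (M.R.not_dvd_index_U M.isPGroup_U M.U_ne_bot M.not_two_dvd_card_H)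
    exact ⟨c, M.R.mem_B_of_commute hc (cj_ne_one' c hx1) (cj_comm' c e)⟩
  · obtain ⟨c, hc⟩ := exists_conj_mem_of_not_dvd_index hxl (M.not_dvd_index_H hl h)
    exact ⟨c, M.R.H_le_B (M.mem_H_of_comm hc (cj_ne_one' c hx1) (cj_comm' c e))⟩

include M in
theorem pow_of_comm {p : ℕ} (hp : p.Prime) (hd : p ∣ Nat.card K ^ 2 + 1) {y c : G} (hy : orderOf y = p)
    (h : c * y = y * c) : c ^ (Nat.card K ^ 2 + 1) = 1 := by
  have := M.finite
  have hco := coprime_sq_add_one (Nat.card_pos (α := K)) two_dvd_card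
  have h1 : Nat.Coprime (orderOf c) (Nat.card K ^ 2 * (Nat.card K - 1)) := by
    apply Nat.coprime_of_dvd
    intro l hl h2 h3
    obtain ⟨k, hk⟩ := exists_pow_orderOf_eq_prime h2
    obtain ⟨d, hd'⟩ := M.exists_conj_B_of_comm hl h3 hk (Commute.pow_right h.symm k)
    have h4 := cj_pow' (pow_card_of_mem' hd')
    rw [card_B] at h4
    exact hp.one_lt.ne' (Nat.eq_one_of_dvd_coprimes hco hd (hy ▸ orderOf_dvd_of_pow_eq_one h4))
  have h2 := orderOf_dvd_natCard c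
  rw [M.card_G] at h2
  exact orderOf_dvd_iff_pow_eq_one.mp (h1.dvd_of_dvd_mul_right h2)

include M in
theorem toriHyp' : ToriHyp G (Nat.card K ^ 2 + 1) 4 := by
  intro p hp hd y hy
  have := M.finite
  have : Fact p.Prime := ⟨hp⟩
  have h := ppd_centralizer (K := K) (V := (Fin 4 → K) × K)
    ((LinearMap.prodMapRingHom K (Fin 4 → K) K).toMonoidHom.comp
      (((Matrix.toLinAlgEquiv' (R := K) (n := Fin 4)).toMonoidHom.comp M.ρ).prod 1)) (p := p) (e := 4) ?_
    (by norm_num) (by simp) (four_dvd_of_modEq two_dvd_card hd) hy ?_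
  · exact ⟨h.1, fun c hc => M.pow_of_comm hp hd hy hc, h.2⟩
  · intro g g' e
    apply M.inj
    apply (Matrix.toLinAlgEquiv' (R := K) (n := Fin 4)).injective
    exact LinearMap.ext fun v => congrArg Prod.fst (LinearMap.congr_fun e (v, 0))
  · intro c hc h1
    exact eq_one_of_coprime ((coprime_sq_add_one (Nat.card_pos (α := K)) two_dvd_card).coprime_dvd_right
      (Dvd.intro_left _ rfl)) (M.pow_of_comm hp hd hy hc) h1

include M in
theorem toriHyp : ToriHyp G ((Nat.card K - 1) * (Nat.card K ^ 2 + 1)) 4 := by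
  intro p hp hd y hy
  have := M.finite
  have : Fact p.Prime := ⟨hp⟩
  rcases (Nat.Prime.dvd_mul hp).mp hd with h | h
  · have hy1 : y ≠ 1 := by rintro rfl; exact hp.one_lt.ne (by simpa using hy)
    obtain ⟨c, hc⟩ := exists_conj_mem_of_not_dvd_index (x := y) (k := 1)
      (by rw [pow_one, ← hy, pow_orderOf_eq_one]) (M.not_dvd_index_H hp h)
    have h1 : ∀ g : G, g * y = y * g → c⁻¹ * g * c ∈ M.H := fun g hg =>
      M.mem_H_of_comm hc (cj_ne_one' c hy1) (cj_comm' c hg)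
    have := M.isCyclic_H
    refine ⟨isCyclic_of_cj_le (A := M.H) (c := c) fun g hg => h1 g (Subgroup.mem_centralizer_singleton_iff.mp hg),
      fun g hg => ?_, ?_⟩
    · rw [pow_mul, ← M.card_H, cj_pow' (pow_card_of_mem' (h1 g hg)), one_pow]
    · refine le_trans (Set.ncard_le_ncard (t := {y, y⁻¹}) ?_) ((Set.ncard_insert_le _ _).trans (by simp))
      rintro _ ⟨hz, g, rfl⟩
      have h2 := h1 _ hz
      have h3 : c⁻¹ * (g * y * g⁻¹) * c = (c⁻¹ * g * c) * (c⁻¹ * y * c) * (c⁻¹ * g * c)⁻¹ := by simp [mul_assoc]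
      rw [h3] at h2
      rcases M.R.conj_of_mem hc (M.R.mem_of_conj_mem M.hH hc (cj_ne_one' c hy1) h2) with h4 | h4
      · left; rw [← h3] at h4; simpa using h4.2
      · right
        rw [← h3, show (c⁻¹ * y * c)⁻¹ = c⁻¹ * y⁻¹ * c by simp [mul_assoc]] at h4
        exact mul_left_cancel (mul_right_cancel h4)
  · obtain ⟨h1, h2, h3⟩ := M.toriHyp' p hp h y hy
    exact ⟨h1, fun c hc => by rw [mul_comm, pow_mul, h2 c hc, one_pow], h3⟩

theorem classify (g : G) : g = 1 ∨ g ∈ conjSet (sharp M.U) ∨ g ∈ conjSet (sharp M.H) ∨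
    g ∈ {g : G | g ≠ 1 ∧ g ^ (Nat.card K ^ 2 + 1) = 1} := by
  have := M.finite
  by_cases h1 : g = 1
  · exact Or.inl h1
  right
  obtain ⟨l, hl, hd⟩ := Nat.exists_prime_and_dvd (n := orderOf g) (by simpa using h1)
  obtain ⟨k, hk⟩ := exists_pow_orderOf_eq_prime hd
  have h2 := hd.trans (orderOf_dvd_natCard g)
  rw [M.card_G] at h2
  rcases (Nat.Prime.dvd_mul hl).mp h2 with h | h
  · exact Or.inr (Or.inr ⟨h1, M.pow_of_comm hl h hk (Commute.self_pow g k)⟩)
  obtain ⟨c, hc⟩ := M.exists_conj_B_of_comm hl h hk (Commute.self_pow g k)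
  obtain ⟨u, hu, h, hh, e⟩ := M.mem_B_iff.mp hc
  by_cases h3 : h = 1
  · rw [h3, mul_one] at e
    exact Or.inl ⟨c, u, ⟨hu, e ▸ cj_ne_one' c h1⟩, by rw [← e]; simp [mul_assoc]⟩
  · obtain ⟨v, -, hv⟩ := M.R.exists_conj_eq M.hH hh h3 hu
    exact Or.inr (Or.inl (conjSet_of_cj (c := c) ⟨v, h, ⟨hh, h3⟩, e.trans hv⟩))

theorem ncard_conj_U : (conjSet (sharp M.U)).ncard = (Nat.card K ^ 2 + 1) * (Nat.card K ^ 2 - 1) := by
  have := M.finite
  have h := M.R.index_B
  rw [R_B, R_U, card_U] at h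
  rw [ncard_conjSet _ M.B, h, ncard_sharp, card_U]
  · rintro g hg s ⟨hs, hs1⟩
    exact ⟨M.R.conj_mem_U hg hs, cj_ne_one _ hs1⟩
  · rintro g s ⟨hs, hs1⟩ ⟨h, -⟩
    have h1 := M.R.U_smul_inf h
    rw [mul_smul, mul_smul, ← eq_inv_smul_iff] at h1
    exact inv_mem_iff.mp (M.R.smul_inf_eq_iff.mp (M.R.U_fix hs hs1 h1))

theorem ncard_conj_H :
    2 * (conjSet (sharp M.H)).ncard = (Nat.card K ^ 2 + 1) * Nat.card K ^ 2 * (Nat.card K - 2) := by
  have := M.finite
  let N : Subgroup G := adj M.H M.n (by rw [M.n_sq]; exact one_mem _) (by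
    intro x hx
    rw [M.n_inv]
    exact (M.R.n_conj x hx) ▸ inv_mem hx)
  have hN : ∀ g, g ∈ N ↔ g ∈ M.H ∨ M.n * g ∈ M.H := by
    intro g
    rw [mem_adj]
    refine or_congr_right ⟨fun h => ?_, fun h => ?_⟩
    · have := inv_mem h
      rw [← M.R.n_conj _ h, R_n, mul_assoc, mul_assoc, n_sq, mul_one] at this
      exact this
    · have := inv_mem h
      rw [← M.R.n_conj _ h, R_n, ← mul_assoc, n_sq, one_mul] at this
      exact this
  have h1 : Nat.card N = 2 * (Nat.card K - 1) := by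
    rw [card_adj, card_H]
    exact fun h => M.R.n_not_mem (M.R.H_le_B h)
  have h2 := N.index_mul_card
  rw [h1, M.card_G] at h2
  have h3 : 1 < Nat.card K := Finite.one_lt_card
  rw [ncard_conjSet _ N, ncard_sharp, card_H]
  · rw [← mul_assoc, show Nat.card K - 1 - 1 = Nat.card K - 2 from rfl]
    congr 1
    apply Nat.eq_of_mul_eq_mul_right (show 0 < Nat.card K - 1 by omega)
    linarith
  · rintro g hg s ⟨hs, hs1⟩
    refine ⟨?_, cj_ne_one _ hs1⟩
    rcases M.R.conj_of_mem hs ((hN g).mp hg) with h | h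
    · rw [h.2]; exact hs
    · rw [h]; exact inv_mem hs
  · rintro g s ⟨hs, hs1⟩ ⟨h, -⟩
    exact (hN g).mpr (M.R.mem_of_conj_mem M.hH hs hs1 h)

include M in
theorem ncard_X : 2 * {g : G | g ≠ 1 ∧ g ^ (Nat.card K ^ 2 + 1) = 1}.ncard =
    Nat.card K ^ 2 * (Nat.card K - 1) * (Nat.card K * (Nat.card K - 1)) := by
  have := M.finite
  have hco := coprime_sq_add_one (Nat.card_pos (α := K)) two_dvd_card
  have huniv : (Set.univ : Set G) = {1} ∪ conjSet (sharp M.U) ∪ conjSet (sharp M.H) ∪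
      {g : G | g ≠ 1 ∧ g ^ (Nat.card K ^ 2 + 1) = 1} := by
    symm
    rw [Set.eq_univ_iff_forall]
    intro g
    simpa only [Set.mem_union, Set.mem_singleton_iff, or_assoc] using M.classify g
  have pU : ∀ g ∈ conjSet (sharp M.U), g ^ (Nat.card K ^ 2) = 1 := fun g hg =>
    conjSet_pow' (fun s hs => M.card_U ▸ pow_card_of_mem' hs.1) hg
  have pH : ∀ g ∈ conjSet (sharp M.H), g ^ (Nat.card K - 1) = 1 := fun g hg =>
    conjSet_pow' (fun s hs => M.card_H ▸ pow_card_of_mem' hs.1) hg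
  have h3 : 1 < Nat.card K := Finite.one_lt_card
  have hcard := congrArg Set.ncard huniv
  rw [Set.ncard_univ, Set.ncard_union_eq, Set.ncard_union_eq, Set.ncard_union_eq, Set.ncard_singleton,
    ncard_conj_U, M.card_G] at hcard
  · have h1 := M.ncard_conj_H
    obtain ⟨s, hs⟩ : ∃ s, Nat.card K = s + 2 := ⟨Nat.card K - 2, by omega⟩
    rw [hs] at h1 hcard ⊢
    rw [show (s + 2) ^ 2 - 1 = s ^ 2 + 4 * s + 3 by apply Nat.sub_eq_of_eq_add; ring] at hcard
    rw [show s + 2 - 1 = s + 1 from rfl] at hcard ⊢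
    rw [Nat.add_sub_cancel] at h1
    zify at h1 hcard ⊢
    linear_combination -2 * hcard - h1
  · rw [Set.disjoint_left]
    rintro g rfl hg
    exact conjSet_ne_one hg rfl
  · rw [Set.disjoint_left]
    rintro g (rfl | h) hg
    · exact conjSet_ne_one hg rfl
    · refine conjSet_ne_one hg (eq_one_of_coprime ?_ (pU g h) (pH g hg))
      apply Nat.Coprime.pow_left
      obtain ⟨s, hs⟩ : ∃ s, Nat.card K = s + 1 := ⟨Nat.card K - 1, by omega⟩
      rw [hs]; simp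
  · rw [Set.disjoint_left]
    rintro g ((rfl | h) | h) hg
    · exact hg.1 rfl
    · exact hg.1 (eq_one_of_coprime (hco.coprime_dvd_right (Dvd.intro _ rfl)) hg.2 (pU g h))
    · exact hg.1 (eq_one_of_coprime (hco.coprime_dvd_right (Dvd.intro_left _ rfl)) hg.2 (pH g h))

include M in
theorem not_three_dvd (h3 : Nat.card K % 3 = 2) : ¬ 3 ∣ Nat.card G := by
  rw [M.card_G, Nat.Prime.dvd_mul Nat.prime_three, Nat.Prime.dvd_mul Nat.prime_three]
  rintro (h | h | h)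
  · rw [Nat.dvd_iff_mod_eq_zero, Nat.add_mod, Nat.pow_mod, h3] at h
    norm_num at h
  · have := Nat.prime_three.dvd_of_dvd_pow h
    omega
  · omega

include M in
theorem two_tori (hq : 2 < Nat.card K) (h3 : Nat.card K % 3 = 2) : ∃ T₁ T₂ : Subgroup G,
    IsTorus (Nat.card K ^ 2 + 1) 4 T₁ ∧ IsTorus (Nat.card K ^ 2 + 1) 4 T₂ ∧
    Nat.card (Subgroup.normalizer (T₁ : Set G)) = 4 * Nat.card T₁ ∧
    Nat.card (Subgroup.normalizer (T₂ : Set G)) = 4 * Nat.card T₂ ∧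
    {g : G | g ≠ 1 ∧ g ^ (Nat.card K ^ 2 + 1) = 1} = conjSet (sharp T₁) ∪ conjSet (sharp T₂) := by
  have := M.finite
  have hX := M.ncard_X
  have hG := M.card_G
  have hodd := odd_sq_add_one (two_dvd_card (K := K))
  have h3G := M.not_three_dvd h3
  have h3' : ¬ 3 ∣ Nat.card K ^ 2 + 1 := fun h => h3G (hG ▸ h.mul_right _)
  obtain ⟨s, hs⟩ : ∃ s, Nat.card K = s + 1 := ⟨Nat.card K - 1, by omega⟩
  have hm : 0 < Nat.card K ^ 2 * (Nat.card K - 1) := Nat.mul_pos (by positivity) (by omega)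
  generalize Nat.card K ^ 2 * (Nat.card K - 1) = m at *
  have hX' := hX
  rw [show Nat.card K * (Nat.card K - 1) = (s + 1) * s by rw [hs]; rfl] at hX'
  have lt : 2 * {g : G | g ≠ 1 ∧ g ^ (Nat.card K ^ 2 + 1) = 1}.ncard < Nat.card G := by
    rw [hX', hG, hs]; nlinarith
  have wt : ∀ T : Subgroup G, IsTorus (Nat.card K ^ 2 + 1) 4 T → ∃ w, 1 ≤ w ∧ w ≤ 4 ∧ w ≠ 3 ∧
      Nat.card (Subgroup.normalizer (T : Set G)) = w * Nat.card T ∧
      (conjSet (sharp T)).ncard * (w * Nat.card T) = Nat.card G * (Nat.card T - 1) ∧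
      4 * Nat.card G ≤ 5 * w * (conjSet (sharp T)).ncard := by
    intro T hT
    obtain ⟨w, h1, h2, h4⟩ := hT.wt
    have h6 := hT.ncard_conj
    rw [h4] at h6
    refine ⟨w, h1, h2, ?_, h4, h6, ?_⟩
    · rintro rfl
      exact h3G ((Dvd.intro _ h4.symm).trans (Subgroup.card_subgroup_dvd_card _))
    · have h5 : 5 ≤ Nat.card T := by
        have a1 := hT.one_lt_card
        have a2 := (hodd.of_dvd_nat hT.dvd)
        have a3 : Nat.card T ≠ 3 := fun e => h3' (e ▸ hT.dvd)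
        rw [Nat.odd_iff] at a2
        omega
      obtain ⟨r, hr⟩ : ∃ r, Nat.card T = r + 5 := ⟨Nat.card T - 5, by omega⟩
      rw [hr, show r + 5 - 1 = r + 4 from rfl] at h6
      apply Nat.le_of_mul_le_mul_right _ (show 0 < r + 5 by omega)
      nlinarith [Nat.zero_le (Nat.card G * r)]
  rcases M.toriHyp'.trichotomy (Dvd.intro _ hG.symm) (by have := Nat.card_pos (α := K); nlinarith) with
    ⟨T, hT, h1, h2⟩ | ⟨T₁, T₂, hT₁, hT₂, h1, hc, h2⟩ | ⟨T₁, T₂, T₃, hT₁, hT₂, hT₃, c12, c13, c23⟩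
  · exfalso
    obtain ⟨w, w1, w2, w3, -, h4, -⟩ := wt T hT
    rw [← h2, h1, hG, Nat.add_sub_cancel] at h4
    generalize {g : G | g ≠ 1 ∧ g ^ (Nat.card K ^ 2 + 1) = 1}.ncard = X at *
    rw [hs] at h4
    have h6 : w * s = 2 * (s + 1) := by
      apply Nat.eq_of_mul_eq_mul_left (show 0 < m * (s + 1) * ((s + 1) ^ 2 + 1) by positivity)
      zify at h4 hX' ⊢
      linear_combination 2 * h4 - (w * ((s + 1) ^ 2 + 1)) * hX'
    have h7 : w = 1 ∨ w = 2 ∨ w = 4 := by omega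
    rcases h7 with rfl | rfl | rfl <;> omega
  · obtain ⟨w₁, a1, a2, a3, a4, a5, a6⟩ := wt T₁ hT₁
    obtain ⟨w₂, b1, b2, b3, b4, b5, b6⟩ := wt T₂ hT₂
    rw [h2, Set.ncard_union_eq (hT₁.disjoint_conj hc)] at lt
    generalize (conjSet (sharp T₁)).ncard = c₁ at *
    generalize (conjSet (sharp T₂)).ncard = c₂ at *
    have e1 : w₁ = 4 := by
      by_contra h
      have h6 : w₁ ≤ 2 := by omega
      have := Nat.mul_le_mul_right c₁ (Nat.mul_le_mul_left 5 h6)
      have := Nat.mul_le_mul_right c₂ (Nat.mul_le_mul_left 5 b2)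
      omega
    have e2 : w₂ = 4 := by
      by_contra h
      have h6 : w₂ ≤ 2 := by omega
      have := Nat.mul_le_mul_right c₂ (Nat.mul_le_mul_left 5 h6)
      have := Nat.mul_le_mul_right c₁ (Nat.mul_le_mul_left 5 a2)
      omega
    subst e1 e2
    exact ⟨T₁, T₂, hT₁, hT₂, a4, b4, h2⟩
  · exfalso
    obtain ⟨w₁, -, a2, -, -, -, a6⟩ := wt T₁ hT₁
    obtain ⟨w₂, -, b2, -, -, -, b6⟩ := wt T₂ hT₂
    obtain ⟨w₃, -, d2, -, -, -, d6⟩ := wt T₃ hT₃
    have h4 : (conjSet (sharp T₁)).ncard + (conjSet (sharp T₂)).ncard + (conjSet (sharp T₃)).ncard ≤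
        {g : G | g ≠ 1 ∧ g ^ (Nat.card K ^ 2 + 1) = 1}.ncard := by
      rw [← Set.ncard_union_eq (hT₁.disjoint_conj c12), ← Set.ncard_union_eq
        (Set.disjoint_union_left.mpr ⟨hT₁.disjoint_conj c13, hT₂.disjoint_conj c23⟩)]
      exact Set.ncard_le_ncard (Set.union_subset (Set.union_subset hT₁.conj_subset hT₂.conj_subset) hT₃.conj_subset)
    generalize (conjSet (sharp T₁)).ncard = c₁ at *
    generalize (conjSet (sharp T₂)).ncard = c₂ at *
    generalize (conjSet (sharp T₃)).ncard = c₃ at *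
    have := Nat.mul_le_mul_right c₁ (Nat.mul_le_mul_left 5 a2)
    have := Nat.mul_le_mul_right c₂ (Nat.mul_le_mul_left 5 b2)
    have := Nat.mul_le_mul_right c₃ (Nat.mul_le_mul_left 5 d2)
    omega

include M in
/-- Every non-trivial element of odd order is inverted by an involution. -/
theorem real (hq : 2 < Nat.card K) (h3 : Nat.card K % 3 = 2) {g : G} (hg : Odd (orderOf g)) :
    ∃ s : G, s ≠ 1 ∧ s * s = 1 ∧ s * g * (s * g) = 1 := by
  have := M.finite
  have hn1 : M.n ≠ 1 := fun h => M.R.n_not_mem (h ▸ one_mem _ : M.n ∈ M.B)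
  have cj : ∀ (c x : G), (∃ s : G, s ≠ 1 ∧ s * s = 1 ∧ s * x * (s * x) = 1) →
      ∃ s : G, s ≠ 1 ∧ s * s = 1 ∧ s * (c * x * c⁻¹) * (s * (c * x * c⁻¹)) = 1 := by
    rintro c x ⟨s, h1, h2, h4⟩
    exact ⟨c * s * c⁻¹, cj_ne_one c h1, by rw [conj_mul, h2]; simp, by rw [conj_mul, conj_mul, h4]; simp⟩
  have tor : ∀ T : Subgroup G, IsTorus (Nat.card K ^ 2 + 1) 4 T →
      Nat.card (Subgroup.normalizer (T : Set G)) = 4 * Nat.card T → g ∈ conjSet (sharp T) →
      ∃ s : G, s ≠ 1 ∧ s * s = 1 ∧ s * g * (s * g) = 1 := by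
    rintro T hT hN ⟨c, x, hx, rfl⟩
    apply cj
    obtain ⟨s, hs⟩ := exists_prime_orderOf_dvd_card' (G := Subgroup.normalizer (T : Set G)) 2
      (hN ▸ Dvd.dvd.mul_right (by norm_num) _)
    have hs1 : (s : G) ≠ 1 := by
      intro e; rw [← Subgroup.orderOf_coe, e] at hs; simp at hs
    have hs2 : (s : G) * s = 1 := by rw [← pow_two, ← hs, ← Subgroup.orderOf_coe, pow_orderOf_eq_one]
    exact ⟨s, hs1, hs2, hT.inverted (odd_sq_add_one two_dvd_card) hs1 hs2 s.2 hx.1⟩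
  rcases M.classify g with rfl | ⟨c, u, hu, rfl⟩ | ⟨c, h, hh, rfl⟩ | h
  · exact ⟨M.n, hn1, M.n_sq, by simp [M.n_sq]⟩
  · exfalso
    obtain ⟨⟨a, b, rfl⟩, h1⟩ := hu
    rw [orderOf_cj] at hg
    exact h1 (eq_one_of_coprime (Nat.Coprime.pow_left 2 (Nat.coprime_two_left.mpr hg)) (M.x_pow_four a b)
      (pow_orderOf_eq_one _))
  · exact cj c h ⟨M.n, hn1, M.n_sq, M.R.nH_sq hh.1⟩
  · obtain ⟨T₁, T₂, h1, h2, h4, h5, h6⟩ := M.two_tori hq h3
    rw [h6] at h
    rcases h with h | h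
    · exact tor T₁ h1 h4 h
    · exact tor T₂ h2 h5 h

end Model

end Cfsg.Agent.H9.Suz
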