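import Mathlib

/-!
A family of subgroups whose involutions normalise only equal or commuting members: an involution
normalising two members which are neither equal nor commute centralises them.
-/

set_option autoImplicit false
set_option linter.unusedSectionVars false

namespace Cfsg.Agent.H9.W3

variable {G : Type*} [Group G]

theorem dih [Finite G] {d a : G} (hd : d * d = 1) (ha : a * a = 1) (H : Subgroup G)
    (hρ : d * a ∈ H) : (∃ g ∈ H, g * d * g⁻¹ = a) ∨ ∃ c ∈ H, c * c = 1 ∧ c ≠ 1 ∧ c * d = d * c ∧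
      c * a = a * c ∧ (((∃ g ∈ H, d * c = g * d * g⁻¹) ∧ ∃ g ∈ H, a * c = g * a * g⁻¹) ∨
        ((∃ g ∈ H, d * c = g * a * g⁻¹) ∧ ∃ g ∈ H, a * c = g * d * g⁻¹)) := by
  obtain ⟨ρ, hρd⟩ : ∃ ρ, ρ = d * a := ⟨_, rfl⟩
  rw [← hρd] at hρ
  have hd' : d⁻¹ = d := inv_eq_of_mul_eq_one_right hd
  have ha' : a⁻¹ = a := inv_eq_of_mul_eq_one_right ha
  have e1 : a = d * ρ := by rw [hρd, ← mul_assoc, hd, one_mul]
  have e2 : d * ρ * d⁻¹ = ρ⁻¹ := by rw [← e1, hρd, mul_inv_rev, ha', hd']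
  have e3 : ∀ j : ℕ, (ρ ^ j)⁻¹ * d = d * ρ ^ j := fun j => by
    have := congrArg (· ^ j) e2
    simp only [conj_pow, inv_pow] at this
    rw [← this, inv_mul_cancel_right]
  have e4 : ∀ j : ℕ, (ρ ^ j)⁻¹ * d * (ρ ^ j)⁻¹⁻¹ = d * ρ ^ (2 * j) := fun j => by
    rw [e3, inv_inv, mul_assoc, ← pow_add, two_mul]
  have e5 : ∀ j : ℕ, (ρ ^ j)⁻¹ * a * (ρ ^ j)⁻¹⁻¹ = d * ρ ^ (2 * j + 1) := fun j => by
    rw [e1, ← mul_assoc, e3, inv_inv, mul_assoc, mul_assoc, ← pow_succ', ← pow_add]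
    congr 2; omega
  have hm : ∀ j : ℕ, (ρ ^ j)⁻¹ ∈ H := fun j => H.inv_mem (H.pow_mem hρ j)
  have ho : ρ ^ orderOf ρ = 1 := pow_orderOf_eq_one ρ
  rcases Nat.even_or_odd' (orderOf ρ) with ⟨k, hk | hk⟩
  · right
    have hk0 : 0 < k := by have := orderOf_pos ρ; omega
    have hc : ρ ^ k * ρ ^ k = 1 := by rw [← pow_add, ← two_mul, ← hk, ho]
    have hcd : ρ ^ k * d = d * ρ ^ k := by
      rw [← e3, inv_eq_of_mul_eq_one_right hc]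
    refine ⟨ρ ^ k, H.pow_mem hρ k, hc, pow_ne_one_of_lt_orderOf hk0.ne' (by omega), hcd, ?_, ?_⟩
    · rw [e1, ← mul_assoc, hcd, mul_assoc, mul_assoc, ← pow_succ, ← pow_succ']
    have e6 : a * ρ ^ k = d * ρ ^ (k + 1) := by rw [e1, mul_assoc, ← pow_succ']
    rcases Nat.even_or_odd' k with ⟨j, hj | hj⟩
    · exact Or.inl ⟨⟨_, hm j, by rw [e4, hj]⟩, _, hm j, by rw [e5, e6, hj]⟩
    · exact Or.inr ⟨⟨_, hm j, by rw [e5, hj]⟩, _, hm (j + 1), by rw [e4, e6, hj]; rfl⟩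
  · refine Or.inl ⟨_, hm (k + 1), ?_⟩
    rw [e4, show 2 * (k + 1) = orderOf ρ + 1 by omega, pow_succ, ho, one_mul, ← e1]

/-- The conjugate of a subgroup. -/
def cj (g : G) (L : Subgroup G) : Subgroup G := L.map (MulAut.conj g).toMonoidHom

theorem mem_cj {g x : G} {L : Subgroup G} : x ∈ cj g L ↔ g⁻¹ * x * g ∈ L :=
  ⟨by rintro ⟨y, hy, rfl⟩; simpa [mul_assoc] using hy,
    fun h => ⟨_, h, by simp [mul_assoc]⟩⟩

theorem conj_mem_cj {g x : G} {L : Subgroup G} (h : x ∈ L) : g * x * g⁻¹ ∈ cj g L :=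
  mem_cj.2 (by simpa [mul_assoc] using h)

theorem cj_mul (g h : G) (L : Subgroup G) : cj (g * h) L = cj g (cj h L) := by
  ext x; simp [mem_cj, mul_assoc]

theorem cj_one (L : Subgroup G) : cj 1 L = L := by ext x; simp [mem_cj]

/-- The two subgroups commute. -/
def Cm (L L' : Subgroup G) : Prop := ∀ a ∈ L, ∀ b ∈ L', a * b = b * a

theorem Cm.symm {L L' : Subgroup G} (h : Cm L L') : Cm L' L := fun a ha b hb => (h b hb a ha).symm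

/-- The element `x` acts on `L` like the element `a` of `L`. -/
def Acts (x : G) (L : Subgroup G) (a : G) : Prop := a ∈ L ∧ ∀ l ∈ L, x * l * x⁻¹ = a * l * a⁻¹

theorem Acts.cj_eq {x a : G} {L : Subgroup G} (h : Acts x L a) : cj x L = L := by
  ext y
  rw [mem_cj]
  constructor
  · intro hy
    have := h.2 _ hy
    rw [show x * (x⁻¹ * y * x) * x⁻¹ = y by group] at this
    rw [this]
    exact L.mul_mem (L.mul_mem h.1 hy) (L.inv_mem h.1)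
  · intro hy
    have h1 := L.mul_mem (L.mul_mem (L.inv_mem h.1) hy) h.1
    have := h.2 _ h1
    rw [show a * (a⁻¹ * y * a) * a⁻¹ = y by group] at this
    rw [← this, show x⁻¹ * (x * (a⁻¹ * y * a) * x⁻¹) * x = a⁻¹ * y * a by group]
    exact h1

theorem Acts.mul {x y a b : G} {L : Subgroup G} (h : Acts x L a) (h' : Acts y L b) :
    Acts (x * y) L (a * b) :=
  ⟨L.mul_mem h.1 h'.1, fun l hl => by
    have := h.2 _ (L.mul_mem (L.mul_mem h'.1 hl) (L.inv_mem h'.1))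
    rw [show x * y * l * (x * y)⁻¹ = x * (y * l * y⁻¹) * x⁻¹ by group, h'.2 l hl, this]
    group⟩

theorem acts_self {a : G} {L : Subgroup G} (h : a ∈ L) : Acts a L a := ⟨h, fun _ _ => rfl⟩

theorem acts_one {x : G} {L : Subgroup G} (h : ∀ l ∈ L, x * l = l * x) : Acts x L 1 :=
  ⟨L.one_mem, fun l hl => by simp [h l hl]⟩

theorem Acts.pow {x a : G} {L : Subgroup G} (h : Acts x L a) (n : ℕ) : Acts (x ^ n) L (a ^ n) := by
  induction n with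
  | zero => simpa using acts_self L.one_mem
  | succ n ih => rw [pow_succ, pow_succ]; exact ih.mul h

theorem Acts.conj {x a g : G} {L : Subgroup G} (h : Acts x L a) (hg : g * x = x * g) :
    Acts x (cj g L) (g * a * g⁻¹) :=
  ⟨conj_mem_cj h.1, fun l hl => by
    have h1 := h.2 _ (mem_cj.1 hl)
    have h2 : x = g * x * g⁻¹ := by rw [hg, mul_inv_cancel_right]
    calc x * l * x⁻¹ = g * (x * (g⁻¹ * l * g) * x⁻¹) * g⁻¹ := by
          conv_lhs => rw [h2]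
          group
      _ = _ := by rw [h1]; group⟩

theorem Acts.comm {x a : G} {L : Subgroup G} (h : Acts x L a) : x * a = a * x := by
  have := h.2 a h.1
  rw [mul_inv_cancel_right] at this
  rw [← this, inv_mul_cancel_right, this]

/-- The hypotheses. -/
structure Ctx (X : Subgroup G) (Ω : Set (Subgroup G)) : Prop where
  le : ∀ L ∈ Ω, L ≤ X
  conj : ∀ L ∈ Ω, ∀ g ∈ X, cj g L ∈ Ω
  eq : ∀ L ∈ Ω, ∀ L' ∈ Ω, ∀ d, d * d = 1 → d ≠ 1 → d ∈ L → d ∈ L' → L = L'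
  rig : ∀ L ∈ Ω, ∀ L' ∈ Ω, ∀ d ∈ L, d * d = 1 → d ≠ 1 → cj d L' = L' → L = L' ∨ Cm L L'
  act : ∀ L ∈ Ω, ∀ x, cj x L = L → ∃ a, Acts x L a
  cent : ∀ L ∈ Ω, ∀ a ∈ L, (∀ l ∈ L, a * l = l * a) → a = 1
  four : ∀ L ∈ Ω, ∀ d ∈ L, d * d = 1 → d ≠ 1 →
    ∃ e ∈ L, e * e = 1 ∧ e ≠ 1 ∧ e ≠ d ∧ e * d = d * e
  ex : ∀ L ∈ Ω, ∃ d ∈ L, d * d = 1 ∧ d ≠ 1

theorem conj_sq {g d : G} (h : d * d = 1) : g * d * g⁻¹ * (g * d * g⁻¹) = 1 := by
  rw [show g * d * g⁻¹ * (g * d * g⁻¹) = g * (d * d) * g⁻¹ by group, h]; group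

theorem conj_ne {g d : G} (h : d ≠ 1) : g * d * g⁻¹ ≠ 1 := fun e => h (by
  rw [show d = g⁻¹ * (g * d * g⁻¹) * g by group, e]; group)

namespace Ctx

variable {X : Subgroup G} {Ω : Set (Subgroup G)} (h : Ctx X Ω)
include h

theorem acts_unique {L : Subgroup G} (hL : L ∈ Ω) {x a b : G} (ha : Acts x L a)
    (hb : Acts x L b) : a = b := by
  have := h.cent L hL (b⁻¹ * a) (L.mul_mem (L.inv_mem hb.1) ha.1) fun l hl => by
    have h1 := (ha.2 l hl).symm.trans (hb.2 l hl)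
    calc b⁻¹ * a * l = b⁻¹ * (a * l * a⁻¹) * a := by group
      _ = _ := by rw [h1]; group
  exact (inv_mul_eq_one.1 this).symm

theorem acts_sq {L : Subgroup G} (hL : L ∈ Ω) {x a : G} (ha : Acts x L a) (hx : x * x = 1) :
    a * a = 1 :=
  h.acts_unique hL (hx ▸ ha.mul ha) (acts_self L.one_mem)

theorem cj_eq_of_comm {L : Subgroup G} (hL : L ∈ Ω) {x d : G} (hx : x ∈ X) (hd : d ∈ L)
    (h1 : d * d = 1) (h2 : d ≠ 1) (h3 : x * d = d * x) : cj x L = L :=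
  h.eq _ (h.conj L hL x hx) _ hL d h1 h2
    (by simpa [h3] using conj_mem_cj (g := x) hd) hd

theorem rel_of_comm {L L' : Subgroup G} (hL : L ∈ Ω) (hL' : L' ∈ Ω) {d a : G} (hd : d ∈ L)
    (h1 : d * d = 1) (h2 : d ≠ 1) (ha : a ∈ L') (h3 : a * a = 1) (h4 : a ≠ 1)
    (h5 : d * a = a * d) : L = L' ∨ Cm L L' :=
  h.rig L hL L' hL' d hd h1 h2 (h.cj_eq_of_comm hL' (h.le L hL hd) ha h3 h4 h5)

/-- An element of `L` acting nontrivially on `L'`, of order two. -/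
theorem eq_of_acts {L L' : Subgroup G} (hL : L ∈ Ω) (hL' : L' ∈ Ω) {d a : G} (hd : d ∈ L)
    (h1 : d * d = 1) (ha : Acts d L' a) (h2 : a ≠ 1) : L = L' := by
  have h3 : d ≠ 1 := by
    rintro rfl
    exact h2 (h.acts_unique hL' ha (acts_self L'.one_mem))
  refine (h.rig L hL L' hL' d hd h1 h3 ha.cj_eq).resolve_right fun hc => h2 ?_
  exact h.acts_unique hL' ha (acts_one (hc d hd))

theorem odd_of_bad [Finite G] {L L' : Subgroup G} (hL : L ∈ Ω) (hL' : L' ∈ Ω)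
    (hb : ¬ (L = L' ∨ Cm L L')) {x a : G} (hx : x ∈ L) (ha : Acts x L' a) (h1 : a * a = 1) :
    a = 1 := by
  rcases Nat.even_or_odd' (orderOf x) with ⟨k, hk | hk⟩
  · have hk0 : 0 < k := by have := orderOf_pos x; omega
    exact absurd (h.rig L hL L' hL' (x ^ k) (L.pow_mem hx k)
      (by rw [← pow_add, ← two_mul, ← hk, pow_orderOf_eq_one])
      (pow_ne_one_of_lt_orderOf hk0.ne' (by omega)) (ha.pow k).cj_eq) hb
  · have h2 := ha.pow (orderOf x)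
    rw [pow_orderOf_eq_one, hk, pow_succ, pow_mul, sq, h1, one_pow, one_mul] at h2
    exact h.acts_unique hL' h2 (acts_self L'.one_mem)

section Pair

variable [Finite G] {L₁ L₂ : Subgroup G} (h₁ : L₁ ∈ Ω) (h₂ : L₂ ∈ Ω) (hc : Cm L₁ L₂) {d₁ d₂ : G}
  (m₁ : d₁ ∈ L₁) (m₂ : d₂ ∈ L₂) (s₁ : d₁ * d₁ = 1) (s₂ : d₂ * d₂ = 1) (n₁ : d₁ ≠ 1) (n₂ : d₂ ≠ 1)

omit h [Finite G] in
include hc m₁ m₂ in
theorem acts_fst : Acts (d₁ * d₂) L₁ d₁ := by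
  simpa using (acts_self m₁).mul (acts_one (x := d₂) fun l hl => (hc l hl d₂ m₂).symm)

omit h [Finite G] in
include hc m₁ m₂ in
theorem acts_snd : Acts (d₁ * d₂) L₂ d₂ := by
  simpa using (acts_one (x := d₁) (hc d₁ m₁)).mul (acts_self m₂)

omit [Finite G] in
include h₂ hc m₁ m₂ s₁ s₂ in
theorem eq_snd {L : Subgroup G} (hL : L ∈ Ω) {a : G} (ha : Acts (d₁ * d₂) L a) (h0 : a ≠ 1)
    (hr : Cm L₁ L) : L₂ = L ∧ a = d₂ := by
  have h3 : Acts d₂ L a := by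
    simpa [← mul_assoc, s₁] using (acts_one (x := d₁) (hr d₁ m₁)).mul ha
  obtain rfl := h.eq_of_acts h₂ hL m₂ s₂ h3 h0
  exact ⟨rfl, h.acts_unique hL ha (acts_snd hc m₁ m₂)⟩

omit [Finite G] in
include h₁ m₁ m₂ s₁ s₂ n₁ n₂ h₂ in
theorem bad_snd {L : Subgroup G} (hL : L ∈ Ω) (hz : cj (d₁ * d₂) L = L)
    (hb : ¬ (L₁ = L ∨ Cm L₁ L)) : ¬ (L₂ = L ∨ Cm L₂ L) := fun h1 => by
  have h3 : cj d₂ L = L := by
    rcases h1 with rfl | h1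
    · exact (acts_self m₂).cj_eq
    · exact (acts_one (h1 d₂ m₂)).cj_eq
  exact hb (h.rig _ h₁ _ hL d₁ m₁ s₁ n₁ (by rw [← h3, ← cj_mul, hz, h3]))

include h₁ h₂ hc m₁ m₂ s₁ s₂ n₁ in
theorem step {L : Subgroup G} (hL : L ∈ Ω) (hb : ¬ (L₁ = L ∨ Cm L₁ L)) {a : G}
    (ha : Acts (d₁ * d₂) L a) (a1 : a * a = 1) (a0 : a ≠ 1) {d : G} (hd : d ∈ L₁) (e1 : d * d = 1)
    (e0 : d ≠ 1) (e2 : d ≠ d₁) (e3 : d * d₁ = d₁ * d) : ∃ e ∈ L₂, Acts (d * e) L a := by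
  have hz₁ := acts_fst hc m₁ m₂
  have hdz : d * (d₁ * d₂) = d₁ * d₂ * d := by
    rw [← mul_assoc, e3, mul_assoc, mul_assoc, hc d hd d₂ m₂]
  have hH : ∀ g, g ∈ X ⊓ Subgroup.centralizer {d₁ * d₂} → g ∈ X ∧ g * (d₁ * d₂) = d₁ * d₂ * g :=
    fun g hg => ⟨hg.1, (Subgroup.mem_centralizer_singleton_iff.1 hg.2)⟩
  have hnot : ∀ c ∈ L₁, c * c = 1 → c ≠ 1 → c * a ≠ a * c := fun c h1 h2 h3 h4 =>
    hb (h.rel_of_comm h₁ hL h1 h2 h3 ha.1 a1 a0 h4)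
  rcases dih e1 a1 (X ⊓ Subgroup.centralizer {d₁ * d₂})
    ⟨X.mul_mem (h.le _ h₁ hd) (h.le _ hL ha.1), Subgroup.mem_centralizer_singleton_iff.2 (by
      rw [mul_assoc d a, ← ha.comm, ← mul_assoc d, hdz, mul_assoc _ d])⟩ with
    ⟨g, hg, e4⟩ | ⟨c, hcH, c1, c0, cd, ca, ⟨⟨g, hg, e4⟩, g', hg', e5⟩ | ⟨⟨g, hg, e4⟩, -⟩⟩
  · obtain ⟨g1, g2⟩ := hH g hg
    have e5 : cj g L₁ = L := h.eq _ (h.conj _ h₁ g g1) _ hL a a1 a0 (e4 ▸ conj_mem_cj hd) ha.1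
    have e6 := h.acts_unique hL ha (e5 ▸ hz₁.conj g2)
    exact absurd (by simpa using e4.trans e6) e2
  · obtain ⟨g1, g2⟩ := hH g hg
    obtain ⟨g3, g4⟩ := hH g' hg'
    have k1 : d * c ∈ cj g L₁ := e4 ▸ conj_mem_cj hd
    have k2 : c = d * (d * c) := by rw [← mul_assoc, e1, one_mul]
    rcases h.rel_of_comm h₁ (h.conj _ h₁ g g1) hd e1 e0 k1 (e4 ▸ conj_sq e1) (e4 ▸ conj_ne e0)
      (by rw [mul_assoc, cd]) with k3 | k3
    · exact absurd ca (hnot c (k2 ▸ L₁.mul_mem hd (k3 ▸ k1)) c1 c0)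
    obtain ⟨k4, -⟩ := h.eq_snd h₂ hc m₁ m₂ s₁ s₂ (h.conj _ h₁ g g1) (hz₁.conj g2) (conj_ne n₁) k3
    refine ⟨d * c, k4 ▸ k1, ?_⟩
    rw [← k2]
    have k5 : a * c ∈ cj g' L := e5 ▸ conj_mem_cj ha.1
    rcases h.rel_of_comm hL (h.conj _ hL g' g3) ha.1 a1 a0 k5 (e5 ▸ conj_sq a1) (e5 ▸ conj_ne a0)
      (by rw [mul_assoc, ca]) with k6 | k6
    · have := h.acts_unique hL ha (k6.symm ▸ ha.conj g4)
      rw [← e5] at this
      exact absurd (by simpa using this) c0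
    · simpa [← mul_assoc, a1] using (acts_self ha.1).mul
        (acts_one (x := a * c) fun l hl => (k6 l hl _ k5).symm)
  · obtain ⟨g1, g2⟩ := hH g hg
    have k1 : d * c ∈ cj g L := e4 ▸ conj_mem_cj ha.1
    have k2 : c = d * (d * c) := by rw [← mul_assoc, e1, one_mul]
    rcases h.rel_of_comm h₁ (h.conj _ hL g g1) hd e1 e0 k1 (e4 ▸ conj_sq a1) (e4 ▸ conj_ne a0)
      (by rw [mul_assoc, cd]) with k3 | k3
    · exact absurd ca (hnot c (k2 ▸ L₁.mul_mem hd (k3 ▸ k1)) c1 c0)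
    obtain ⟨-, k4⟩ := h.eq_snd h₂ hc m₁ m₂ s₁ s₂ (h.conj _ hL g g1) (ha.conj g2) (conj_ne a0) k3
    have k5 : c * (d₁ * d₂) = d * d₁ := by
      rw [k2, e4, k4, hc d₁ m₁ d₂ m₂, mul_assoc, ← mul_assoc d₂, s₂, one_mul]
    refine absurd ?_ (hnot (d * d₁) (L₁.mul_mem hd m₁) ?_ fun e => e2 ?_)
    · rw [← k5, mul_assoc, ha.comm, ← mul_assoc, ca, mul_assoc]
    · rw [mul_assoc, ← mul_assoc d₁, ← e3, mul_assoc, s₁, mul_one, e1]
    · rw [← mul_one d, ← s₁, ← mul_assoc, e, one_mul]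

include h₁ h₂ hc m₁ m₂ s₁ s₂ n₁ n₂ in
theorem rel_of_acts {L : Subgroup G} (hL : L ∈ Ω) {a : G} (ha : Acts (d₁ * d₂) L a)
    (a0 : a ≠ 1) : L₁ = L ∨ Cm L₁ L := by
  by_contra hb
  have a1 : a * a = 1 := h.acts_sq hL ha (by
    rw [mul_assoc, ← mul_assoc d₂, ← hc d₁ m₁ d₂ m₂, mul_assoc, s₂, mul_one, s₁])
  obtain ⟨d, hd, e1, e0, e2, e3⟩ := h.four _ h₁ d₁ m₁ s₁ n₁
  obtain ⟨e, he, k1⟩ := h.step h₁ h₂ hc m₁ m₂ s₁ s₂ n₁ hL hb ha a1 a0 hd e1 e0 e2 e3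
  obtain ⟨e', he', k2⟩ := h.step h₁ h₂ hc m₁ m₂ s₁ s₂ n₁ hL hb ha a1 a0 (L₁.mul_mem hd m₁)
    (by rw [mul_assoc, ← mul_assoc d₁, ← e3, mul_assoc, s₁, mul_one, e1])
    (fun e => e2 (by rw [← mul_one d, ← s₁, ← mul_assoc, e, one_mul])) (by simpa using e0)
    (by rw [mul_assoc, s₁, mul_one, e3, ← mul_assoc, s₁, one_mul])
  have k3 := (ha.mul k1).mul k2
  rw [a1, one_mul, show d₁ * d₂ * (d * e) * (d * d₁ * e') = d₂ * e * e' by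
    have k4 := hc _ hd _ (L₂.mul_mem m₂ he)
    have k5 := hc _ (L₁.mul_mem hd m₁) _ (L₂.mul_mem m₂ he)
    calc _ = d₁ * (d₂ * d) * e * (d * d₁ * e') := by group
      _ = d₁ * d * (d₂ * e * (d * d₁)) * e' := by rw [← hc d hd d₂ m₂]; group
      _ = d₁ * (d * d) * d₁ * (d₂ * e) * e' := by rw [← k5]; group
      _ = _ := by rw [e1, mul_one, s₁, one_mul]] at k3
  exact a0 (h.odd_of_bad h₂ hL (h.bad_snd h₁ h₂ m₁ m₂ s₁ s₂ n₁ n₂ hL ha.cj_eq hb)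
    (L₂.mul_mem (L₂.mul_mem m₂ he) he') k3 a1)

include h₁ h₂ hc m₁ m₂ s₁ s₂ n₁ n₂ in
theorem mem_pair {L : Subgroup G} (hL : L ∈ Ω) {a : G} (ha : Acts (d₁ * d₂) L a)
    (a0 : a ≠ 1) : a = d₁ ∨ a = d₂ :=
  (h.rel_of_acts h₁ h₂ hc m₁ m₂ s₁ s₂ n₁ n₂ hL ha a0).imp
    (fun e : L₁ = L => h.acts_unique hL ha (e ▸ acts_fst hc m₁ m₂))
    fun e => (h.eq_snd h₂ hc m₁ m₂ s₁ s₂ hL ha a0 e).2

include h₁ h₂ hc m₁ m₂ s₁ s₂ n₁ n₂ in
theorem rel_of_cj {L : Subgroup G} (hL : L ∈ Ω) (hz : cj (d₁ * d₂) L = L) :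
    L₁ = L ∨ Cm L₁ L := by
  obtain ⟨b, hb'⟩ := h.act L hL _ hz
  by_cases b0 : b ≠ 1
  · exact h.rel_of_acts h₁ h₂ hc m₁ m₂ s₁ s₂ n₁ n₂ hL hb' b0
  obtain rfl := not_not.1 b0
  by_contra hb
  have hb2 := h.bad_snd h₁ h₂ m₁ m₂ s₁ s₂ n₁ n₂ hL hz hb
  obtain ⟨a, ha, a1, a0⟩ := h.ex L hL
  have hz₁ := acts_fst hc m₁ m₂
  have hza : ∀ l ∈ L, d₁ * d₂ * l = l * (d₁ * d₂) := fun l hl => by
    have := hb'.2 l hl
    rw [one_mul, inv_one, mul_one] at this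
    rw [← this, inv_mul_cancel_right, this]
  have hH : ∀ g, g ∈ X ⊓ Subgroup.centralizer {d₁ * d₂} → g ∈ X ∧ g * (d₁ * d₂) = d₁ * d₂ * g :=
    fun g hg => ⟨hg.1, (Subgroup.mem_centralizer_singleton_iff.1 hg.2)⟩
  rcases dih s₁ a1 (X ⊓ Subgroup.centralizer {d₁ * d₂})
    ⟨X.mul_mem (h.le _ h₁ m₁) (h.le _ hL ha), Subgroup.mem_centralizer_singleton_iff.2 (by
      rw [mul_assoc d₁ a, ← hza a ha, ← mul_assoc d₁, ← hz₁.comm, mul_assoc _ d₁])⟩ with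
    ⟨g, hg, e4⟩ | ⟨c, hcH, c1, c0, cd, ca, ⟨⟨g, hg, e4⟩, g', hg', e5⟩ | ⟨-, g, hg, e4⟩⟩
  · obtain ⟨g1, g2⟩ := hH g hg
    have e5 : cj g L₁ = L := h.eq _ (h.conj _ h₁ g g1) _ hL a a1 a0 (e4 ▸ conj_mem_cj m₁) ha
    exact a0 (h.acts_unique hL (e4 ▸ e5 ▸ hz₁.conj g2) hb')
  · obtain ⟨g1, g2⟩ := hH g hg
    obtain ⟨g3, g4⟩ := hH g' hg'
    have k1 : c = d₁ * d₂ := by
      rcases h.mem_pair h₁ h₂ hc m₁ m₂ s₁ s₂ n₁ n₂ (h.conj _ h₁ g g1) (hz₁.conj g2)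
        (conj_ne n₁) with k | k
      · exact absurd (by simpa using e4.trans k) c0
      · rw [← k, ← e4, ← mul_assoc, s₁, one_mul]
    have k5 : a * c ∈ cj g' L := e5 ▸ conj_mem_cj ha
    rcases h.rel_of_comm hL (h.conj _ hL g' g3) ha a1 a0 k5 (e5 ▸ conj_sq a1) (e5 ▸ conj_ne a0)
      (by rw [mul_assoc, ca]) with k6 | k6
    · have k7 : c ∈ L := by simpa [← mul_assoc, a1] using L.mul_mem ha (show a * c ∈ L by rwa [← k6] at k5)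
      exact c0 (h.cent L hL c k7 (k1 ▸ hza))
    · refine a0 (h.cent L hL a ha fun l hl => ?_)
      have := k6 l hl _ k5
      rw [mul_assoc, k1, hza l hl, ← mul_assoc, ← mul_assoc, ← mul_assoc, ← mul_assoc] at this
      simpa using this.symm
  · obtain ⟨g1, g2⟩ := hH g hg
    have k1 : a * c * a = a * (a * c) := by rw [mul_assoc, ca]
    rcases h.mem_pair h₁ h₂ hc m₁ m₂ s₁ s₂ n₁ n₂ (h.conj _ h₁ g g1) (hz₁.conj g2)
      (conj_ne n₁) with k | k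
    · exact hb (h.rel_of_comm h₁ hL m₁ s₁ n₁ ha a1 a0 (by rwa [e4, k] at k1))
    · exact hb2 (h.rel_of_comm h₂ hL m₂ s₂ n₂ ha a1 a0 (by rwa [e4, k] at k1))

end Pair

variable [Finite G]

theorem conj_of_bad {L L' : Subgroup G} (hL : L ∈ Ω) (hL' : L' ∈ Ω) (hb : ¬ (L = L' ∨ Cm L L'))
    {d a : G} (hd : d ∈ L) (d1 : d * d = 1) (d0 : d ≠ 1) (ha : a ∈ L') (a1 : a * a = 1)
    (a0 : a ≠ 1) (H : Subgroup G) (hH : d * a ∈ H) :
    ∃ g ∈ H, g * d * g⁻¹ = a ∧ cj g L = L' := by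
  rcases dih d1 a1 (X ⊓ H) ⟨X.mul_mem (h.le _ hL hd) (h.le _ hL' ha), hH⟩ with
    ⟨g, hg, e⟩ | ⟨c, hcH, c1, c0, cd, ca, hc⟩
  · exact ⟨g, hg.2, e, h.eq _ (h.conj _ hL g hg.1) _ hL' a a1 a0 (e ▸ conj_mem_cj hd) ha⟩
  obtain ⟨L'', k1, k2, k3, k4⟩ : ∃ L'' ∈ Ω, d * c ∈ L'' ∧ d * c * (d * c) = 1 ∧ d * c ≠ 1 := by
    rcases hc with ⟨⟨g, hg, e⟩, -⟩ | ⟨⟨g, hg, e⟩, -⟩
    · exact ⟨_, h.conj _ hL g hg.1, e ▸ conj_mem_cj hd, e ▸ conj_sq d1, e ▸ conj_ne d0⟩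
    · exact ⟨_, h.conj _ hL' g hg.1, e ▸ conj_mem_cj ha, e ▸ conj_sq a1, e ▸ conj_ne a0⟩
  have k5 : c = d * (d * c) := by rw [← mul_assoc, d1, one_mul]
  rcases h.rel_of_comm hL k1 hd d1 d0 k2 k3 k4 (by rw [mul_assoc, cd]) with k6 | k6
  · exact absurd (h.rel_of_comm hL hL' (k5 ▸ L.mul_mem hd (k6 ▸ k2)) c1 c0 ha a1 a0 ca) hb
  · exact absurd (h.rel_of_cj hL k1 k6 hd k2 d1 k3 d0 k4 hL'
      (k5 ▸ h.cj_eq_of_comm hL' hcH.1 ha a1 a0 ca)) hb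

/-- An involution acting nontrivially on `L` normalises only members equal to or commuting
with `L`. -/
theorem rel_of_invol {L L' : Subgroup G} (hL : L ∈ Ω) (hL' : L' ∈ Ω) {x b : G} (hx : x * x = 1)
    (hb : Acts x L b) (b0 : b ≠ 1) (hx' : cj x L' = L') : L = L' ∨ Cm L L' := by
  by_contra hbad
  obtain ⟨a, ha⟩ := h.act L' hL' x hx'
  have b1 := h.acts_sq hL hb hx
  have a1 := h.acts_sq hL' ha hx
  have key : ∀ d ∈ L, d * d = 1 → d ≠ 1 → d * b = b * d → ∀ a' ∈ L', a' * a' = 1 → a' ≠ 1 →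
      a' * a = a * a' → ∃ g, g * d * g⁻¹ = a' ∧ g * b * g⁻¹ = a := by
    intro d hd d1 d0 db a' ha' e1 e0 e2
    have k1 : x * d = d * x := by
      have := hb.2 d hd
      rw [← db, mul_inv_cancel_right] at this
      rw [← this, inv_mul_cancel_right, this]
    have k2 : x * a' = a' * x := by
      have := ha.2 a' ha'
      rw [← e2, mul_inv_cancel_right] at this
      rw [← this, inv_mul_cancel_right, this]
    obtain ⟨g, hg, k3, k4⟩ := h.conj_of_bad hL hL' hbad hd d1 d0 ha' e1 e0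
      (Subgroup.centralizer {x}) (Subgroup.mem_centralizer_singleton_iff.2 (by
        rw [mul_assoc, ← k2, ← mul_assoc, ← k1, mul_assoc]))
    exact ⟨g, k3, h.acts_unique hL'
      (k4 ▸ hb.conj (Subgroup.mem_centralizer_singleton_iff.1 hg)) ha⟩
  by_cases a0 : a = 1
  · obtain ⟨a', k1, k2, k3⟩ := h.ex L' hL'
    obtain ⟨g, -, k4⟩ := key b hb.1 b1 b0 rfl a' k1 k2 k3 (by simp [a0])
    exact conj_ne b0 (k4.trans a0)
  · obtain ⟨d, hd, e1, e0, e2, e3⟩ := h.four _ hL b hb.1 b1 b0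
    obtain ⟨g, k3, k4⟩ := key d hd e1 e0 e3 a ha.1 a1 a0 rfl
    exact e2 (by simpa using k3.trans k4.symm)

end Ctx

end Cfsg.Agent.H9.W3
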